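import Cfsg.Agent.Lib.AutPSp.OutFour
import Cfsg.Agent.Lib.Balance.Core
import Cfsg.Agent.S0247

/-!
Local balance at outer automorphisms of prime order of `PSp_{2m}(F)`.
-/

set_option autoImplicit false

namespace Cfsg.Agent.Lib.AutPSp

open Matrix Cfsg.Agent.Lib.Forms Cfsg.Agent.Lib.Classical

universe u v

variable {m : ℕ} {F : Type u} [Field F]

theorem center_P (hm : 1 ≤ m) [Fintype F] : Subgroup.center (P m F) = ⊥ := by
  rw [Subgroup.eq_bot_iff_forall]
  intro a ha
  obtain ⟨s, rfl⟩ := pr_surjective a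
  have h : (MulAut.conj (pr s) : MulAut (P m F)) = 1 := MulEquiv.ext fun z => by
    rw [MulAut.conj_apply, ← Subgroup.mem_center_iff.1 ha z, mul_inv_cancel_right, MulAut.one_apply]
  rw [inn_eq, conjHom_eq_one_iff hm] at h
  obtain ⟨c, hc⟩ := h
  refine (QuotientGroup.eq_one_iff s).2 (mem_center_of_fixes_lines m s fun v => ⟨(c : F), ?_⟩)
  have := congrArg (fun g : ↥(Cfsg.GSp m F) => ((g : GL (I m) F) : Matrix (I m) (I m) F) *ᵥ v) hc
  simp only [spIn_coe, scal_mulVec] at this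
  exact this

theorem eq_of_conj_eq (hm : 1 ≤ m) [Fintype F] {a b : P m F}
    (h : (MulAut.conj a : MulAut (P m F)) = MulAut.conj b) : a = b := by
  have hinj : Function.Injective (MulAut.conj : P m F →* MulAut (P m F)) := by
    rw [← MonoidHom.ker_eq_bot_iff, eq_bot_iff, ← center_P hm]
    intro z hz
    refine Subgroup.mem_center_iff.2 fun k => ?_
    have h := DFunLike.congr_fun (hz : MulAut.conj z = 1) k
    exact (mul_inv_eq_iff_eq_mul.1 h).symm
  exact hinj h

theorem conj_map_aut (c : MulAut (P m F)) (k : P m F) :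
    c * MulAut.conj k * c⁻¹ = MulAut.conj (c k) :=
  MulEquiv.ext fun z => by simp

theorem mapGSp_scal (σ : F ≃+* F) (c : Fˣ) : mapGSp σ (scal m F c) = scal m F (AutPSL.mapU σ c) :=
  Subtype.ext (mapG_scalar σ c)

theorem mult_map (hm : 1 ≤ m) (σ : F ≃+* F) (g : ↥(Cfsg.GSp m F)) :
    mult hm (mapGSp σ g) = AutPSL.mapU σ (mult hm g) := by
  have hf0 : (fun i => σ ((f (⟨0, hm⟩ : Fin m) : I m → F) i)) = f ⟨0, hm⟩ := by
    funext i; by_cases hi : i = Sum.inr ⟨0, hm⟩ <;> simp [f, hi]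
  have he0 : (fun i => σ ((e (⟨0, hm⟩ : Fin m) : I m → F) i)) = e ⟨0, hm⟩ := by
    funext i; by_cases hi : i = Sum.inl ⟨0, hm⟩ <;> simp [e, hi]
  apply Units.ext
  symm
  calc σ (mult hm g : F) = σ (B m F (((g : GL (I m) F) : Matrix (I m) (I m) F) *ᵥ f ⟨0, hm⟩)
        (((g : GL (I m) F) : Matrix (I m) (I m) F) *ᵥ e ⟨0, hm⟩)) := rfl
    _ = B m F (((mapGSp σ g : GL (I m) F) : Matrix (I m) (I m) F) *ᵥ f ⟨0, hm⟩)
        (((mapGSp σ g : GL (I m) F) : Matrix (I m) (I m) F) *ᵥ e ⟨0, hm⟩) := by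
      rw [← B_map, ← map_mulVec', ← map_mulVec', hf0, he0]; rfl
    _ = _ := rfl

theorem tp_std (g : ↥(Cfsg.GSp m F)) (σ : F ≃+* F) : TP (conjHom m F g * D (fieldSp σ)) := by
  obtain ⟨μ, hμ⟩ := mem_GSp.1 g.2
  intro v c hv hc
  refine ⟨((g : GL (I m) F) : Matrix (I m) (I m) F) *ᵥ fun i => σ (v i), σ c * (μ⁻¹ : Fˣ), ?_, ?_, ?_⟩
  · intro h0
    have h' := congrArg (fun z => (((g : GL (I m) F)⁻¹ : GL (I m) F) : Matrix (I m) (I m) F) *ᵥ z) h0
    simp only [mulVec_mulVec, ← Units.val_mul, inv_mul_cancel, Units.val_one, one_mulVec,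
      mulVec_zero] at h'
    exact hv (funext fun i => σ.injective (by rw [congrFun h' i]; simp))
  · exact mul_ne_zero (fun h0 => hc (σ.injective (by rw [h0, map_zero]))) (Units.ne_zero _)
  · rw [MulAut.mul_apply, field_tr, conjHom_tr g hμ]

theorem TP.pow {β : MulAut (P m F)} (h : TP β) : ∀ n : ℕ, TP (β ^ n)
  | 0 => by rw [pow_zero]; exact TP.one
  | n + 1 => by rw [pow_succ]; exact (TP.pow h n).mul h

/-- An automorphism of odd order is standard. -/
theorem std_of_odd [Fintype F] (hm : 2 ≤ m) (hs : m = 2 → 3 ≤ Fintype.card F) (β : MulAut (P m F))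
    (h : (2 : F) ≠ 0 ∨ Odd (orderOf β)) :
    ∃ (g : ↥(Cfsg.GSp m F)) (σ : F ≃+* F), β = conjHom m F g * D (fieldSp σ) := by
  by_cases hgood : (2 : F) ≠ 0 ∨ 3 ≤ m
  · exact std_all (by omega) hgood β
  push Not at hgood
  obtain ⟨h20, hm3⟩ := hgood
  obtain rfl : m = 2 := by omega
  obtain ⟨γ, hγe, hγs⟩ := exists_exo h20 (hs rfl)
  have hγ : ¬ TP γ := fun hh => by
    obtain ⟨g, σ, hg⟩ := std_all_tp (by norm_num) hh
    exact exo_ne_std h20 hγe g σ hg
  obtain ⟨g, σ, e | e⟩ := std_or_exo h20 hγs β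
  · exact ⟨g, σ, e⟩
  refine std_all_tp (by norm_num) ?_
  obtain ⟨k, hk⟩ := h.resolve_left (not_not.2 h20)
  have hsq : TP (β * β) := by
    obtain ⟨g', σ', e' | e'⟩ := std_or_exo h20 hγs (β * β)
    · rw [e']; exact tp_std g' σ'
    · exfalso
      refine hγ ?_
      have : γ = conjHom 2 F g * D (fieldSp σ) *
          (conjHom 2 F g' * D (fieldSp σ'))⁻¹ * (conjHom 2 F g * D (fieldSp σ)) := by
        rw [e, mul_assoc, mul_right_inj] at e'
        rw [← e']
        group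
      rw [this]
      exact ((tp_std g σ).mul (tp_std g' σ').inv).mul (tp_std g σ)
  have hb : β = (β * β) ^ (k + 1) := by
    rw [← sq, ← pow_mul, show 2 * (k + 1) = 2 * k + 1 + 1 by ring, pow_succ, ← hk, pow_orderOf_eq_one,
      one_mul]
  rw [hb]
  exact hsq.pow _

/-! ### The fixed subgroup -/

section Fixed

variable {F₀ : Type v} [Field F₀] (ι : F₀ →+* F)

theorem mulVec_incl (M : Matrix (I m) (I m) F₀) (v : I m → F₀) :
    M.map ι *ᵥ (ι ∘ v) = ι ∘ (M *ᵥ v) :=
  funext fun i => (RingHom.map_mulVec ι M v i).symm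

theorem J_map : (Matrix.J (Fin m) F₀).map ι = Matrix.J (Fin m) F := by
  rw [Matrix.J, Matrix.fromBlocks_map]
  congr 1 <;> ext i j <;> simp [Matrix.one_apply, apply_ite ι]

theorem B_incl (u v : I m → F₀) : B m F (ι ∘ u) (ι ∘ v) = ι (B m F₀ u v) := by
  simp only [B, stdB_apply, Cfsg.sympForm]
  rw [← J_map ι, mulVec_incl, RingHom.map_dotProduct]

theorem incl_mem (s : S m F₀) :
    (s : Matrix (I m) (I m) F₀).map ι ∈ Matrix.symplecticGroup (Fin m) F := by
  have h := congrArg (fun M : Matrix (I m) (I m) F₀ => M.map ι) (SymplecticGroup.mem_iff.1 s.2)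
  rw [SymplecticGroup.mem_iff]
  simp only [Matrix.map_mul, Matrix.transpose_map, J_map] at h
  exact h

/-- Entrywise inclusion. -/
def liftS : S m F₀ →* S m F where
  toFun s := ⟨_, incl_mem ι s⟩
  map_one' := Subtype.ext (Matrix.map_one _ (map_zero ι) (map_one ι))
  map_mul' s t := Subtype.ext (by
    show ((s : Matrix (I m) (I m) F₀) * t).map ι = _
    rw [Matrix.map_mul]; rfl)

theorem liftS_coe (s : S m F₀) :
    (liftS ι s : Matrix (I m) (I m) F) = (s : Matrix (I m) (I m) F₀).map ι := rfl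

theorem liftS_spT (v : I m → F₀) (c : F₀) : liftS ι (spT m v c) = spT m (ι ∘ v) (ι c) := by
  refine Subtype.ext (Matrix.ext_of_mulVec_single fun i => ?_)
  have hs : (Pi.single i 1 : I m → F) = ι ∘ (Pi.single i 1 : I m → F₀) :=
    funext fun j => by by_cases h : j = i <;> simp [h]
  rw [liftS_coe, hs, mulVec_incl, spT_mulVec, spT_mulVec, B_incl]
  funext j; simp

theorem pr_liftS_eq_one (hm : 1 ≤ m) {s : S m F₀} (h : pr (liftS ι s) = 1) : pr s = 1 := by
  obtain ⟨a, -, ha⟩ := exists_scalar_of_mem_center m hm ((QuotientGroup.eq_one_iff _).1 h)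
  set i0 : I m := Sum.inl ⟨0, hm⟩
  refine (QuotientGroup.eq_one_iff s).2 (mem_center_of_fixes_lines m s fun v =>
    ⟨(s : Matrix (I m) (I m) F₀) i0 i0, funext fun i => ι.injective ?_⟩)
  have h1 := congrFun (ha (Pi.single i0 1)) i0
  simp [liftS_coe] at h1
  have h2 := congrFun (ha (ι ∘ v)) i
  rw [liftS_coe, mulVec_incl] at h2
  simp only [Function.comp_apply, Pi.smul_apply, smul_eq_mul] at h2
  rw [h2, Pi.smul_apply, smul_eq_mul, map_mul, h1]

theorem pr_eq_of_liftS (hm : 1 ≤ m) {s t : S m F₀} (h : pr (liftS ι s) = pr (liftS ι t)) :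
    pr s = pr t := by
  rw [← mul_inv_eq_one, ← map_inv, ← map_mul]
  exact pr_liftS_eq_one ι hm (by rw [map_mul, map_mul, map_inv, map_inv, h, mul_inv_cancel])

theorem pr_liftS_of_eq_one (hm : 1 ≤ m) {s : S m F₀} (h : pr s = 1) : pr (liftS ι s) = 1 := by
  obtain ⟨a, -, ha⟩ := exists_scalar_of_mem_center m hm ((QuotientGroup.eq_one_iff _).1 h)
  refine (QuotientGroup.eq_one_iff _).2 (mem_center_of_fixes_lines m _ fun v => ⟨ι a, ?_⟩)
  have : (liftS ι s : Matrix (I m) (I m) F) = ι a • (1 : Matrix (I m) (I m) F) := by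
    refine Matrix.ext_of_mulVec_single fun i => ?_
    have hs : (Pi.single i 1 : I m → F) = ι ∘ (Pi.single i 1 : I m → F₀) :=
      funext fun j => by by_cases h : j = i <;> simp [h]
    rw [smul_mulVec, one_mulVec, liftS_coe, hs, mulVec_incl, ha]
    funext j; simp
  rw [this, smul_mulVec, one_mulVec]

/-- The inner automorphisms from the subfield. -/
noncomputable def phi : S m F₀ →* MulAut (P m F) :=
  (MulAut.conj : P m F →* MulAut (P m F)).comp ((pr (m := m) (F := F)).comp (liftS ι))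

theorem phi_apply (s : S m F₀) : phi ι s = MulAut.conj (pr (liftS ι s)) := rfl

theorem phi_eq (s : S m F₀) : phi ι s = conjHom m F (spIn (liftS ι s)) := inn_eq _

theorem phi_range_le_inn : (phi (m := m) ι).range ≤ Cfsg.Inn (P m F) := by
  rintro _ ⟨s, rfl⟩
  exact ⟨_, rfl⟩

theorem phi_eq_one_iff (hm : 1 ≤ m) [Fintype F] {s : S m F₀} : phi ι s = 1 ↔ pr s = 1 := by
  rw [phi_apply, ← map_one (MulAut.conj : P m F →* MulAut (P m F))]
  exact ⟨fun h => pr_liftS_eq_one ι hm (eq_of_conj_eq hm h),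
    fun h => congrArg _ (pr_liftS_of_eq_one ι hm h)⟩

variable [Fintype F] {σ : F ≃+* F} (hι : ∀ c : F, σ c = c ↔ c ∈ Set.range ι)

include hι in
omit [Fintype F] in
theorem spIn_liftS_fixed (s : S m F₀) : mapGSp σ (spIn (liftS ι s)) = spIn (liftS ι s) :=
  Subtype.ext (Units.ext (by
    ext i j
    exact (hι _).2 ⟨_, rfl⟩))

include hι in
theorem fixed_mult_one (hm : 1 ≤ m) {g : ↥(Cfsg.GSp m F)} (hg : mapGSp σ g = g)
    (h1 : mult hm g = 1) : conjHom m F g ∈ (phi ι).range := by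
  obtain ⟨s, rfl⟩ := exists_spIn hm h1
  have hent : ∀ i j, ∃ a : F₀, ι a = (s : Matrix (I m) (I m) F) i j := fun i j => (hι _).1
    (congrArg (fun M : ↥(Cfsg.GSp m F) => (M : GL (I m) F) i j) hg)
  choose a ha using hent
  have hmap : (Matrix.of a).map ι = (s : Matrix (I m) (I m) F) := Matrix.ext ha
  have hmem : Matrix.of a ∈ Matrix.symplecticGroup (Fin m) F₀ :=
    (stdB_iff_matrix m _).1 fun u v => ι.injective (by
      rw [← B_incl, ← B_incl, ← mulVec_incl, ← mulVec_incl, hmap, sp_iso])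
  refine ⟨⟨_, hmem⟩, ?_⟩
  rw [phi_eq]
  congr 2
  exact Subtype.ext hmap

variable {r : ℕ} (hr : orderOf σ = r) (hr0 : 0 < r)

include hι hr hr0 in
theorem phi_range_le_fix (hm : 1 ≤ m) : (phi (m := m) ι).range ≤
    Cfsg.inndiagPSp m F ⊓ Subgroup.centralizer {(D (fieldSp σ) : MulAut (P m F))} := by
  rintro _ ⟨s, rfl⟩
  rw [phi_eq]
  exact Subgroup.mem_inf.2 ⟨by rw [inndiag_eq]; exact ⟨_, rfl⟩,
    (centralizer_iff hm hr hr0).2 ⟨1, _, spIn_liftS_fixed ι hι s, by rw [map_one, one_mul]⟩⟩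

include hr hr0 in
theorem exists_fixed (hm : 1 ≤ m) {a : MulAut (P m F)}
    (ha : a ∈ Cfsg.inndiagPSp m F ⊓ Subgroup.centralizer {(D (fieldSp σ) : MulAut (P m F))}) :
    ∃ g, mapGSp σ g = g ∧ conjHom m F g = a := by
  obtain ⟨ha1, ha2⟩ := Subgroup.mem_inf.1 ha
  rw [inndiag_eq] at ha1
  obtain ⟨g, rfl⟩ := ha1
  obtain ⟨c, h, hh, rfl⟩ := (centralizer_iff hm hr hr0).1 ha2
  exact ⟨h, hh, by rw [map_mul, conjHom_scal, one_mul]⟩

include hι hr hr0 in
theorem fix_le_range (hm : 1 ≤ m) [Fintype F₀] (h2 : Fintype.card F₀ = 2) :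
    Cfsg.inndiagPSp m F ⊓ Subgroup.centralizer {(D (fieldSp σ) : MulAut (P m F))} ≤ (phi ι).range := by
  intro a ha
  obtain ⟨g, hg, rfl⟩ := exists_fixed hr hr0 hm ha
  refine fixed_mult_one ι hι hm hg (Units.ext ?_)
  obtain ⟨x, hx⟩ := (hι _).1 (congrArg Units.val ((mult_map hm σ g).symm.trans (congrArg (mult hm) hg)))
  have hx0 : x ≠ 0 := fun h => (mult hm g).ne_zero (by rw [← hx, h, map_zero])
  have hx1 := FiniteField.pow_card_sub_one_eq_one x hx0
  rw [h2, show 2 - 1 = 1 from rfl, pow_one] at hx1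
  rw [← hx, hx1, map_one, Units.val_one]

include hι hr hr0 in
theorem sq_mem_range (hm : 1 ≤ m) {a : MulAut (P m F)}
    (ha : a ∈ Cfsg.inndiagPSp m F ⊓ Subgroup.centralizer {(D (fieldSp σ) : MulAut (P m F))}) :
    a * a ∈ (phi ι).range := by
  obtain ⟨g, hg, rfl⟩ := exists_fixed hr hr0 hm ha
  have hμ : AutPSL.mapU σ (mult hm g) = mult hm g := by rw [← mult_map, hg]
  have := fixed_mult_one ι hι hm (g := g * g * scal m F (mult hm g)⁻¹)
    (by rw [map_mul, map_mul, hg, mapGSp_scal, map_inv (AutPSL.mapU σ), hμ])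
    (by rw [map_mul, map_mul, mult_scal]; group)
  rwa [map_mul, map_mul, conjHom_scal, mul_one] at this

variable [Fintype F₀]

include hι hr hr0 in
theorem soc_eq (hm : 1 ≤ m) (hc : commutator (S m F₀) = ⊤ ∨ Fintype.card F₀ = 2) :
    ⁅Cfsg.inndiagPSp m F ⊓ Subgroup.centralizer {(D (fieldSp σ) : MulAut (P m F))},
      Cfsg.inndiagPSp m F ⊓ Subgroup.centralizer {(D (fieldSp σ) : MulAut (P m F))}⁆ =
      (commutator (S m F₀)).map (phi ι) := by
  apply le_antisymm
  · rw [Subgroup.commutator_le]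
    intro a ha b hb
    rcases hc with hc | hc
    · obtain ⟨g, hg, rfl⟩ := exists_fixed hr hr0 hm ha
      obtain ⟨h, hh, rfl⟩ := exists_fixed hr hr0 hm hb
      rw [hc, ← MonoidHom.range_eq_map, ← map_commutatorElement]
      refine fixed_mult_one ι hι hm (by rw [map_commutatorElement, hg, hh]) ?_
      rw [map_commutatorElement, commutatorElement_eq_one_iff_commute]
      exact Commute.all _ _
    · obtain ⟨s, rfl⟩ := fix_le_range ι hι hr hr0 hm hc ha
      obtain ⟨t, rfl⟩ := fix_le_range ι hι hr hr0 hm hc hb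
      rw [← map_commutatorElement]
      exact Subgroup.mem_map_of_mem _ (Subgroup.commutator_mem_commutator (Subgroup.mem_top _)
        (Subgroup.mem_top _))
  · rw [commutator_def, Subgroup.map_commutator, ← MonoidHom.range_eq_map]
    exact Subgroup.commutator_mono (phi_range_le_fix ι hι hr hr0 hm)
      (phi_range_le_fix ι hι hr hr0 hm)

end Fixed

section Small

variable {F₀ : Type v} [Field F₀] [Fintype F₀]

theorem perfect_or_two (hm : 2 ≤ m) :
    commutator (S m F₀) = ⊤ ∨ (Fintype.card F₀ = 2 ∧ m = 2) := by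
  by_cases h : 3 ≤ m ∨ 3 ≤ Fintype.card F₀
  · refine Or.inl (sp_commutator_eq_top m ?_)
    rcases h with h | h
    · exact Or.inl h
    · rcases eq_or_lt_of_le hm with e | e
      · exact Or.inr (Or.inl ⟨e.symm, h⟩)
      · exact Or.inl e
  · push Not at h
    exact Or.inr ⟨by have := Fintype.one_lt_card (α := F₀); omega, by omega⟩

theorem exists_six (h2 : Fintype.card F₀ = 2) :
    ∃ e : S 2 F₀ ≃* Equiv.Perm (Fin 6),
      (commutator (S 2 F₀)).map e.toMonoidHom = alternatingGroup (Fin 6) := by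
  obtain ⟨e⟩ := Cfsg.Agent.S0247.result h2
  refine ⟨e, ?_⟩
  rw [commutator_def, Subgroup.map_commutator, Subgroup.map_top_of_surjective _ e.surjective,
    ← commutator_def, alternatingGroup.commutator_perm_eq (by simp)]

theorem centralizes_comm_two (h2 : Fintype.card F₀ = 2) {u : S 2 F₀}
    (hu : ∀ t ∈ commutator (S 2 F₀), u * t = t * u) : u = 1 := by
  obtain ⟨e, he⟩ := exists_six h2
  apply e.injective
  rw [map_one]
  refine Equiv.ext fun a => ?_
  by_contra ha
  rw [Equiv.Perm.one_apply] at ha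
  have two : ∀ x y : Fin 6, ∃ c, c ≠ x ∧ c ≠ y := by decide
  have three : ∀ x y z : Fin 6, ∃ d, d ≠ x ∧ d ≠ y ∧ d ≠ z := by decide
  obtain ⟨c, hc1, hc2⟩ := two a (e u a)
  obtain ⟨d, hd1, hd2, hd3⟩ := three a (e u a) c
  set t : Equiv.Perm (Fin 6) := Equiv.swap a c * Equiv.swap c d with ht
  have htA : t ∈ alternatingGroup (Fin 6) := by
    rw [Equiv.Perm.mem_alternatingGroup, ht, map_mul, Equiv.Perm.sign_swap hc1.symm,
      Equiv.Perm.sign_swap hd3.symm]
    rfl
  rw [← he] at htA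
  obtain ⟨t', ht', het⟩ := htA
  have hcomm := congrArg (fun q : Equiv.Perm (Fin 6) => q a) (congrArg e (hu t' ht'))
  rw [MulEquiv.coe_toMonoidHom] at het
  simp only [map_mul, het, Equiv.Perm.mul_apply] at hcomm
  rw [show t a = c by simp [ht, Equiv.swap_apply_def, hc1.symm, hd1.symm],
    show t (e u a) = e u a by
      rw [ht, Equiv.Perm.mul_apply, Equiv.swap_apply_of_ne_of_ne hc2.symm hd2.symm,
        Equiv.swap_apply_of_ne_of_ne ha hc2.symm]] at hcomm
  exact hc1 ((e u).injective hcomm)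

end Small

section Socle

variable [Fintype F] {F₀ : Type v} [Field F₀] [Fintype F₀] (ι : F₀ →+* F)

theorem phi_injective_two (h2 : Fintype.card F₀ = 2) : Function.Injective (phi (m := 2) ι) := by
  haveI : CharP F₀ 2 := charP_of_card_eq_prime_pow (R := F₀) (f := 1) (by rw [h2, pow_one])
  have h20 : (2 : F₀) = 0 := by exact_mod_cast CharP.cast_eq_zero F₀ 2
  rw [injective_iff_map_eq_one]
  intro s hs
  exact pr_injective (by norm_num) h20 (((phi_eq_one_iff ι (by norm_num)).1 hs).trans (map_one pr).symm)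

theorem soc_simple (hm : 2 ≤ m) : IsSimpleGroup ((commutator (S m F₀)).map (phi ι)) := by
  rcases perfect_or_two (F₀ := F₀) hm with hc | ⟨h2, rfl⟩
  · by_cases hs : m = 2 ∧ Fintype.card F₀ = 2
    · obtain ⟨rfl, h2⟩ := hs
      exfalso
      obtain ⟨e, he⟩ := exists_six h2
      rw [hc, Subgroup.map_top_of_surjective _ e.surjective] at he
      have h := congrArg Nat.card (congrArg (fun H : Subgroup (Equiv.Perm (Fin 6)) => ↥H) he)
      rw [Subgroup.card_top] at h
      have h' := two_mul_nat_card_alternatingGroup (α := Fin 6)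
      have := Nat.card_pos (α := Equiv.Perm (Fin 6))
      omega
    · haveI := isSimpleGroup_PSp (F := F₀) m hm fun e => by
        have := Fintype.one_lt_card (α := F₀)
        rcases Nat.lt_or_ge (Fintype.card F₀) 3 with h | h
        · exact absurd ⟨e, by omega⟩ hs
        · exact h
      rw [hc, ← MonoidHom.range_eq_map]
      have hker : (phi (m := m) ι).ker = Subgroup.center (S m F₀) := by
        ext s
        rw [MonoidHom.mem_ker, phi_eq_one_iff ι (by omega)]
        exact QuotientGroup.eq_one_iff s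
      exact ((QuotientGroup.quotientKerEquivRange (phi ι)).symm.trans
        (QuotientGroup.quotientMulEquivOfEq hker)).isSimpleGroup
  · obtain ⟨e, he⟩ := exists_six h2
    haveI := alternatingGroup.isSimpleGroup (α := Fin 6) (by simp)
    exact (((Subgroup.equivMapOfInjective _ _ (phi_injective_two ι h2)).symm).trans
      ((e.subgroupMap _).trans (MulEquiv.subgroupCongr he))).isSimpleGroup

theorem soc_ne_bot (hm : 2 ≤ m) : (commutator (S m F₀)).map (phi ι) ≠ ⊥ := fun hb => by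
  haveI := soc_simple ι hm
  obtain ⟨z, hz⟩ := exists_ne (1 : (commutator (S m F₀)).map (phi ι))
  exact hz (Subtype.ext ((Subgroup.eq_bot_iff_forall _).1 hb z z.2))

theorem two_dvd_range (hm : 1 ≤ m) (h20 : (2 : F₀) ≠ 0) :
    2 ∣ Nat.card (phi (m := m) ι).range := by
  set j : S m F₀ := ⟨Matrix.J (Fin m) F₀, SymplecticGroup.J_mem _ _⟩
  have hj2 : phi ι j * phi ι j = 1 := by
    rw [← map_mul, phi_eq_one_iff ι hm]
    refine (QuotientGroup.eq_one_iff _).2 (mem_center_of_fixes_lines m _ fun v => ⟨-1, ?_⟩)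
    show (Matrix.J (Fin m) F₀ * Matrix.J (Fin m) F₀) *ᵥ v = _
    rw [Matrix.J_squared, neg_mulVec, one_mulVec, neg_one_smul]
  have hj1 : phi ι j ≠ 1 := fun h => by
    rw [phi_eq_one_iff ι hm] at h
    obtain ⟨a, -, ha⟩ := exists_scalar_of_mem_center m hm ((QuotientGroup.eq_one_iff _).1 h)
    have := congrFun (ha (e ⟨0, hm⟩)) (Sum.inr ⟨0, hm⟩)
    simp [j, e, Matrix.J] at this
  let z : (phi (m := m) ι).range := ⟨_, j, rfl⟩
  rw [← orderOf_eq_prime (p := 2) (x := z) (Subtype.ext (by rw [pow_two]; exact hj2))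
    fun h => hj1 (congrArg Subtype.val h)]
  exact orderOf_dvd_natCard z

variable {σ : F ≃+* F} (hι : ∀ c : F, σ c = c ↔ c ∈ Set.range ι) {r : ℕ} (hr : orderOf σ = r)
  (hr0 : 0 < r)

include hι hr hr0 in
theorem dvd_soc (hm : 2 ≤ m) {p : ℕ} [Fact p.Prime] (h2 : p = 2 → (2 : F) ≠ 0)
    {M : Subgroup (MulAut (P m F))}
    (hM : M ≤ Cfsg.inndiagPSp m F ⊓ Subgroup.centralizer {(D (fieldSp σ) : MulAut (P m F))})
    (hp : p ∣ Nat.card M) : p ∣ Nat.card ((commutator (S m F₀)).map (phi ι)) := by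
  haveI : Finite (MulAut (P m F)) := Finite.of_injective _ DFunLike.coe_injective
  have hp' : p.Prime := Fact.out
  rcases Nat.Prime.eq_two_or_odd' hp' with rfl | hodd
  · have h20 : (2 : F₀) ≠ 0 := fun h => h2 rfl (by rw [← map_ofNat ι 2, h, map_zero])
    rcases perfect_or_two (F₀ := F₀) hm with hc | ⟨hc, -⟩
    · rw [hc, ← MonoidHom.range_eq_map]
      exact two_dvd_range ι (by omega) h20
    · haveI : CharP F₀ 2 := charP_of_card_eq_prime_pow (R := F₀) (f := 1) (by rw [hc, pow_one])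
      exact absurd (by exact_mod_cast CharP.cast_eq_zero F₀ 2) h20
  obtain ⟨z, hz⟩ := exists_prime_orderOf_dvd_card' p hp
  obtain ⟨k, hk⟩ := hodd
  have hmem : (z : MulAut (P m F)) ∈ (phi ι).range := by
    have h1 := pow_mem (sq_mem_range ι hι hr hr0 (by omega) (hM z.2)) (k + 1)
    rwa [← sq, ← pow_mul, show 2 * (k + 1) = 2 * k + 1 + 1 by ring, pow_succ, ← hk, ← hz,
      ← Subgroup.orderOf_coe, pow_orderOf_eq_one, one_mul] at h1
  have hdiv : p ∣ Nat.card (phi (m := m) ι).range := by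
    rw [← hz, ← Subgroup.orderOf_coe, ← Subgroup.orderOf_mk _ hmem]
    exact orderOf_dvd_natCard _
  rcases perfect_or_two (F₀ := F₀) hm with hc | ⟨hc, rfl⟩
  · rwa [hc, ← MonoidHom.range_eq_map]
  · have hinj := phi_injective_two ι hc
    obtain ⟨e, he⟩ := exists_six hc
    have hA : Nat.card (commutator (S 2 F₀)) = Nat.card (alternatingGroup (Fin 6)) := by
      rw [← he]; exact Nat.card_congr (e.subgroupMap _).toEquiv
    rw [Subgroup.card_map_of_injective hinj, hA]
    rw [MonoidHom.range_eq_map, Subgroup.card_map_of_injective hinj, Subgroup.card_top,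
      Nat.card_congr e.toEquiv, ← two_mul_nat_card_alternatingGroup (α := Fin 6)] at hdiv
    rcases hp'.dvd_mul.1 hdiv with h | h
    · exact absurd ((Nat.prime_dvd_prime_iff_eq hp' Nat.prime_two).1 h) (by omega)
    · exact h

include hι hr hr0 in
/-- An element of the centraliser commuting with the socle fixes the subfield group. -/
theorem fixes_of_centralizes (hm : 2 ≤ m) {c : MulAut (P m F)}
    (hc : c ∈ Subgroup.centralizer {(D (fieldSp σ) : MulAut (P m F))})
    (ht : ∀ t ∈ (commutator (S m F₀)).map (phi ι), c * t = t * c) (s : S m F₀) :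
    c (pr (liftS ι s)) = pr (liftS ι s) := by
  have hm1 : 1 ≤ m := by omega
  have hT : ∀ t ∈ commutator (S m F₀), c * phi ι t = phi ι t * c := fun t ht' =>
    ht _ (Subgroup.mem_map_of_mem _ ht')
  refine eq_of_conj_eq hm1 ?_
  rw [← conj_map_aut, ← phi_apply]
  rcases perfect_or_two (F₀ := F₀) hm with hp | ⟨h2, rfl⟩
  · rw [hT s (hp ▸ Subgroup.mem_top s), mul_inv_cancel_right]
  have hmem : c * phi ι s * c⁻¹ ∈ (phi (m := 2) ι).range := by
    refine fix_le_range ι hι hr hr0 hm1 h2 (Subgroup.mem_inf.2 ⟨?_, ?_⟩)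
    · rw [phi_apply, conj_map_aut, inndiag_eq]; exact inn_le ⟨_, rfl⟩
    · exact mul_mem (mul_mem hc (Subgroup.mem_inf.1 (phi_range_le_fix ι hι hr hr0 hm1 ⟨s, rfl⟩)).2)
        (inv_mem hc)
  obtain ⟨w, hw⟩ := hmem
  have hu : s⁻¹ * w = 1 := by
    refine centralizes_comm_two h2 fun t ht' => phi_injective_two ι h2 ?_
    have hst : s * t * s⁻¹ ∈ commutator (S 2 F₀) := Subgroup.Normal.conj_mem inferInstance t ht' s
    have key : phi ι (w * t * w⁻¹) = phi ι (s * t * s⁻¹) := by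
      rw [map_mul, map_mul, map_inv, hw]
      calc c * phi ι s * c⁻¹ * phi ι t * (c * phi ι s * c⁻¹)⁻¹
          = c * phi ι s * c⁻¹ * (phi ι t * c) * (phi ι s)⁻¹ * c⁻¹ := by group
        _ = c * phi ι s * c⁻¹ * (c * phi ι t) * (phi ι s)⁻¹ * c⁻¹ := by rw [hT t ht']
        _ = c * phi ι (s * t * s⁻¹) * c⁻¹ := by rw [map_mul, map_mul, map_inv]; group
        _ = phi ι (s * t * s⁻¹) := by rw [hT _ hst, mul_inv_cancel_right]
    have key' := phi_injective_two ι h2 key
    congr 1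
    calc s⁻¹ * w * t = s⁻¹ * (w * t * w⁻¹) * w := by group
      _ = s⁻¹ * (s * t * s⁻¹) * w := by rw [key']
      _ = _ := by group
  rw [inv_mul_eq_one] at hu
  rw [← hw, hu]

include hι hr hr0 in
theorem mem_zpowers_of_centralizes (hm : 2 ≤ m) {c : MulAut (P m F)}
    (hc : c ∈ Subgroup.centralizer {(D (fieldSp σ) : MulAut (P m F))})
    (ht : ∀ t ∈ (commutator (S m F₀)).map (phi ι), c * t = t * c) :
    c ∈ Subgroup.zpowers (D (fieldSp σ) : MulAut (P m F)) := by
  classical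
  have hm1 : 1 ≤ m := by omega
  have hfix := fixes_of_centralizes ι hι hr hr0 hm hc ht
  obtain ⟨g, τ, rfl⟩ : ∃ (g : ↥(Cfsg.GSp m F)) (τ : F ≃+* F), c = conjHom m F g * D (fieldSp τ) := by
    by_cases hgood : (2 : F) ≠ 0 ∨ 3 ≤ m
    · exact std_all hm1 hgood c
    push Not at hgood
    obtain ⟨h20, hm3⟩ := hgood
    obtain rfl : m = 2 := by omega
    refine std_all_tp hm1 (tp_of_one h20 ⟨1, 1, one_ne_zero, ?_⟩)
    rw [map_one, one_mul, inv_one, mul_one]
    have he : (e (0 : Fin 2) : I 2 → F) = ι ∘ (e (0 : Fin 2) : I 2 → F₀) := funext fun i => by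
      by_cases h : i = Sum.inl 0 <;> simp [e, h]
    have := hfix (spT 2 (e 0) 1)
    rwa [liftS_spT, map_one, ← he] at this
  have hcomm : σ * τ = τ * σ := by
    obtain ⟨d, hpp, hF⟩ := FiniteField.card F (ringChar F)
    haveI : Fact (ringChar F).Prime := ⟨hpp⟩
    obtain ⟨e⟩ := AutPSL.ringAut_equiv (F := F) (f := (d : ℕ)) d.2 hF
    exact e.injective (by rw [map_mul, map_mul, mul_comm])
  have hg : conjHom m F g ∈ Subgroup.centralizer {(D (fieldSp σ) : MulAut (P m F))} := by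
    rw [Subgroup.mem_centralizer_singleton_iff] at hc ⊢
    refine mul_right_cancel (b := D (fieldSp τ)) ?_
    rw [mul_assoc, ← map_mul, ← map_mul, hcomm, map_mul, map_mul, ← mul_assoc, hc, mul_assoc]
  obtain ⟨d, h, hh, rfl⟩ := (centralizer_iff hm1 hr hr0).1 hg
  have hτK : ∀ a : F₀, ∃ b : F₀, ι b = τ (ι a) := fun a => (hι _).1 (by
    rw [← RingAut.mul_apply, hcomm, RingAut.mul_apply, (hι _).2 ⟨a, rfl⟩])
  choose τ₀f hτ₀ using hτK
  let τ₀h : F₀ →+* F₀ :=
    { toFun := τ₀f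
      map_one' := ι.injective (by rw [hτ₀, map_one, map_one])
      map_mul' := fun a b => ι.injective (by rw [hτ₀, map_mul, map_mul, map_mul, hτ₀, hτ₀])
      map_zero' := ι.injective (by rw [hτ₀, map_zero, map_zero])
      map_add' := fun a b => ι.injective (by rw [hτ₀, map_add, map_add, map_add, hτ₀, hτ₀]) }
  let τ₀ : F₀ ≃+* F₀ := RingEquiv.ofBijective τ₀h (Finite.injective_iff_bijective.1 τ₀h.injective)
  have hτι : ∀ a, τ (ι a) = ι (τ₀ a) := fun a => (hτ₀ a).symm
  have hmult : σ (mult hm1 h : F) = (mult hm1 h : F) :=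
    congrArg Units.val ((mult_map hm1 σ h).symm.trans (congrArg (mult hm1) hh))
  have hent : ∀ i j, ∃ a : F₀, ι a = (h : GL (I m) F) i j := fun i j => (hι _).1
    (congrArg (fun M : ↥(Cfsg.GSp m F) => (M : GL (I m) F) i j) hh)
  choose a ha using hent
  have hmap : (Matrix.of a).map ι = ((h : GL (I m) F) : Matrix (I m) (I m) F) := Matrix.ext ha
  have hdet : (Matrix.of a).det ≠ 0 := fun h0 => by
    have := congrArg ι h0
    rw [RingHom.map_det, map_zero] at this
    exact (GeneralLinearGroup.det (h : GL (I m) F)).ne_zero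
      (by rw [GeneralLinearGroup.val_det_apply, ← hmap]; exact this)
  let k : GL (I m) F₀ := GeneralLinearGroup.mkOfDetNeZero _ hdet
  obtain ⟨μ, hμ⟩ := (hι _).1 hmult
  have hμ0 : μ ≠ 0 := fun h0 => (mult hm1 h).ne_zero (by rw [← hμ, h0, map_zero])
  have hk : k ∈ Cfsg.GSp m F₀ := mem_GSp.2 ⟨Units.mk0 μ hμ0, fun u v => ι.injective (by
    rw [← B_incl, ← mulVec_incl, ← mulVec_incl]
    show B m F ((Matrix.of a).map ι *ᵥ _) ((Matrix.of a).map ι *ᵥ _) = _
    rw [hmap, mult_spec hm1 h, B_incl, map_mul, Units.val_mk0, hμ])⟩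
  have hkh : GeneralLinearGroup.map ι k = (h : GL (I m) F) := Units.ext hmap
  have hconj : ∀ s, conjElt h (fieldSp τ (liftS ι s)) = liftS ι (conjElt ⟨k, hk⟩ (fieldSp τ₀ s)) := by
    intro s
    refine Subtype.ext ?_
    rw [conjElt_coe, liftS_coe, conjElt_coe, Matrix.map_mul, Matrix.map_mul, ← hkh,
      ← map_inv (GeneralLinearGroup.map ι)]
    congr 2
    ext i j
    simp [fieldSp_coe, liftS_coe, hτι]
  have h0 : conjHom m F₀ ⟨k, hk⟩ * D (fieldSp τ₀) = 1 := D_ext fun s => by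
    rw [MulAut.one_apply, MulAut.mul_apply, D_pr, conjHom_apply, D_pr, conjSp_apply]
    refine pr_eq_of_liftS ι hm1 ?_
    rw [← hconj]
    have := hfix s
    rwa [map_mul, conjHom_scal, one_mul, MulAut.mul_apply, D_pr, conjHom_apply, D_pr,
      conjSp_apply] at this
  have hτ1 : τ₀ = 1 := (std_unique hm1 h0).1
  rw [hτ1, map_one, map_one, mul_one, conjHom_eq_one_iff hm1] at h0
  obtain ⟨c0, hc0⟩ := h0
  have hscal : h = scal m F (Units.map ι.toMonoidHom c0) := Subtype.ext (by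
    rw [← hkh, show k = (scal m F₀ c0 : GL (I m) F₀) from congrArg Subtype.val hc0]
    refine Units.ext ?_
    ext i j
    by_cases hij : i = j <;> simp [hij, scal_coe, GeneralLinearGroup.scalar])
  rw [hscal, map_mul, conjHom_scal, conjHom_scal, one_mul, one_mul]
  obtain ⟨j, hj⟩ : τ ∈ Subgroup.zpowers σ := by
    haveI : Finite (F ≃+* F) :=
      Finite.of_injective (fun e : F ≃+* F => (e : F → F)) DFunLike.coe_injective
    let H : Subgroup (F ≃+* F) := Subgroup.zpowers σ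
    letI : Fintype H := Fintype.ofFinite H
    let L := FixedPoints.subfield H F
    let τ' : F →ₐ[L] F :=
      { τ.toRingHom with
        commutes' := fun a => by
          have ha : σ (a : F) = a := a.2 ⟨σ, Subgroup.mem_zpowers σ⟩
          obtain ⟨b, hb⟩ := (hι _).1 ha
          show τ (a : F) = a
          rw [← hb, hτι, hτ1, RingAut.one_apply] }
    obtain ⟨s, hs⟩ := (FixedPoints.toAlgHom_bijective H F).2 τ'
    have : (s : F ≃+* F) = τ := RingEquiv.ext fun a => AlgHom.congr_fun hs a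
    rw [← this]; exact s.2
  exact ⟨j, by rw [← hj, map_zpow, map_zpow]⟩

end Socle

/-- Local balance. -/
theorem balance [Fintype F] (hm : 2 ≤ m) (hs : m = 2 → 3 ≤ Fintype.card F)
    (A : Subgroup (MulAut (P m F))) (hinn : ∀ k : P m F, MulAut.conj k ∈ A) {p : ℕ} [Fact p.Prime]
    (h2 : p = 2 → (2 : F) ≠ 0) {x : MulAut (P m F)} (hxA : x ∈ A)
    (hord : orderOf x = p) (hnot : ¬ Cfsg.IsInnerDiagonalAutPSp x) :
    Cfsg.pPrimeCore p ↥(A ⊓ Subgroup.centralizer {x}) ≠ ⊥ ↔
      (Cfsg.IsFieldAutClassPSp x ∧ Nat.Coprime p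
        (Nat.card ↥(MonoidHom.eqLocus x.toMonoidHom (MonoidHom.id (P m F))))) := by
  classical
  have hp : p.Prime := Fact.out
  have hm1 : 1 ≤ m := by omega
  obtain ⟨g, σ, rfl⟩ := std_of_odd hm hs x (by
    rcases hp.eq_two_or_odd' with h | h
    · exact Or.inl (h2 h)
    · exact Or.inr (hord ▸ h))
  have hσ1 : σ ≠ 1 := fun e => hnot (innerDiag_iff.2 ⟨g, by rw [e, map_one, map_one, mul_one]⟩)
  have hpow : (conjHom m F g * D (fieldSp σ)) ^ p = 1 := by rw [← hord]; exact pow_orderOf_eq_one _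
  have hσp : orderOf σ = p := orderOf_eq_prime (by
    have e := hpow
    rw [AutPSL.tw_pow (mapGSp σ) (conjHom m F) _ (twist_field σ) g p, ← map_pow, ← map_pow] at e
    exact (std_unique hm1 e).1) hσ1
  obtain ⟨a, ha⟩ := exists_conj_of_field hm1 hσp hp.pos g hpow
  set S0 : MulAut (P m F) := D (fieldSp σ) with hS0
  set x := conjHom m F g * S0 with hxdef
  have hconj : (conjHom m F a)⁻¹ * x * ((conjHom m F a)⁻¹)⁻¹ = S0 := by rw [ha]; group
  have hfield : Cfsg.IsFieldAutClassPSp x :=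
    ⟨(conjHom m F a)⁻¹, σ, hσ1, stdField_iff.2 hconj⟩
  haveI : (Cfsg.Inn (P m F)).Normal := normal_inn
  haveI := inndiag_normal (F := F) hm1
  haveI : Finite (MulAut (P m F)) := Finite.of_injective _ DFunLike.coe_injective
  set A' := A.map (MulAut.conj (conjHom m F a)⁻¹).toMonoidHom
  have hinn' : Cfsg.Inn (P m F) ≤ A' := by
    rw [← map_conj_normal (Cfsg.Inn (P m F)) (conjHom m F a)⁻¹]
    exact Subgroup.map_mono fun z hz => by obtain ⟨k, rfl⟩ := hz; exact hinn k
  obtain ⟨e⟩ := Balance.centralizer_conj_equiv A (conjHom m F a)⁻¹ x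
  rw [hconj] at e
  rw [Balance.core_ne_bot_congr e, ← Balance.card_inn_inf (center_P hm1)]
  have hcard : Nat.card ↥(Cfsg.Inn (P m F) ⊓ Subgroup.centralizer {x}) =
      Nat.card ↥(Cfsg.Inn (P m F) ⊓ Subgroup.centralizer {S0}) := by
    obtain ⟨e'⟩ := centralizerEquiv (H := Cfsg.Inn (P m F)) (conjHom m F a)⁻¹ x
    rw [hconj] at e'
    exact Nat.card_congr e'.toEquiv
  rw [hcard, and_iff_right hfield]
  let K := fixF σ
  letI : Fintype K := Fintype.ofFinite K
  let ι : K →+* F := K.subtype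
  have hι : ∀ c : F, σ c = c ↔ c ∈ Set.range ι := fun c =>
    ⟨fun hx => ⟨⟨c, mem_fixF.2 hx⟩, rfl⟩, fun ⟨y, hy⟩ => hy ▸ mem_fixF.1 y.2⟩
  set T := (commutator (S m K)).map (phi ι)
  have hTle : T ≤ (phi ι).range := by rw [MonoidHom.range_eq_map]; exact Subgroup.map_mono le_top
  have hsoc : ⁅Cfsg.inndiagPSp m F ⊓ Subgroup.centralizer {S0},
      Cfsg.inndiagPSp m F ⊓ Subgroup.centralizer {S0}⁆ = T :=
    soc_eq ι hι hσp hp.pos hm1 ((perfect_or_two hm).imp id And.left)
  have hTC : T ≤ Subgroup.centralizer {S0} :=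
    (hTle.trans (phi_range_le_fix ι hι hσp hp.pos hm1)).trans inf_le_right
  have hTI : T ≤ Cfsg.Inn (P m F) := hTle.trans (phi_range_le_inn ι)
  refine Balance.core_ne_bot_iff (T := T) (S := S0) ?_ (inf_le_inf_right _ hinn') ?_
    (le_inf (hTI.trans hinn') hTC) ?_ (soc_simple ι hm) ?_ ?_ fun c hc ht =>
      mem_zpowers_of_centralizes ι hι hσp hp.pos hm (Subgroup.mem_inf.1 hc).2 ht
  · rw [hS0, orderOf_fieldSp hm1, hσp]
  · intro c hc z hz
    obtain ⟨hz1, hz2⟩ := Subgroup.mem_inf.1 hz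
    exact Subgroup.mem_inf.2 ⟨(normal_inn (T := P m F)).conj_mem z hz1 c,
      mul_mem (mul_mem (Subgroup.mem_inf.1 hc).2 hz2) (inv_mem (Subgroup.mem_inf.1 hc).2)⟩
  · intro c hc z hz
    set H0 := Cfsg.inndiagPSp m F ⊓ Subgroup.centralizer {S0}
    have hH0 : H0.map (MulAut.conj c).toMonoidHom ≤ H0 := by
      rintro _ ⟨y, hy, rfl⟩
      obtain ⟨hy1, hy2⟩ := Subgroup.mem_inf.1 hy
      exact Subgroup.mem_inf.2 ⟨(inndiag_normal (F := F) hm1).conj_mem y hy1 c,
        mul_mem (mul_mem (Subgroup.mem_inf.1 hc).2 hy2) (inv_mem (Subgroup.mem_inf.1 hc).2)⟩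
    rw [← hsoc] at hz ⊢
    have hcm := Subgroup.commutator_mono hH0 hH0
    rw [← Subgroup.map_commutator] at hcm
    exact hcm (Subgroup.mem_map_of_mem _ hz)
  · intro hb
    exact soc_ne_bot ι hm (le_bot_iff.1 (hb ▸ le_inf hTI hTC))
  · exact dvd_soc ι hι hσp hp.pos hm h2 (inf_le_inf_right _ (by rw [inndiag_eq]; exact inn_le))

end Cfsg.Agent.Lib.AutPSp
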