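import Cfsg.Agent.Lib.Classical.SympSimple
import Cfsg.Prelude.Def_LieTypeDatum

/-!
Automorphisms of `Sp_{2m}(F)` descended to `PSp_{2m}(F)`; transvection groups.
-/

set_option autoImplicit false

namespace Cfsg.Agent.Lib.AutPSp

open Matrix Cfsg.Agent.Lib.Forms Cfsg.Agent.Lib.Classical

universe u

variable {m : ℕ} {F : Type u} [Field F]

/-- The index type. -/
abbrev I (m : ℕ) := Fin m ⊕ Fin m

/-- `Sp_{2m}(F)`. -/
abbrev S (m : ℕ) (F : Type u) [Field F] := ↥(Matrix.symplecticGroup (Fin m) F)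

/-- `PSp_{2m}(F)`. -/
abbrev P (m : ℕ) (F : Type u) [Field F] := Cfsg.PSp m F

/-- The class of a symplectic matrix. -/
abbrev pr : S m F →* P m F := QuotientGroup.mk' (Subgroup.center (S m F))

theorem pr_surjective : Function.Surjective (pr (m := m) (F := F)) := QuotientGroup.mk'_surjective _

/-- The standard alternating form. -/
noncomputable abbrev B (m : ℕ) (F : Type u) [Field F] := stdB m F

theorem B_swap (u v : I m → F) : B m F v u = -(B m F u v) := ((stdB_isAlt m).neg_eq u v).symm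

theorem B_self (u : I m → F) : B m F u u = 0 := (stdB_isAlt m).self_eq_zero u

theorem eq_zero_of_B {v : I m → F} (h : ∀ x, B m F x v = 0) : v = 0 :=
  (stdB_nondegenerate m).2 v h

/-- Automorphisms of `Sp` act on `PSp`. -/
noncomputable def D : MulAut (S m F) →* MulAut (P m F) where
  toFun e := QuotientGroup.congr (Subgroup.center (S m F)) (Subgroup.center (S m F)) e
    (Subgroup.characteristic_iff_map_eq.1 inferInstance e)
  map_one' := MulEquiv.ext fun x => by obtain ⟨s, rfl⟩ := pr_surjective x; rfl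
  map_mul' _ _ := MulEquiv.ext fun x => by obtain ⟨s, rfl⟩ := pr_surjective x; rfl

@[simp] theorem D_pr (e : MulAut (S m F)) (s : S m F) : D e (pr s) = pr (e s) := rfl

theorem D_ext {β γ : MulAut (P m F)} (h : ∀ s, β (pr s) = γ (pr s)) : β = γ :=
  MulEquiv.ext fun x => by obtain ⟨s, rfl⟩ := pr_surjective x; exact h s

/-! ### The similarity group -/

theorem mem_GSp {g : GL (I m) F} : g ∈ Cfsg.GSp m F ↔
    ∃ c : Fˣ, ∀ u v, B m F ((g : Matrix (I m) (I m) F) *ᵥ u) ((g : Matrix (I m) (I m) F) *ᵥ v) =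
      (c : F) * B m F u v := by
  simp only [B, stdB_apply]
  exact Iff.rfl

theorem conj_mem {g : GL (I m) F} (hg : g ∈ Cfsg.GSp m F) (s : S m F) :
    (g : Matrix (I m) (I m) F) * (s : Matrix (I m) (I m) F) * ((g⁻¹ : GL (I m) F) : Matrix (I m) (I m) F)
      ∈ Matrix.symplecticGroup (Fin m) F := by
  obtain ⟨c, hc⟩ := mem_GSp.1 hg
  refine (stdB_iff_matrix m _).1 fun u v => ?_
  simp only [← mulVec_mulVec]
  rw [hc, sp_iso]
  rw [← hc, mulVec_mulVec, mulVec_mulVec, ← Units.val_mul, mul_inv_cancel, Units.val_one,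
    one_mulVec, one_mulVec]

/-- `g s g⁻¹` as a symplectic matrix. -/
def conjElt (g : ↥(Cfsg.GSp m F)) (s : S m F) : S m F :=
  ⟨_, conj_mem g.2 s⟩

theorem conjElt_coe (g : ↥(Cfsg.GSp m F)) (s : S m F) :
    (conjElt g s : Matrix (I m) (I m) F) = ((g : GL (I m) F) : Matrix (I m) (I m) F) *
      (s : Matrix (I m) (I m) F) * (((g : GL (I m) F)⁻¹ : GL (I m) F) : Matrix (I m) (I m) F) := rfl

theorem conjElt_comp (g h : ↥(Cfsg.GSp m F)) (s : S m F) :
    conjElt g (conjElt h s) = conjElt (g * h) s := by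
  apply Subtype.ext
  simp only [conjElt_coe, Subgroup.coe_mul, _root_.mul_inv_rev, Units.val_mul, mul_assoc]

theorem conjElt_one (s : S m F) : conjElt 1 s = s := by
  apply Subtype.ext; simp [conjElt_coe]

/-- Conjugation by a similarity. -/
noncomputable def conjSp : ↥(Cfsg.GSp m F) →* MulAut (S m F) where
  toFun g :=
    { toFun := conjElt g
      invFun := conjElt g⁻¹
      left_inv := fun s => by rw [conjElt_comp, inv_mul_cancel, conjElt_one]
      right_inv := fun s => by rw [conjElt_comp, mul_inv_cancel, conjElt_one]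
      map_mul' := fun s t => by
        apply Subtype.ext
        simp only [conjElt_coe, Submonoid.coe_mul, mul_assoc]
        rw [← mul_assoc (((g : GL (I m) F)⁻¹ : GL (I m) F) : Matrix (I m) (I m) F)
          ((g : GL (I m) F) : Matrix (I m) (I m) F), ← Units.val_mul, inv_mul_cancel, Units.val_one,
          one_mul] }
  map_one' := MulEquiv.ext conjElt_one
  map_mul' g h := MulEquiv.ext fun s => (conjElt_comp g h s).symm

theorem conjSp_apply (g : ↥(Cfsg.GSp m F)) (s : S m F) : conjSp g s = conjElt g s := rfl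

theorem map_mem (σ : F ≃+* F) (s : S m F) :
    (s : Matrix (I m) (I m) F).map σ ∈ Matrix.symplecticGroup (Fin m) F := by
  have h := congrArg (fun M : Matrix (I m) (I m) F => M.map σ) (SymplecticGroup.mem_iff.1 s.2)
  have hJ : (Matrix.J (Fin m) F).map σ = Matrix.J (Fin m) F := by
    rw [Matrix.J, Matrix.fromBlocks_map]
    congr 1 <;> ext i j <;> simp [Matrix.one_apply, apply_ite σ]
  rw [SymplecticGroup.mem_iff]
  simp only [Matrix.map_mul, Matrix.transpose_map, hJ] at h
  exact h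

/-- A field automorphism applied entrywise. -/
def fieldSp : (F ≃+* F) →* MulAut (S m F) where
  toFun σ :=
    { toFun := fun s => ⟨_, map_mem σ s⟩
      invFun := fun s => ⟨_, map_mem σ.symm s⟩
      left_inv := fun s => by apply Subtype.ext; ext i j; simp
      right_inv := fun s => by apply Subtype.ext; ext i j; simp
      map_mul' := fun s t => by
        apply Subtype.ext
        show ((s : Matrix (I m) (I m) F) * t).map σ = _
        rw [Matrix.map_mul]; rfl }
  map_one' := MulEquiv.ext fun s => by apply Subtype.ext; ext i j; rfl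
  map_mul' _ _ := MulEquiv.ext fun s => by apply Subtype.ext; ext i j; rfl

theorem fieldSp_coe (σ : F ≃+* F) (s : S m F) :
    (fieldSp σ s : Matrix (I m) (I m) F) = (s : Matrix (I m) (I m) F).map σ := rfl

/-- `σ` on `GL`. -/
abbrev mapGL (σ : F ≃+* F) : GL (I m) F →* GL (I m) F := GeneralLinearGroup.map σ.toRingHom

theorem map_mulVec' (σ : F ≃+* F) (M : Matrix (I m) (I m) F) (v : I m → F) :
    M.map σ *ᵥ (fun i => σ (v i)) = fun i => σ ((M *ᵥ v) i) := by
  funext i
  exact (RingHom.map_mulVec σ.toRingHom M v i).symm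

theorem B_map (σ : F ≃+* F) (u v : I m → F) :
    B m F (fun i => σ (u i)) (fun i => σ (v i)) = σ (B m F u v) := by
  simp only [B, stdB_apply, Cfsg.sympForm, dotProduct, map_sum, map_mul]
  refine Finset.sum_congr rfl fun i _ => ?_
  congr 1
  have hJ : (Matrix.J (Fin m) F).map σ = Matrix.J (Fin m) F := by
    rw [Matrix.J, Matrix.fromBlocks_map]
    congr 1 <;> ext i j <;> simp [Matrix.one_apply, apply_ite σ]
  conv_lhs => rw [← hJ, map_mulVec']

theorem mapGL_mem (σ : F ≃+* F) {g : GL (I m) F} (hg : g ∈ Cfsg.GSp m F) :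
    mapGL σ g ∈ Cfsg.GSp m F := by
  obtain ⟨c, hc⟩ := mem_GSp.1 hg
  refine mem_GSp.2 ⟨Units.map σ.toRingHom.toMonoidHom c, fun u v => ?_⟩
  have e : ∀ w : I m → F, ((mapGL σ g : GL (I m) F) : Matrix (I m) (I m) F) *ᵥ w =
      fun i => σ (((g : Matrix (I m) (I m) F) *ᵥ fun j => σ.symm (w j)) i) := fun w => by
    rw [← map_mulVec']
    congr 1
    funext i; simp
  rw [e, e, B_map, hc, map_mul]
  congr 1
  rw [← B_map]
  congr 2 <;> funext i <;> simp

/-- `σ` on the similarity group. -/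
noncomputable def mapGSp (σ : F ≃+* F) : ↥(Cfsg.GSp m F) →* ↥(Cfsg.GSp m F) :=
  ((mapGL σ).comp (Cfsg.GSp m F).subtype).codRestrict (Cfsg.GSp m F) fun g => mapGL_mem σ g.2

theorem mapGSp_coe (σ : F ≃+* F) (g : ↥(Cfsg.GSp m F)) :
    (mapGSp σ g : GL (I m) F) = mapGL σ (g : GL (I m) F) := rfl

theorem field_conj (σ : F ≃+* F) (g : ↥(Cfsg.GSp m F)) :
    fieldSp σ * conjSp g = conjSp (mapGSp σ g) * fieldSp σ := by
  apply MulEquiv.ext
  intro s
  apply Subtype.ext
  show ((conjElt g s : Matrix (I m) (I m) F)).map σ = _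
  rw [conjElt_coe, Matrix.map_mul, Matrix.map_mul]
  rfl

/-- Conjugation by a similarity, on `PSp`. -/
noncomputable def conjHom (m : ℕ) (F : Type u) [Field F] : ↥(Cfsg.GSp m F) →* MulAut (P m F) :=
  D.comp conjSp

theorem conjHom_apply (g : ↥(Cfsg.GSp m F)) : conjHom m F g = D (conjSp g) := rfl

theorem twist_field (σ : F ≃+* F) (g : ↥(Cfsg.GSp m F)) :
    D (fieldSp σ) * conjHom m F g = conjHom m F (mapGSp σ g) * D (fieldSp σ) := by
  rw [conjHom_apply, conjHom_apply, ← map_mul, ← map_mul, field_conj]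

/-! ### The predicates -/

theorem induced_iff {β : MulAut (P m F)} {g : ↥(Cfsg.GSp m F)} {σ : F ≃+* F} :
    Cfsg.IsInducedBySemilinearPSp (g : GL (I m) F) σ β ↔ β = conjHom m F g * D (fieldSp σ) := by
  constructor
  · intro h
    exact D_ext fun s => h s (conjElt g (fieldSp σ s)) rfl
  · rintro rfl s s' hs'
    show pr (conjElt g (fieldSp σ s)) = pr s'
    congr 1
    exact Subtype.ext hs'.symm

theorem fieldSp_one_eq : fieldSp (m := m) (RingEquiv.refl F) = 1 := map_one fieldSp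

theorem innerDiag_iff {β : MulAut (P m F)} :
    Cfsg.IsInnerDiagonalAutPSp β ↔ ∃ g, β = conjHom m F g := by
  constructor
  · rintro ⟨g, hg, h⟩
    refine ⟨⟨g, hg⟩, ?_⟩
    rw [(induced_iff (g := ⟨g, hg⟩)).1 h, fieldSp_one_eq, map_one, mul_one]
  · rintro ⟨g, rfl⟩
    exact ⟨g, g.2, induced_iff.2 (by rw [fieldSp_one_eq, map_one, mul_one])⟩

theorem inndiag_eq : Cfsg.inndiagPSp m F = (conjHom m F).range := by
  apply le_antisymm
  · refine (Subgroup.closure_le _).2 fun β hβ => ?_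
    obtain ⟨g, rfl⟩ := innerDiag_iff.1 hβ
    exact ⟨g, rfl⟩
  · rintro _ ⟨g, rfl⟩
    exact Subgroup.subset_closure (innerDiag_iff.2 ⟨g, rfl⟩)

theorem stdField_iff {β : MulAut (P m F)} {σ : F ≃+* F} :
    Cfsg.IsStdFieldAutPSp σ β ↔ β = D (fieldSp σ) := by
  constructor
  · intro h
    exact D_ext fun s => h s (fieldSp σ s) rfl
  · rintro rfl s s' hs'
    show pr (fieldSp σ s) = pr s'
    congr 1
    exact Subtype.ext hs'.symm

/-- A symplectic matrix as a similarity. -/
noncomputable def spIn : S m F →* ↥(Cfsg.GSp m F) :=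
  (spToGL m F).codRestrict (Cfsg.GSp m F) fun s => mem_GSp.2 ⟨1, fun u v => by
    rw [spToGL_val, sp_iso, Units.val_one, one_mul]⟩

theorem spIn_coe (s : S m F) :
    ((spIn s : GL (I m) F) : Matrix (I m) (I m) F) = (s : Matrix (I m) (I m) F) := rfl

theorem inn_eq (s : S m F) : (MulAut.conj (pr s) : MulAut (P m F)) = conjHom m F (spIn s) := by
  apply D_ext
  intro t
  show pr s * pr t * (pr s)⁻¹ = pr (conjElt (spIn s) t)
  rw [← map_inv, ← map_mul, ← map_mul]
  congr 1

theorem inn_le : Cfsg.Inn (P m F) ≤ (conjHom m F).range := by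
  rintro _ ⟨a, rfl⟩
  obtain ⟨s, rfl⟩ := pr_surjective a
  exact ⟨spIn s, (inn_eq s).symm⟩

/-! ### Unipotents and transvection groups -/

/-- Unipotent symplectic matrices with equal classes are equal. -/
theorem eq_of_pr_eq (hm : 1 ≤ m) {s t : S m F}
    (hs : IsNilpotent ((s : Matrix (I m) (I m) F) - 1))
    (ht : IsNilpotent ((t : Matrix (I m) (I m) F) - 1)) (h : pr s = pr t) : s = t := by
  obtain ⟨a, -, ha⟩ := exists_scalar_of_mem_center m hm (QuotientGroup.eq.1 h)
  have hts : (t : Matrix (I m) (I m) F) = a • (s : Matrix (I m) (I m) F) := by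
    refine Matrix.ext_of_mulVec_single fun i => ?_
    have : (t : Matrix (I m) (I m) F) =
        (s : Matrix (I m) (I m) F) * ((s⁻¹ * t : S m F) : Matrix (I m) (I m) F) := by
      rw [← Submonoid.coe_mul, mul_inv_cancel_left]
    rw [this, ← mulVec_mulVec, ha, mulVec_smul, smul_mulVec]
  haveI : Nonempty (I m) := ⟨Sum.inl ⟨0, hm⟩⟩
  have ha1 : a = 1 := by
    by_contra hc
    have h1 : (t : Matrix (I m) (I m) F) - 1 =
        a • ((s : Matrix (I m) (I m) F) - 1) + (a - 1) • (1 : Matrix (I m) (I m) F) := by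
      rw [hts, smul_sub, sub_smul, one_smul]; abel
    have hu : IsUnit ((a - 1) • (1 : Matrix (I m) (I m) F)) := by
      rw [← Algebra.algebraMap_eq_smul_one]
      exact (isUnit_iff_ne_zero.2 (sub_ne_zero.2 hc)).map _
    refine ht.not_isUnit ?_
    rw [h1]
    exact IsNilpotent.isUnit_add_right_of_commute (hs.smul a) hu
      (((Commute.one_right _).smul_right (a - 1)).smul_left a)
  rw [ha1, one_smul] at hts
  exact Subtype.ext hts.symm

theorem spT_sub_one_mulVec (v : I m → F) (c : F) (x : I m → F) :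
    ((spT m v c : Matrix (I m) (I m) F) - 1) *ᵥ x = (c * B m F x v) • v := by
  rw [sub_mulVec, spT_mulVec, one_mulVec, add_sub_cancel_left]

theorem spT_nilpotent (v : I m → F) (c : F) :
    IsNilpotent ((spT m v c : Matrix (I m) (I m) F) - 1) := by
  refine ⟨2, Matrix.ext_of_mulVec_single fun i => ?_⟩
  rw [pow_two, ← mulVec_mulVec, spT_sub_one_mulVec, spT_sub_one_mulVec, map_smul,
    LinearMap.smul_apply, B_self, smul_zero, mul_zero, zero_smul, zero_mulVec]

/-- The class of a transvection. -/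
noncomputable def tr (v : I m → F) (c : F) : P m F := pr (spT m v c)

theorem tr_add (v : I m → F) (c d : F) : tr v c * tr v d = tr v (c + d) := by
  rw [tr, tr, tr, ← map_mul, spT_add]

theorem tr_zero (v : I m → F) : tr v (0 : F) = 1 := by
  rw [tr, spT_zero_right, map_one]

theorem tr_smul (s : F) (v : I m → F) (c : F) : tr (s • v) c = tr v (c * s * s) := by
  rw [tr, tr, spT_smul]

theorem tr_conj (g : S m F) (v : I m → F) (c : F) :
    pr g * tr v c * (pr g)⁻¹ = tr ((g : Matrix (I m) (I m) F) *ᵥ v) c := by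
  rw [tr, tr, ← map_inv, ← map_mul, ← map_mul, spT_conj]

/-- The action of a similarity on transvections. -/
theorem conjHom_tr (g : ↥(Cfsg.GSp m F)) {μ : Fˣ}
    (hμ : ∀ u v, B m F (((g : GL (I m) F) : Matrix (I m) (I m) F) *ᵥ u)
      (((g : GL (I m) F) : Matrix (I m) (I m) F) *ᵥ v) = (μ : F) * B m F u v)
    (v : I m → F) (c : F) :
    conjHom m F g (tr v c) = tr (((g : GL (I m) F) : Matrix (I m) (I m) F) *ᵥ v) (c * (μ⁻¹ : Fˣ)) := by
  rw [conjHom_apply, tr, tr, D_pr, conjSp_apply]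
  congr 1
  apply sp_ext
  intro x
  rw [conjElt_coe, ← mulVec_mulVec, ← mulVec_mulVec, spT_mulVec, mulVec_add, mulVec_smul,
    spT_mulVec, mulVec_mulVec, ← Units.val_mul, mul_inv_cancel, Units.val_one, one_mulVec]
  congr 2
  have h1 := hμ ((((g : GL (I m) F)⁻¹ : GL (I m) F) : Matrix (I m) (I m) F) *ᵥ x) v
  rw [mulVec_mulVec, ← Units.val_mul, mul_inv_cancel, Units.val_one, one_mulVec] at h1
  rw [h1, mul_assoc, ← mul_assoc ((μ⁻¹ : Fˣ) : F), Units.inv_mul, one_mul]

theorem field_tr (σ : F ≃+* F) (v : I m → F) (c : F) :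
    D (fieldSp σ) (tr v c) = tr (fun i => σ (v i)) (σ c) := by
  rw [tr, tr, D_pr]
  congr 1
  apply sp_ext
  intro x
  rw [spT_mulVec, fieldSp_coe]
  have hx : x = fun i => σ ((fun j => σ.symm (x j)) i) := by funext i; simp
  conv_lhs => rw [hx, map_mulVec', spT_mulVec]
  funext i
  simp only [Pi.add_apply, Pi.smul_apply, smul_eq_mul, map_add, map_mul, ← B_map,
    RingEquiv.apply_symm_apply]

theorem tr_inj (hm : 1 ≤ m) {v w : I m → F} {c d : F} (h : tr v c = tr w d) :
    spT m v c = spT m w d :=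
  eq_of_pr_eq hm (spT_nilpotent v c) (spT_nilpotent w d) h

theorem par_of_spT_eq {v w : I m → F} {c d : F} (hv : v ≠ 0) (hc : c ≠ 0)
    (h : spT m v c = spT m w d) : ∃ s : F, v = s • w ∧ s ≠ 0 := by
  obtain ⟨x, hx⟩ := exists_pairing_one (stdB_nondegenerate m) hv
  have h1 := congrArg (fun t : S m F => ((t : Matrix (I m) (I m) F) - 1) *ᵥ x) h
  simp only [spT_sub_one_mulVec] at h1
  have hx' : B m F x v = -1 := by rw [B_swap, hx]
  rw [hx'] at h1
  refine ⟨-(c⁻¹) * (d * B m F x w), ?_, ?_⟩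
  · rw [mul_smul, ← h1, smul_smul]
    rw [show -c⁻¹ * (c * -1) = (1 : F) by field_simp, one_smul]
  · intro h0
    rcases mul_eq_zero.1 h0 with h0 | h0
    · exact hc (inv_eq_zero.1 (neg_eq_zero.1 h0))
    · rw [h0, zero_smul, smul_eq_zero] at h1
      rcases h1 with h1 | h1
      · simp [hc] at h1
      · exact hv h1

theorem tr_left_inj (hm : 1 ≤ m) {v : I m → F} (hv : v ≠ 0) {c d : F} (h : tr v c = tr v d) :
    c = d := by
  obtain ⟨x, hx⟩ := exists_pairing_one (stdB_nondegenerate m) hv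
  have hx' : B m F x v = -1 := by rw [B_swap, hx]
  have h1 := congrArg (fun t : S m F => ((t : Matrix (I m) (I m) F) - 1) *ᵥ x) (tr_inj hm h)
  simp only [spT_sub_one_mulVec, hx'] at h1
  simpa using smul_left_injective F hv h1

theorem tr_ne_one (hm : 1 ≤ m) {v : I m → F} (hv : v ≠ 0) {c : F} (hc : c ≠ 0) : tr v c ≠ 1 :=
  fun h => hc (tr_left_inj hm hv (h.trans (tr_zero v).symm))

/-- A transvection group. -/
noncomputable def X (v : I m → F) : Subgroup (P m F) :=
  ((pr (m := m) (F := F)).comp (spTHom m v)).range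

theorem mem_X {v : I m → F} {z : P m F} : z ∈ X v ↔ ∃ c, z = tr v c :=
  ⟨fun ⟨c, hc⟩ => ⟨c.toAdd, hc.symm⟩, fun ⟨c, hc⟩ => ⟨Multiplicative.ofAdd c, hc.symm⟩⟩

theorem tr_mem_X (v : I m → F) (c : F) : tr v c ∈ X v := mem_X.2 ⟨c, rfl⟩

theorem X_smul {s : F} (hs : s ≠ 0) (v : I m → F) : X (s • v) = X v := by
  ext z
  rw [mem_X, mem_X]
  constructor
  · rintro ⟨c, rfl⟩; exact ⟨_, tr_smul s v c⟩
  · rintro ⟨c, rfl⟩
    refine ⟨c / (s * s), ?_⟩
    rw [tr_smul, mul_assoc, div_mul_cancel₀ _ (mul_ne_zero hs hs)]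

theorem X_eq_iff (hm : 1 ≤ m) {v w : I m → F} (hv : v ≠ 0) :
    X v = X w ↔ ∃ s : F, v = s • w ∧ s ≠ 0 := by
  refine ⟨fun h => ?_, fun ⟨s, hvw, hs⟩ => by rw [hvw, X_smul hs]⟩
  obtain ⟨d, hd⟩ := mem_X.1 (h ▸ tr_mem_X v (1 : F))
  exact par_of_spT_eq hv one_ne_zero (tr_inj hm hd)

theorem commute_iff (hm : 1 ≤ m) {v w : I m → F} (hv : v ≠ 0) (hw : w ≠ 0) {c d : F} (hc : c ≠ 0)
    (hd : d ≠ 0) : Commute (tr v c) (tr w d) ↔ B m F v w = 0 := by
  constructor
  · intro h
    have h1 : tr ((spT m v c : Matrix (I m) (I m) F) *ᵥ w) d = tr w d := by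
      rw [← tr_conj]
      exact mul_inv_eq_iff_eq_mul.2 h.eq
    by_contra hne
    have hne' : B m F w v ≠ 0 := by rw [B_swap]; exact neg_ne_zero.2 hne
    have hu : (spT m v c : Matrix (I m) (I m) F) *ᵥ w ≠ 0 := by
      rw [spT_mulVec]; intro h0
      have := congrArg (fun z => B m F z v) h0
      simp [B_self] at this
      exact hne' this
    obtain ⟨s, hs, -⟩ := par_of_spT_eq hu hd (tr_inj hm h1)
    rw [spT_mulVec] at hs
    have h2 := congrArg (fun z => B m F z w) hs
    simp [B_self, hc, hne'] at h2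
    exact hne h2
  · intro h
    rw [tr, tr]
    refine Commute.map ?_ (pr (m := m) (F := F))
    apply sp_ext
    intro x
    have h' : B m F w v = 0 := by rw [B_swap, h, neg_zero]
    simp [Submonoid.coe_mul, ← mulVec_mulVec, spT_mulVec, h, h']
    module

/-- Two transvection groups commute. -/
def Comm (U V : Subgroup (P m F)) : Prop := ∀ a ∈ U, ∀ b ∈ V, Commute a b

theorem Comm.map {U V : Subgroup (P m F)} (h : Comm U V) (β : MulAut (P m F)) :
    Comm (U.map β.toMonoidHom) (V.map β.toMonoidHom) := by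
  rintro _ ⟨a, ha, rfl⟩ _ ⟨b, hb, rfl⟩
  exact (h a ha b hb).map β.toMonoidHom

theorem comm_iff (hm : 1 ≤ m) {v w : I m → F} (hv : v ≠ 0) (hw : w ≠ 0) :
    Comm (X v) (X w) ↔ B m F v w = 0 := by
  constructor
  · intro h
    exact (commute_iff hm hv hw one_ne_zero one_ne_zero).1 (h _ (tr_mem_X v 1) _ (tr_mem_X w 1))
  · rintro h a ha b hb
    obtain ⟨c, rfl⟩ := mem_X.1 ha
    obtain ⟨d, rfl⟩ := mem_X.1 hb
    rcases eq_or_ne c 0 with rfl | hc
    · rw [tr_zero]; exact Commute.one_left _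
    rcases eq_or_ne d 0 with rfl | hd
    · rw [tr_zero]; exact Commute.one_right _
    exact (commute_iff hm hv hw hc hd).2 h

end Cfsg.Agent.Lib.AutPSp
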