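import Cfsg.Agent.Lib.AutPSp.Main
import Cfsg.Agent.Lib.AutPSp.Split
import Cfsg.Agent.Lib.AutPSp.Lang
import Cfsg.Agent.Lib.AutPSL.Field
import Cfsg.Agent.Lib.Forms.Alternating

/-!
Field automorphisms of prime order of `PSp_{2m}(F)`: conjugacy in the coset, centralisers, classes.
-/

set_option autoImplicit false

namespace Cfsg.Agent.Lib.AutPSp

open Matrix Cfsg.Agent.Lib.Forms Cfsg.Agent.Lib.Classical

universe u

variable {m : ℕ} {F : Type u} [Field F]

/-- A scalar similarity. -/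
noncomputable def scal (m : ℕ) (F : Type u) [Field F] : Fˣ →* ↥(Cfsg.GSp m F) :=
  (GeneralLinearGroup.scalar (I m)).codRestrict (Cfsg.GSp m F) fun c => mem_GSp.2 ⟨c * c, fun u v => by
    simp [GeneralLinearGroup.scalar, Matrix.scalar_apply, ← Matrix.smul_one_eq_diagonal, smul_mulVec]
    ring⟩

theorem scal_coe (c : Fˣ) :
    (scal m F c : GL (I m) F) = GeneralLinearGroup.scalar (I m) c := rfl

theorem scal_mulVec (c : Fˣ) (v : I m → F) :
    ((scal m F c : GL (I m) F) : Matrix (I m) (I m) F) *ᵥ v = (c : F) • v := by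
  simp [scal_coe, GeneralLinearGroup.scalar, Matrix.scalar_apply, ← Matrix.smul_one_eq_diagonal,
    smul_mulVec]

theorem conjSp_scal (c : Fˣ) : conjSp (scal m F c) = 1 := by
  refine MulEquiv.ext fun s => Subtype.ext ?_
  rw [conjSp_apply, conjElt_coe, scal_coe]
  rw [show ((GeneralLinearGroup.scalar (I m) c : GL (I m) F) : Matrix (I m) (I m) F) *
      (s : Matrix (I m) (I m) F) = (s : Matrix (I m) (I m) F) *
        ((GeneralLinearGroup.scalar (I m) c : GL (I m) F) : Matrix (I m) (I m) F) from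
    (Matrix.scalar_commute (c : F) (fun _ => Commute.all _ _) _).eq, mul_assoc, ← Units.val_mul,
    mul_inv_cancel, Units.val_one, mul_one]
  rfl

theorem conjHom_scal (c : Fˣ) : conjHom m F (scal m F c) = 1 := by
  rw [conjHom_apply, conjSp_scal, map_one]

variable [Fintype F]

omit [Fintype F] in
theorem conjHom_eq_one_iff (hm : 1 ≤ m) {g : ↥(Cfsg.GSp m F)} :
    conjHom m F g = 1 ↔ ∃ c : Fˣ, g = scal m F c := by
  constructor
  · intro h
    obtain ⟨-, a, ha⟩ := std_unique hm (g := g) (σ := RingEquiv.refl F)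
      (by rw [fieldSp_one_eq, map_one, mul_one, h])
    have ha0 : a ≠ 0 := by
      rintro rfl
      have := congrArg (fun x => (((g : GL (I m) F)⁻¹ : GL (I m) F) : Matrix (I m) (I m) F) *ᵥ x)
        (ha (e ⟨0, hm⟩))
      simp only [mulVec_mulVec, ← Units.val_mul, inv_mul_cancel, Units.val_one, one_mulVec, zero_smul,
        mulVec_zero] at this
      exact e_ne_zero _ this
    refine ⟨Units.mk0 a ha0, Subtype.ext (Units.ext (Matrix.ext_of_mulVec_single fun i => ?_))⟩
    rw [ha, scal_mulVec, Units.val_mk0]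
  · rintro ⟨c, rfl⟩
    exact conjHom_scal c

omit [Fintype F] in
theorem conjHom_eq_iff (hm : 1 ≤ m) {g h : ↥(Cfsg.GSp m F)} :
    conjHom m F g = conjHom m F h ↔ ∃ c : Fˣ, g = h * scal m F c := by
  rw [← inv_mul_eq_one, ← map_inv, ← map_mul, conjHom_eq_one_iff hm]
  constructor
  · rintro ⟨c, hc⟩
    refine ⟨c⁻¹, ?_⟩
    rw [map_inv, eq_mul_inv_iff_mul_eq, ← hc, mul_inv_cancel_left]
  · rintro ⟨c, rfl⟩
    exact ⟨c⁻¹, by rw [_root_.mul_inv_rev, inv_mul_cancel_right, map_inv]⟩

/-! ### The multiplier -/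

/-- The multiplier. -/
noncomputable def mult (hm : 1 ≤ m) : ↥(Cfsg.GSp m F) →* Fˣ where
  toFun g := Units.mk0 (B m F (((g : GL (I m) F) : Matrix (I m) (I m) F) *ᵥ f ⟨0, hm⟩)
      (((g : GL (I m) F) : Matrix (I m) (I m) F) *ᵥ e ⟨0, hm⟩)) (by
    obtain ⟨c, hc⟩ := mem_GSp.1 g.2
    rw [hc, B_fe, if_pos rfl, mul_one]
    exact c.ne_zero)
  map_one' := Units.ext (by simp [B_fe])
  map_mul' g h := Units.ext (by
    obtain ⟨c, hc⟩ := mem_GSp.1 g.2
    obtain ⟨d, hd⟩ := mem_GSp.1 h.2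
    simp only [Units.val_mk0, Units.val_mul, Subgroup.coe_mul, ← mulVec_mulVec, hc, hd, B_fe,
      if_true, mul_one])

omit [Fintype F] in
theorem mult_spec (hm : 1 ≤ m) (g : ↥(Cfsg.GSp m F)) (u v : I m → F) :
    B m F (((g : GL (I m) F) : Matrix (I m) (I m) F) *ᵥ u)
      (((g : GL (I m) F) : Matrix (I m) (I m) F) *ᵥ v) = (mult hm g : F) * B m F u v := by
  obtain ⟨c, hc⟩ := mem_GSp.1 g.2
  have : mult hm g = c := Units.ext (by
    show B m F _ _ = _
    rw [hc, B_fe, if_pos rfl, mul_one])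
  rw [this, hc]

omit [Fintype F] in
theorem mult_surjective (hm : 1 ≤ m) : Function.Surjective (mult (m := m) (F := F) hm) := by
  intro μ
  obtain ⟨g, hg, -⟩ := exists_torus μ fun _ => 1
  refine ⟨g, Units.ext ?_⟩
  show B m F _ _ = _
  rw [hg, B_fe, if_pos rfl, mul_one]

omit [Fintype F] in
theorem mult_scal (hm : 1 ≤ m) (c : Fˣ) : mult hm (scal m F c) = c * c := Units.ext (by
  show B m F _ _ = _
  rw [scal_mulVec, scal_mulVec]
  simp [B_fe])

omit [Fintype F] in
theorem mult_spIn (hm : 1 ≤ m) (s : S m F) : mult hm (spIn s) = 1 := Units.ext (by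
  show B m F _ _ = _
  rw [spIn_coe, sp_iso, B_fe, if_pos rfl]; rfl)

omit [Fintype F] in
theorem exists_spIn (hm : 1 ≤ m) {g : ↥(Cfsg.GSp m F)} (hg : mult hm g = 1) : ∃ s, spIn s = g := by
  have h : ((g : GL (I m) F) : Matrix (I m) (I m) F) ∈ Matrix.symplecticGroup (Fin m) F :=
    (stdB_iff_matrix m _).1 fun u v => by
      have := mult_spec hm g u v
      rwa [hg, Units.val_one, one_mul] at this
  exact ⟨⟨_, h⟩, Subtype.ext (Units.ext rfl)⟩

/-- A similarity is inner exactly when its multiplier is a square. -/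
theorem mem_inn_iff (hm : 1 ≤ m) (g : ↥(Cfsg.GSp m F)) :
    conjHom m F g ∈ Cfsg.Inn (P m F) ↔ mult hm g ∈ (powMonoidHom 2 : Fˣ →* Fˣ).range := by
  constructor
  · rintro ⟨a, ha⟩
    obtain ⟨s, rfl⟩ := pr_surjective a
    rw [inn_eq, conjHom_eq_iff hm] at ha
    obtain ⟨c, hc⟩ := ha
    refine ⟨c⁻¹, ?_⟩
    have := congrArg (mult hm) hc
    rw [map_mul, mult_spIn, mult_scal] at this
    rw [powMonoidHom_apply, sq, ← inv_eq_of_mul_eq_one_left this.symm, _root_.mul_inv_rev]
  · rintro ⟨c, hc⟩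
    obtain ⟨s, hs⟩ := exists_spIn hm (g := g * scal m F c⁻¹) (by
      rw [map_mul, mult_scal, ← hc, powMonoidHom_apply, sq]
      group)
    exact ⟨pr s, by rw [inn_eq, hs, map_mul, conjHom_scal, mul_one]⟩

/-- `Inndiag` is normal. -/
theorem inndiag_normal (hm : 1 ≤ m) : (Cfsg.inndiagPSp m F).Normal := by
  rw [inndiag_eq]
  by_cases h2 : (2 : F) = 0
  · have hinn : (conjHom m F).range = Cfsg.Inn (P m F) := by
      refine le_antisymm ?_ inn_le
      rintro _ ⟨g, rfl⟩
      rw [mem_inn_iff hm]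
      haveI : Fact (Nat.Prime 2) := ⟨Nat.prime_two⟩
      have hr : ringChar F = 2 := CharP.ringChar_of_prime_eq_zero Nat.prime_two (by exact_mod_cast h2)
      obtain ⟨r, hr⟩ := FiniteField.isSquare_of_char_two hr (mult hm g : F)
      have hr0 : r ≠ 0 := fun h => by
        rw [h, mul_zero] at hr; exact (mult hm g).ne_zero hr
      exact ⟨Units.mk0 r hr0, Units.ext (by simp [hr, sq])⟩
    rw [hinn]; exact normal_inn
  · refine ⟨?_⟩
    rintro _ ⟨h, rfl⟩ β
    obtain ⟨g, σ, rfl⟩ := std_all hm (Or.inl h2) β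
    refine ⟨g * mapGSp σ h * g⁻¹, ?_⟩
    rw [map_mul, map_mul, map_inv, _root_.mul_inv_rev, mul_assoc (conjHom m F g) (D (fieldSp σ)),
      twist_field]
    group

omit [Fintype F] in
theorem orderOf_fieldSp (hm : 1 ≤ m) (σ : F ≃+* F) :
    orderOf (D (fieldSp σ) : MulAut (P m F)) = orderOf σ := by
  refine orderOf_injective (D.comp fieldSp) ?_ σ
  rw [injective_iff_map_eq_one]
  intro τ h
  exact (std_unique hm (g := 1) (σ := τ) (by rw [map_one, one_mul]; exact h)).1

/-- The field of fixed elements. -/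
def fixF (σ : F ≃+* F) : Subfield F := RingHom.eqLocusField σ.toRingHom (RingHom.id F)

omit [Fintype F] in
theorem mem_fixF {σ : F ≃+* F} {x : F} : x ∈ fixF σ ↔ σ x = x := Iff.rfl

/-- Lang's theorem for the similarity group. -/
theorem lang_GSp (hm : 1 ≤ m) {σ : F ≃+* F} {r : ℕ} (hr : orderOf σ = r) (hr0 : 0 < r)
    {g : ↥(Cfsg.GSp m F)} {l : Fˣ}
    (hl : AutPSL.tw (mapGSp σ) g r = scal m F l) :
    ∃ (a : ↥(Cfsg.GSp m F)) (c : Fˣ), scal m F c * g * mapGSp σ a = a := by
  classical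
  haveI : Nonempty (I m) := ⟨Sum.inl ⟨0, hm⟩⟩
  have hl' : AutPSL.tw (mapG σ) (g : GL (I m) F) r = GeneralLinearGroup.scalar (I m) l := by
    have htw : ∀ i, ((AutPSL.tw (mapGSp σ) g i : ↥(Cfsg.GSp m F)) : GL (I m) F) = AutPSL.tw (mapG σ) (g : GL (I m) F) i := by
      intro i
      induction i with
      | zero => rfl
      | succ i ih => rw [AutPSL.tw_succ, AutPSL.tw_succ, Subgroup.coe_mul, mapGSp_coe, ih]
    rw [← htw, hl, scal_coe]
  obtain ⟨c, hc⟩ := exists_scalarG_normalise hr hr0 hl'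
  obtain ⟨a, ha⟩ := langG hr hr0 hc
  set G : ↥(Cfsg.GSp m F) := scal m F c * g with hG
  set μ := mult hm G
  set M : Matrix (I m) (I m) F := (a : Matrix (I m) (I m) F) with hM
  -- the pulled back form
  let β : (I m → F) → (I m → F) → F := fun u v => B m F (M *ᵥ u) (M *ᵥ v)
  have hβ : ∀ u v : I m → F, β (fun i => σ (u i)) (fun i => σ (v i)) = (μ : F) * σ (β u v) := by
    intro u v
    have e1 : ∀ w : I m → F, M *ᵥ (fun i => σ (w i)) =
        ((G : GL (I m) F) : Matrix (I m) (I m) F) *ᵥ fun i => σ ((M *ᵥ w) i) := fun w => by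
      conv_lhs => rw [hM, ← ha, Units.val_mul, ← mulVec_mulVec]
      congr 1
      exact map_mulVec' σ _ w
    show B m F _ _ = _
    rw [e1, e1, mult_spec hm G, B_map]
  let K := fixF σ
  have hfixv : ∀ a : I m, (fun i => σ ((Pi.single a (1 : F) : I m → F) i)) = Pi.single a 1 :=
    fun a => by funext i; by_cases h : i = a <;> simp [h]
  have hent : ∀ a b : I m, β (Pi.single a 1) (Pi.single b 1) =
      (μ : F) * σ (β (Pi.single a 1) (Pi.single b 1)) := fun a b => by
    conv_lhs => rw [← hfixv a, ← hfixv b, hβ]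
  have hinj : ∀ u, M *ᵥ u = 0 → u = 0 := fun u hu => by
    have := congrArg (fun x => ((a⁻¹ : GL (I m) F) : Matrix (I m) (I m) F) *ᵥ x) hu
    simpa [hM, mulVec_mulVec, ← Units.val_mul] using this
  obtain ⟨a0, b0, h0⟩ : ∃ a b : I m, β (Pi.single a 1) (Pi.single b 1) ≠ 0 := by
    by_contra hcon
    push Not at hcon
    have hz : (B m F).compl₁₂ M.mulVecLin M.mulVecLin = 0 :=
      LinearMap.ext_basis (Pi.basisFun F (I m)) (Pi.basisFun F (I m)) fun a b => by
        simpa [β] using hcon a b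
    have hne : M *ᵥ e ⟨0, hm⟩ ≠ 0 := fun h => e_ne_zero _ (hinj _ h)
    obtain ⟨y, hy⟩ := exists_pairing_one (stdB_nondegenerate m) hne
    have := LinearMap.congr_fun (LinearMap.congr_fun hz (e ⟨0, hm⟩))
      (((a⁻¹ : GL (I m) F) : Matrix (I m) (I m) F) *ᵥ y)
    simp only [LinearMap.compl₁₂_apply, Matrix.mulVecLin_apply, LinearMap.zero_apply, hM,
      mulVec_mulVec, ← Units.val_mul, mul_inv_cancel, Units.val_one, one_mulVec] at this
    rw [hy] at this
    exact one_ne_zero this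
  set x0 := β (Pi.single a0 1) (Pi.single b0 1) with hx0
  have hentK : ∀ a b : I m, β (Pi.single a 1) (Pi.single b 1) / x0 ∈ K := fun a b => by
    rw [mem_fixF, map_div₀]
    conv_rhs => rw [hent a b, hx0, hent a0 b0, mul_div_mul_left _ _ μ.ne_zero]
  let J : Matrix (I m) (I m) ↥K :=
    Matrix.of fun a b => ⟨β (Pi.single a 1) (Pi.single b 1) / x0, hentK a b⟩
  let B₀ : LinearMap.BilinForm ↥K (I m → ↥K) := Matrix.toBilin' J
  let inc : (I m → ↥K) → (I m → F) := fun v i => (v i : F)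
  have hinc : Function.Injective inc := fun u v h => funext fun i => Subtype.ext (congrFun h i)
  have hsum : ∀ w : I m → F, w = ∑ i, w i • (Pi.single i (1 : F) : I m → F) := fun w => by
    funext i; simp [Finset.sum_apply, Pi.single_apply]
  have hβadd : ∀ u v : I m → F, β u v = ∑ a, ∑ b, u a * v b * β (Pi.single a 1) (Pi.single b 1) := by
    intro u v
    show B m F _ _ = _
    conv_lhs => rw [hsum u, hsum v]
    simp only [mulVec_sum, mulVec_smul, map_sum, map_smul, LinearMap.sum_apply, LinearMap.smul_apply,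
      smul_eq_mul, Finset.mul_sum, β]
    rw [Finset.sum_comm]
    exact Finset.sum_congr rfl fun i _ => Finset.sum_congr rfl fun j _ => by ring
  have hB0 : ∀ u v, ((B₀ u v : ↥K) : F) = β (inc u) (inc v) / x0 := by
    intro u v
    simp only [B₀, Matrix.toBilin'_apply, J, Matrix.of_apply, AddSubmonoidClass.coe_finsetSum,
      MulMemClass.coe_mul]
    rw [hβadd, Finset.sum_div]
    refine Finset.sum_congr rfl fun i _ => ?_
    rw [Finset.sum_div]
    exact Finset.sum_congr rfl fun j _ => by simp only [inc]; ring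
  have hA0 : B₀.IsAlt := fun v => Subtype.ext (by
    show ((B₀ v v : ↥K) : F) = ((0 : ↥K) : F)
    rw [hB0, ZeroMemClass.coe_zero]
    simp [β, B_self])
  have hN0 : B₀.SeparatingLeft := by
    intro u hu
    apply hinc
    have hz : ∀ w : I m → F, β (inc u) w = 0 := by
      intro w
      have hb : ∀ b : I m, β (inc u) (Pi.single b 1) = 0 := fun b => by
        have := congrArg Subtype.val (hu (Pi.single b 1))
        rw [hB0, ZeroMemClass.coe_zero, div_eq_zero_iff] at this
        have hi : inc (Pi.single b (1 : ↥K)) = Pi.single b 1 := by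
          funext i; by_cases h : i = b <;> simp [inc, h]
        rw [hi] at this
        exact this.resolve_right h0
      show B m F _ _ = 0
      conv_lhs => rw [hsum w]
      simp only [mulVec_sum, mulVec_smul, map_sum, map_smul, LinearMap.sum_apply,
        LinearMap.smul_apply, smul_eq_mul]
      exact Finset.sum_eq_zero fun b _ => by
        rw [show B m F (M *ᵥ inc u) (M *ᵥ Pi.single b 1) = 0 from hb b, mul_zero]
    have hMu : M *ᵥ inc u = 0 := by
      refine eq_zero_of_B fun z => ?_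
      have := hz (((a⁻¹ : GL (I m) F) : Matrix (I m) (I m) F) *ᵥ z)
      simp only [β, hM, mulVec_mulVec, ← Units.val_mul, mul_inv_cancel, Units.val_one, one_mulVec] at this
      rw [B_swap, this, neg_zero]
    rw [hinj _ hMu]
    funext i; simp [inc]
  obtain ⟨T, hT⟩ := exists_alt_isometry (stdB m ↥K) (stdB_isAlt m) (stdB_nondegenerate m).1 B₀ hA0 hN0 rfl
  -- the base change
  let N : Matrix (I m) (I m) F := Matrix.of fun i j => ((T (Pi.single j 1) i : ↥K) : F)
  have hN : ∀ j, N *ᵥ Pi.single j 1 = inc (T (Pi.single j 1)) := fun j => by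
    funext i; simp [N, inc, Matrix.mulVec_single_one]
  have hstd : ∀ i j : I m, ((stdB m ↥K (Pi.single i 1) (Pi.single j 1) : ↥K) : F) =
      B m F (Pi.single i 1) (Pi.single j 1) := fun i j => by
    simp only [B, stdB_apply, Cfsg.sympForm, Matrix.mulVec_single_one, Matrix.col_apply,
      single_dotProduct, one_mul]
    rcases i with i | i <;> rcases j with j | j <;> by_cases h : i = j <;> simp [Matrix.J, h]
  have hMN : (B m F).compl₁₂ (M * N).mulVecLin (M * N).mulVecLin = x0 • B m F := by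
    refine LinearMap.ext_basis (Pi.basisFun F (I m)) (Pi.basisFun F (I m)) fun i j => ?_
    simp only [Pi.basisFun_apply, LinearMap.compl₁₂_apply, Matrix.mulVecLin_apply, ← mulVec_mulVec,
      hN, LinearMap.smul_apply, smul_eq_mul]
    rw [← hstd, ← hT, hB0, mul_div_cancel₀ _ h0]
  have hNσ : N.map σ = N := by
    ext i j
    exact (T (Pi.single j 1) i).2
  have hdet : (M * N).det ≠ 0 := by
    intro h
    obtain ⟨v, hv, hv0⟩ := Matrix.exists_mulVec_eq_zero_iff.2 h
    apply hv
    refine eq_zero_of_B fun z => ?_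
    have := LinearMap.congr_fun (LinearMap.congr_fun hMN z) v
    simp only [LinearMap.compl₁₂_apply, Matrix.mulVecLin_apply, hv0, map_zero, LinearMap.smul_apply,
      smul_eq_mul] at this
    exact (mul_eq_zero.1 this.symm).resolve_left h0
  let A : GL (I m) F := GeneralLinearGroup.mkOfDetNeZero (M * N) hdet
  have hAmem : A ∈ Cfsg.GSp m F := mem_GSp.2 ⟨Units.mk0 x0 h0, fun u v => by
    have := LinearMap.congr_fun (LinearMap.congr_fun hMN u) v
    simpa [LinearMap.compl₁₂_apply, A] using this⟩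
  refine ⟨⟨A, hAmem⟩, c, Subtype.ext (Units.ext ?_)⟩
  show ((G : GL (I m) F) : Matrix (I m) (I m) F) * (M * N).map σ = M * N
  rw [Matrix.map_mul, hNσ, ← mul_assoc]
  congr 1
  exact congrArg Units.val ha

/-- Elements of prime order of the coset of a standard field automorphism are conjugate to it. -/
theorem exists_conj_of_field (hm : 1 ≤ m) {σ : F ≃+* F} {r : ℕ} (hr : orderOf σ = r) (hr0 : 0 < r)
    (g : ↥(Cfsg.GSp m F)) (h : (conjHom m F g * D (fieldSp σ)) ^ r = 1) :
    ∃ a, conjHom m F g * D (fieldSp σ) = conjHom m F a * D (fieldSp σ) * (conjHom m F a)⁻¹ := by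
  rw [AutPSL.tw_pow (mapGSp σ) (conjHom m F) _ (twist_field σ) g r, ← map_pow, ← map_pow, ← hr,
    pow_orderOf_eq_one, map_one, map_one, mul_one, hr, conjHom_eq_one_iff hm] at h
  obtain ⟨l, hl⟩ := h
  obtain ⟨a, c, ha⟩ := lang_GSp hm hr hr0 hl
  refine ⟨a, ?_⟩
  have he : conjHom m F (scal m F c * g) = conjHom m F g := by rw [map_mul, conjHom_scal, one_mul]
  rw [← he, eq_mul_inv_iff_mul_eq, mul_assoc, twist_field σ a, ← mul_assoc, ← map_mul, ha]

/-- The centraliser of a standard field automorphism. -/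
theorem centralizer_iff (hm : 1 ≤ m) {σ : F ≃+* F} {r : ℕ} (hr : orderOf σ = r) (hr0 : 0 < r)
    {g : ↥(Cfsg.GSp m F)} :
    conjHom m F g ∈ Subgroup.centralizer {(D (fieldSp σ) : MulAut (P m F))} ↔
      ∃ (c : Fˣ) (h : ↥(Cfsg.GSp m F)), mapGSp σ h = h ∧ g = scal m F c * h := by
  haveI : Nonempty (I m) := ⟨Sum.inl ⟨0, hm⟩⟩
  rw [Subgroup.mem_centralizer_singleton_iff]
  constructor
  · intro h
    rw [twist_field, mul_left_inj, conjHom_eq_iff hm] at h
    obtain ⟨c, hc⟩ := h
    have hc' : mapG σ (g : GL (I m) F) = GeneralLinearGroup.scalar (I m) c⁻¹ * (g : GL (I m) F) := by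
      have := congrArg (fun x : ↥(Cfsg.GSp m F) => (x : GL (I m) F)) hc
      simp only [Subgroup.coe_mul, mapGSp_coe, scal_coe] at this
      rw [map_inv, eq_inv_mul_iff_mul_eq, (scalarG_commute c _).eq]
      exact this.symm
    obtain ⟨d, k, hk, hgk⟩ := exists_fixed_of_scalar_moved hr hr0 hc'
    have hkm : k ∈ Cfsg.GSp m F := by
      have : k = ((scal m F d)⁻¹ * g : ↥(Cfsg.GSp m F)) := by
        rw [Subgroup.coe_mul, InvMemClass.coe_inv, scal_coe, hgk, inv_mul_cancel_left]
      rw [this]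
      exact ((scal m F d)⁻¹ * g).2
    exact ⟨d, ⟨k, hkm⟩, Subtype.ext hk, Subtype.ext hgk⟩
  · rintro ⟨c, h, hh, rfl⟩
    rw [map_mul, conjHom_scal, one_mul, twist_field, hh]

/-- The image of the fixed multipliers. -/
theorem mult_fixed_range (hm : 1 ≤ m) {σ : F ≃+* F} {r : ℕ} (hr : orderOf σ = r) (hr0 : 0 < r) :
    ((Cfsg.Inn (P m F) ⊔ ((conjHom m F).range ⊓
        Subgroup.centralizer {(D (fieldSp σ) : MulAut (P m F))})).comap (conjHom m F)) =
      ((powMonoidHom 2 : Fˣ →* Fˣ).range ⊔ AutPSL.fixU σ).comap (mult hm) := by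
  haveI : (Cfsg.Inn (P m F)).Normal := normal_inn
  ext g
  rw [Subgroup.mem_comap, Subgroup.mem_comap]
  constructor
  · intro hg
    rw [Subgroup.mem_sup_of_normal_left] at hg
    obtain ⟨k, hk, z, hz, hg⟩ := hg
    obtain ⟨⟨w, rfl⟩, hw⟩ := Subgroup.mem_inf.1 hz
    obtain ⟨s, rfl⟩ := inn_le hk
    obtain ⟨c, h, hh, rfl⟩ := (centralizer_iff hm hr hr0).1 hw
    rw [← map_mul, eq_comm, conjHom_eq_iff hm] at hg
    obtain ⟨d, rfl⟩ := hg
    rw [map_mul, map_mul, map_mul, mult_scal, mult_scal]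
    refine mul_mem (mul_mem (Subgroup.mem_sup_left ((mem_inn_iff hm s).1 hk))
      (mul_mem (Subgroup.mem_sup_left ⟨c, sq c⟩) (Subgroup.mem_sup_right ?_)))
      (Subgroup.mem_sup_left ⟨d, sq d⟩)
    show AutPSL.mapU σ (mult hm h) = mult hm h
    have h1 := mult_spec hm (mapGSp σ h) (f ⟨0, hm⟩) (e ⟨0, hm⟩)
    rw [B_fe, if_pos rfl, mul_one] at h1
    apply Units.ext
    show σ (mult hm h : F) = (mult hm h : F)
    have hf0 : (fun i => σ ((f (⟨0, hm⟩ : Fin m) : I m → F) i)) = f ⟨0, hm⟩ := by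
      funext i; by_cases hi : i = Sum.inr ⟨0, hm⟩ <;> simp [f, hi]
    have he0 : (fun i => σ ((e (⟨0, hm⟩ : Fin m) : I m → F) i)) = e ⟨0, hm⟩ := by
      funext i; by_cases hi : i = Sum.inl ⟨0, hm⟩ <;> simp [e, hi]
    calc σ (mult hm h : F) = σ (B m F (((h : GL (I m) F) : Matrix (I m) (I m) F) *ᵥ f ⟨0, hm⟩)
          (((h : GL (I m) F) : Matrix (I m) (I m) F) *ᵥ e ⟨0, hm⟩)) := rfl
      _ = B m F (((mapGSp σ h : GL (I m) F) : Matrix (I m) (I m) F) *ᵥ f ⟨0, hm⟩)
          (((mapGSp σ h : GL (I m) F) : Matrix (I m) (I m) F) *ᵥ e ⟨0, hm⟩) := by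
        rw [← B_map, ← map_mulVec', ← map_mulVec', hf0, he0]; rfl
      _ = (mult hm h : F) := by rw [hh]; rfl
  · intro hg
    rw [Subgroup.mem_sup] at hg
    obtain ⟨x, ⟨a, rfl⟩, μ, hμ, hg⟩ := hg
    obtain ⟨T, hT, hTv⟩ := exists_torus μ fun _ => (1 : Fˣ)
    have hmT : mult hm T = μ := Units.ext (by
      show B m F _ _ = _
      rw [hT, B_fe, if_pos rfl, mul_one])
    have hTσ : mapGSp σ T = T := by
      apply Subtype.ext
      apply Units.ext
      show ((T : GL (I m) F) : Matrix (I m) (I m) F).map σ = ((T : GL (I m) F) : Matrix (I m) (I m) F)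
      refine Matrix.ext_of_mulVec_single fun i => ?_
      have hs : (fun j => σ ((Pi.single i (1 : F) : I m → F) j)) = Pi.single i 1 := by
        funext j; by_cases hj : j = i <;> simp [hj]
      conv_lhs => rw [← hs, map_mulVec']
      have hμ' : σ (μ : F) = μ := congrArg Units.val hμ
      rcases i with i | i
      · rw [show (Pi.single (Sum.inl i) 1 : I m → F) = e i from rfl, (hTv i).1]
        funext j; by_cases hj : j = Sum.inl i <;> simp [e, hj]
      · rw [show (Pi.single (Sum.inr i) 1 : I m → F) = f i from rfl, (hTv i).2]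
        funext j; by_cases hj : j = Sum.inr i <;> simp [f, hj, hμ']
    have hk : conjHom m F (g * T⁻¹) ∈ Cfsg.Inn (P m F) := by
      rw [mem_inn_iff hm, map_mul, map_inv, hmT, ← hg, mul_inv_cancel_right]
      exact ⟨a, rfl⟩
    have hz : conjHom m F T ∈ (conjHom m F).range ⊓
        Subgroup.centralizer {(D (fieldSp σ) : MulAut (P m F))} :=
      Subgroup.mem_inf.2 ⟨⟨T, rfl⟩, (centralizer_iff hm hr hr0).2 ⟨1, T, hTσ, by rw [map_one, one_mul]⟩⟩
    rw [show g = g * T⁻¹ * T by group, map_mul]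
    exact mul_mem (Subgroup.mem_sup_left hk) (Subgroup.mem_sup_right hz)

theorem splitClassCount_field (hm : 1 ≤ m) {σ : F ≃+* F} {r : ℕ} (hr : orderOf σ = r) (hr0 : 0 < r) :
    Cfsg.splitClassCount (Cfsg.inndiagPSp m F) (Cfsg.Inn (P m F)) (D (fieldSp σ) : MulAut (P m F)) =
      Nat.gcd 2 (AutPSL.fixU σ).index := by
  haveI : (Cfsg.Inn (P m F)).Normal := normal_inn
  rw [inndiag_eq, splitClassCount_relIndex _ _ inn_le, ← Subgroup.index_comap,
    mult_fixed_range hm hr hr0, Subgroup.index_comap_of_surjective _ (mult_surjective hm), sup_comm,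
    AutPSL.index_sup_powers]

/-- The centraliser as `PGSp` over the fixed field. -/
theorem centralizer_iso (hm : 1 ≤ m) {σ : F ≃+* F} {r : ℕ} (hr : orderOf σ = r) (hr0 : 0 < r)
    {F₀ : Type*} [Field F₀] (ι : F₀ →+* F) (hι : ∀ c : F, σ c = c ↔ c ∈ Set.range ι) :
    Nonempty (↥(Cfsg.inndiagPSp m F ⊓ Subgroup.centralizer {(D (fieldSp σ) : MulAut (P m F))}) ≃*
      Cfsg.PGSp m F₀) := by
  classical
  have hJ : (Matrix.J (Fin m) F₀).map ι = Matrix.J (Fin m) F := by
    rw [Matrix.J, Matrix.fromBlocks_map]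
    congr 1 <;> ext i j <;> simp [Matrix.one_apply, apply_ite ι]
  have hB : ∀ (M : Matrix (I m) (I m) F₀) (u v : I m → F₀),
      B m F (M.map ι *ᵥ (ι ∘ u)) (M.map ι *ᵥ (ι ∘ v)) = ι (B m F₀ (M *ᵥ u) (M *ᵥ v)) := by
    intro M u v
    simp only [B, stdB_apply, Cfsg.sympForm]
    rw [RingHom.map_dotProduct]
    congr 1
    · funext i; exact (RingHom.map_mulVec ι M u i).symm
    · funext i
      rw [Function.comp_apply, RingHom.map_mulVec ι (Matrix.J (Fin m) F₀), hJ]
      congr 1
      congr 1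
      funext j; exact (RingHom.map_mulVec ι M v j).symm
  have hbasis : ∀ (a : I m), (ι ∘ (Pi.single a 1 : I m → F₀)) = Pi.single a 1 := fun a => by
    funext i; by_cases h : i = a <;> simp [h]
  have hmem : ∀ g : ↥(Cfsg.GSp m F₀),
      GeneralLinearGroup.map ι (g : GL (I m) F₀) ∈ Cfsg.GSp m F := by
    intro g
    obtain ⟨c, hc⟩ := mem_GSp.1 g.2
    refine mem_GSp.2 ⟨Units.map ι.toMonoidHom c, ?_⟩
    set M := ((GeneralLinearGroup.map ι (g : GL (I m) F₀) : GL (I m) F) : Matrix (I m) (I m) F) with hM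
    have : (B m F).compl₁₂ M.mulVecLin M.mulVecLin = (ι (c : F₀)) • B m F := by
      refine LinearMap.ext_basis (Pi.basisFun F (I m)) (Pi.basisFun F (I m)) fun a b => ?_
      simp only [Pi.basisFun_apply, LinearMap.compl₁₂_apply, Matrix.mulVecLin_apply,
        LinearMap.smul_apply, smul_eq_mul]
      have h1 := hB ((g : GL (I m) F₀) : Matrix (I m) (I m) F₀) (Pi.single a 1) (Pi.single b 1)
      have h2 := hB 1 (Pi.single a 1) (Pi.single b 1)
      rw [hc, map_mul] at h1
      rw [Matrix.map_one _ (map_zero ι) (map_one ι), one_mulVec, one_mulVec, one_mulVec, one_mulVec] at h2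
      rw [← hbasis a, ← hbasis b, h2]
      exact h1
    intro u v
    exact LinearMap.congr_fun (LinearMap.congr_fun this u) v
  let lift : ↥(Cfsg.GSp m F₀) →* ↥(Cfsg.GSp m F) :=
    ((GeneralLinearGroup.map ι).comp (Cfsg.GSp m F₀).subtype).codRestrict (Cfsg.GSp m F) hmem
  let ψ : ↥(Cfsg.GSp m F₀) →* MulAut (P m F) := (conjHom m F).comp lift
  have hker : ψ.ker = (Cfsg.Geo.scalars (I m) F₀).subgroupOf (Cfsg.GSp m F₀) := by
    ext g
    rw [MonoidHom.mem_ker, Subgroup.mem_subgroupOf, Cfsg.Geo.mem_scalars_iff]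
    show conjHom m F (lift g) = 1 ↔ _
    rw [conjHom_eq_one_iff hm]
    constructor
    · rintro ⟨c, hc⟩
      set M := ((g : GL (I m) F₀) : Matrix (I m) (I m) F₀) with hM
      have hc' : M.map ι = (c : F) • (1 : Matrix (I m) (I m) F) := by
        have := congrArg (fun x : ↥(Cfsg.GSp m F) => ((x : GL (I m) F) : Matrix (I m) (I m) F)) hc
        refine this.trans ?_
        simp [scal_coe, GeneralLinearGroup.scalar, ← Matrix.smul_one_eq_diagonal]
      set i0 : I m := Sum.inl ⟨0, hm⟩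
      have hd : ι (M i0 i0) = (c : F) := by
        have := congrFun (congrFun hc' i0) i0
        simpa using this
      have hd0 : M i0 i0 ≠ 0 := fun h => c.ne_zero (by rw [← hd, h, map_zero])
      refine ⟨Units.mk0 _ hd0, Matrix.map_injective ι.injective ?_⟩
      dsimp only
      rw [hc']
      ext i j
      by_cases hij : i = j <;> simp [hij, hd]
    · rintro ⟨c, hc⟩
      refine ⟨Units.map ι.toMonoidHom c, Subtype.ext (Units.ext ?_)⟩
      show ((g : GL (I m) F₀) : Matrix (I m) (I m) F₀).map ι = _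
      rw [hc]
      ext i j
      by_cases hij : i = j <;> simp [hij, scal_coe, GeneralLinearGroup.scalar]
  have hlift : ∀ h : ↥(Cfsg.GSp m F), mapGSp σ h = h ↔ ∃ a, lift a = h := by
    intro h
    constructor
    · intro hh
      have hent : ∀ i j, ∃ a : F₀, ι a = (h : GL (I m) F) i j := fun i j => (hι _).1
        (congrArg (fun M : ↥(Cfsg.GSp m F) => (M : GL (I m) F) i j) hh)
      choose a ha using hent
      have hmap : (Matrix.of a).map ι = ((h : GL (I m) F) : Matrix (I m) (I m) F) := Matrix.ext ha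
      have hdet : (Matrix.of a).det ≠ 0 := by
        intro h0
        have := congrArg ι h0
        rw [RingHom.map_det, map_zero] at this
        exact (GeneralLinearGroup.det (h : GL (I m) F)).ne_zero
          (by rw [GeneralLinearGroup.val_det_apply, ← hmap]; exact this)
      let k := GeneralLinearGroup.mkOfDetNeZero _ hdet
      have hk : k ∈ Cfsg.GSp m F₀ := by
        set i0 : Fin m := ⟨0, hm⟩
        set μ := B m F₀ (Matrix.of a *ᵥ f i0) (Matrix.of a *ᵥ e i0) with hμ
        have hμ' : ι μ = (mult hm h : F) := by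
          rw [hμ, ← hB, hmap]
          show _ = B m F _ _
          congr <;> exact hbasis _
        have hμ0 : μ ≠ 0 := fun h0 => (mult hm h).ne_zero (by rw [← hμ', h0, map_zero])
        have : (B m F₀).compl₁₂ (Matrix.of a).mulVecLin (Matrix.of a).mulVecLin = μ • B m F₀ := by
          refine LinearMap.ext_basis (Pi.basisFun F₀ (I m)) (Pi.basisFun F₀ (I m)) fun x y => ι.injective ?_
          simp only [Pi.basisFun_apply, LinearMap.compl₁₂_apply, Matrix.mulVecLin_apply,
            LinearMap.smul_apply, smul_eq_mul, map_mul]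
          have h2 := hB 1 (Pi.single x 1) (Pi.single y 1)
          rw [Matrix.map_one _ (map_zero ι) (map_one ι), one_mulVec, one_mulVec, one_mulVec, one_mulVec] at h2
          rw [← hB, hmap, hbasis, hbasis, mult_spec hm h, ← hμ', ← h2, hbasis, hbasis]
        exact mem_GSp.2 ⟨Units.mk0 μ hμ0, fun u v =>
          LinearMap.congr_fun (LinearMap.congr_fun this u) v⟩
      exact ⟨⟨k, hk⟩, Subtype.ext (Units.ext hmap)⟩
    · rintro ⟨a, rfl⟩
      refine Subtype.ext (Units.ext ?_)
      ext i j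
      exact (hι _).2 ⟨_, rfl⟩
  have hrange : ψ.range = Cfsg.inndiagPSp m F ⊓
      Subgroup.centralizer {(D (fieldSp σ) : MulAut (P m F))} := by
    rw [inndiag_eq]
    apply le_antisymm
    · rintro _ ⟨a, rfl⟩
      exact ⟨⟨_, rfl⟩, (centralizer_iff hm hr hr0).2 ⟨1, _, (hlift _).2 ⟨a, rfl⟩, by rw [map_one, one_mul]⟩⟩
    · rintro _ ⟨⟨g, rfl⟩, hg⟩
      obtain ⟨c, h, hh, rfl⟩ := (centralizer_iff hm hr hr0).1 hg
      obtain ⟨a, rfl⟩ := (hlift h).1 hh
      exact ⟨a, by rw [map_mul, conjHom_scal, one_mul]; rfl⟩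
  exact ⟨(MulEquiv.subgroupCongr hrange.symm).trans
    ((QuotientGroup.quotientKerEquivRange ψ).symm.trans (QuotientGroup.quotientMulEquivOfEq hker))⟩

/-- Reduction of a field automorphism to the standard one. -/
theorem exists_std_of_field (hm : 1 ≤ m) {x : MulAut (P m F)} (hx : Cfsg.IsFieldAutClassPSp x) :
    ∃ (α : MulAut (P m F)) (σ : F ≃+* F), α * x * α⁻¹ = D (fieldSp σ) ∧ orderOf σ = orderOf x := by
  obtain ⟨α, σ, -, hst⟩ := hx
  rw [stdField_iff] at hst
  exact ⟨α, σ, hst, by rw [← orderOf_fieldSp (m := m) hm σ, ← hst, AutPSL.orderOf_conj]⟩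

/-- Prime order elements of the coset of a field automorphism. -/
theorem coset_conj_iff (hm : 1 ≤ m) {x δ : MulAut (P m F)} (hx : Cfsg.IsFieldAutClassPSp x) {r : ℕ}
    (hr : r.Prime) (hxr : orderOf x = r) (hδ : δ ∈ Cfsg.inndiagPSp m F) :
    orderOf (δ * x) = r ↔ Cfsg.IsConjUnder (Cfsg.inndiagPSp m F) x (δ * x) := by
  haveI := inndiag_normal (F := F) hm
  obtain ⟨α, σ, hst, hord⟩ := exists_std_of_field hm hx
  rw [hxr] at hord
  rw [← isConjUnder_conj α, ← AutPSL.orderOf_conj α (δ * x),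
    show α * (δ * x) * α⁻¹ = α * δ * α⁻¹ * (α * x * α⁻¹) by group, hst]
  have hd := (inndiag_normal (F := F) hm).conj_mem δ hδ α
  refine AutPSL.conj_iff_of_std (S := (D (fieldSp σ) : MulAut (P m F))) (b := 1) (one_mem _) (by group) hd hr ?_ fun d hd' h => ?_
  · rw [orderOf_fieldSp hm, hord]
  · rw [inndiag_eq] at hd' ⊢
    obtain ⟨g, rfl⟩ := hd'
    obtain ⟨a, ha⟩ := exists_conj_of_field hm hord hr.pos g h
    exact ⟨_, ⟨a, rfl⟩, ha⟩

end Cfsg.Agent.Lib.AutPSp
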