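import Cfsg.Agent.Lib.AutPSp.Exotic

/-!
The order of the automorphism group of `PSp_{2m}(F)`.
-/

set_option autoImplicit false

namespace Cfsg.Agent.Lib.AutPSp

open Matrix Cfsg.Agent.Lib.Forms Cfsg.Agent.Lib.Classical

universe u

variable {m : ℕ} {F : Type u} [Field F] [Fintype F]

theorem card_inn (hm : 1 ≤ m) : Nat.card (Cfsg.Inn (P m F)) = Nat.card (P m F) := by
  refine (Nat.card_congr (MonoidHom.ofInjective (f := (MulAut.conj : P m F →* MulAut (P m F))) ?_).toEquiv).symm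
  rw [← MonoidHom.ker_eq_bot_iff, eq_bot_iff]
  intro a ha
  obtain ⟨s, rfl⟩ := pr_surjective a
  rw [MonoidHom.mem_ker, inn_eq, conjHom_eq_one_iff hm] at ha
  obtain ⟨c, hc⟩ := ha
  rw [Subgroup.mem_bot]
  refine (QuotientGroup.eq_one_iff s).2 (mem_center_of_fixes_lines m s fun v => ⟨(c : F), ?_⟩)
  have := congrArg (fun g : ↥(Cfsg.GSp m F) => ((g : GL (I m) F) : Matrix (I m) (I m) F) *ᵥ v) hc
  simp only [spIn_coe, scal_mulVec] at this
  exact this

theorem card_range (hm : 1 ≤ m) :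
    Nat.card (conjHom m F).range = Nat.gcd 2 (Fintype.card F - 1) * Nat.card (P m F) := by
  have hc : (Cfsg.Inn (P m F)).comap (conjHom m F) =
      ((powMonoidHom 2 : Fˣ →* Fˣ).range).comap (mult hm) := Subgroup.ext fun g => mem_inn_iff hm g
  have h1 := ((Cfsg.Inn (P m F)).subgroupOf (conjHom m F).range).card_mul_index
  rw [Nat.card_congr (Subgroup.subgroupOfEquivOfLe inn_le).toEquiv, card_inn hm,
    show ((Cfsg.Inn (P m F)).subgroupOf (conjHom m F).range).index =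
      (Cfsg.Inn (P m F)).relIndex (conjHom m F).range from rfl,
    ← Subgroup.index_comap, hc, Subgroup.index_comap_of_surjective _ (mult_surjective hm),
    IsCyclic.index_powMonoidHom_range, Nat.card_units, Nat.card_eq_fintype_card (α := F)] at h1
  rw [← h1, Nat.gcd_comm, mul_comm]

/-- The standard automorphisms. -/
noncomputable def stdMap (m : ℕ) (F : Type u) [Field F] :
    (conjHom m F).range × (F ≃+* F) → MulAut (P m F) := fun x => (x.1 : MulAut (P m F)) * D (fieldSp x.2)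

theorem stdMap_injective (hm : 1 ≤ m) : Function.Injective (stdMap m F) := by
  rintro ⟨⟨_, g, rfl⟩, σ⟩ ⟨⟨_, h, rfl⟩, τ⟩ he
  simp only [stdMap] at he
  obtain ⟨hστ, -⟩ := std_unique hm (g := h⁻¹ * g) (σ := σ * τ⁻¹) (by
    rw [map_mul, map_inv, map_mul, map_mul, map_inv, map_inv]
    calc (conjHom m F h)⁻¹ * conjHom m F g * (D (fieldSp σ) * (D (fieldSp τ))⁻¹)
        = (conjHom m F h)⁻¹ * (conjHom m F g * D (fieldSp σ)) * (D (fieldSp τ))⁻¹ := by group
      _ = 1 := by rw [he]; group)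
  obtain rfl : σ = τ := mul_inv_eq_one.1 hστ
  have := mul_right_cancel he
  simp only [Prod.mk.injEq, Subtype.mk.injEq, and_true]
  exact Subtype.ext this

theorem card_stdMap (hm : 1 ≤ m) {p f : ℕ} [Fact p.Prime] (hf : 1 ≤ f) (hF : Fintype.card F = p ^ f) :
    Nat.card ((conjHom m F).range × (F ≃+* F)) =
      Nat.gcd 2 (p ^ f - 1) * f * Nat.card (P m F) := by
  obtain ⟨e⟩ := AutPSL.ringAut_equiv (F := F) hf hF
  rw [Nat.card_prod, card_range hm, Nat.card_congr e.toEquiv, Nat.card_congr Multiplicative.toAdd,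
    Nat.card_zmod, hF]
  ring

theorem card_aut_std (hm : 1 ≤ m) (h : (2 : F) ≠ 0 ∨ 3 ≤ m) {p f : ℕ} [Fact p.Prime] (hf : 1 ≤ f)
    (hF : Fintype.card F = p ^ f) :
    Nat.card (MulAut (P m F)) = Nat.gcd 2 (p ^ f - 1) * f * Nat.card (P m F) := by
  rw [← card_stdMap hm hf hF]
  refine (Nat.card_congr (Equiv.ofBijective (stdMap m F) ⟨stdMap_injective hm, fun β => ?_⟩)).symm
  obtain ⟨g, σ, rfl⟩ := std_all hm h β
  exact ⟨⟨⟨_, g, rfl⟩, σ⟩, rfl⟩

theorem card_aut_exo (h20 : (2 : F) = 0) (hq : 3 ≤ Fintype.card F) {p k : ℕ} [Fact p.Prime]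
    (hf : 1 ≤ k) (hF : Fintype.card F = p ^ k) :
    Nat.card (MulAut (P 2 F)) = 2 * (Nat.gcd 2 (p ^ k - 1) * k * Nat.card (P 2 F)) := by
  haveI : Finite (MulAut (P 2 F)) := Finite.of_injective _ DFunLike.coe_injective
  haveI : Finite (F ≃+* F) := Finite.of_injective _ DFunLike.coe_injective
  obtain ⟨γ, hγe, hγs⟩ := exists_exo h20 hq
  let Φ : ((conjHom 2 F).range × (F ≃+* F)) ⊕ ((conjHom 2 F).range × (F ≃+* F)) → MulAut (P 2 F) :=
    Sum.elim (stdMap 2 F) fun x => γ⁻¹ * stdMap 2 F x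
  have htp : ∀ x, TP (stdMap 2 F x) := by
    rintro ⟨⟨_, g, rfl⟩, σ⟩
    obtain ⟨μ, hμ⟩ := mem_GSp.1 g.2
    intro v c hv hc
    refine ⟨((g : GL (I 2) F) : Matrix (I 2) (I 2) F) *ᵥ fun i => σ (v i), σ c * (μ⁻¹ : Fˣ), ?_, ?_, ?_⟩
    · intro h0
      have h' := congrArg (fun z => (((g : GL (I 2) F)⁻¹ : GL (I 2) F) : Matrix (I 2) (I 2) F) *ᵥ z) h0
      simp only [mulVec_mulVec, ← Units.val_mul, inv_mul_cancel, Units.val_one, one_mulVec,
        mulVec_zero] at h'
      exact hv (funext fun i => σ.injective (by rw [congrFun h' i]; simp))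
    · exact mul_ne_zero (fun h0 => hc (σ.injective (by rw [h0, map_zero]))) (Units.ne_zero _)
    · simp only [stdMap, MulAut.mul_apply]
      rw [field_tr, conjHom_tr g hμ]
  have hne : ∀ x y, stdMap 2 F x ≠ γ⁻¹ * stdMap 2 F y := by
    intro x y he
    have hγtp : TP γ := by
      have : γ = stdMap 2 F y * (stdMap 2 F x)⁻¹ := by rw [he]; group
      rw [this]; exact (htp y).mul (htp x).inv
    obtain ⟨w, d, hw, hd, h⟩ := hγtp (e (0 : Fin 2)) 1 (e_ne_zero _) one_ne_zero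
    rw [hγe, tr] at h
    have h' := pr_injective (by norm_num) h20 h
    have h0 := congrArg (fun t : S 2 F => ((t : Matrix (I 2) (I 2) F) *ᵥ f 0)) h'
    have h1 := congrArg (fun t : S 2 F => ((t : Matrix (I 2) (I 2) F) *ᵥ f 1)) h'
    simp only [ab_mulVec, spT_mulVec, B_swap w (f _)] at h0 h1
    have h2 := congrFun h0 (Sum.inl 0)
    have h3 := congrFun h0 (Sum.inl 1)
    have h4 := congrFun h1 (Sum.inl 0)
    simp [B_f, e, f] at h2 h3 h4
    rcases h2 with (h2 | h2) | h2 <;> simp [h2] at h3 h4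
  have hbij : Function.Bijective Φ := by
    refine ⟨?_, fun β => ?_⟩
    · rintro (x | x) (y | y) he
      · exact congrArg _ (stdMap_injective (by norm_num) he)
      · exact absurd he (hne x y)
      · exact absurd he.symm (hne y x)
      · exact congrArg _ (stdMap_injective (by norm_num) (mul_left_cancel he))
    · obtain ⟨g, σ, h | h⟩ := std_or_exo h20 hγs β
      · exact ⟨Sum.inl ⟨⟨_, g, rfl⟩, σ⟩, h.symm⟩
      · exact ⟨Sum.inr ⟨⟨_, g, rfl⟩, σ⟩, h.symm⟩
  rw [← Nat.card_congr (Equiv.ofBijective Φ hbij), Nat.card_sum, card_stdMap (by norm_num) hf hF]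
  ring

end Cfsg.Agent.Lib.AutPSp
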