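import Cfsg.Agent.Lib.AutPSp.Classes

/-!
`PSp_4(q)`, `q` even: the exceptional graph automorphism, and the classification of automorphisms.
-/

set_option autoImplicit false

namespace Cfsg.Agent.Lib.AutPSp

open Matrix Cfsg.Agent.Lib.Forms Cfsg.Agent.Lib.Classical

universe u

variable {F : Type u} [Field F]

/-- The pairs indexing the new basis. -/
def pr1 : I 2 → I 2
  | Sum.inl 0 => Sum.inl 0
  | Sum.inr 0 => Sum.inr 0
  | Sum.inl 1 => Sum.inl 0
  | Sum.inr 1 => Sum.inl 1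

/-- The pairs indexing the new basis. -/
def pr2 : I 2 → I 2
  | Sum.inl 0 => Sum.inl 1
  | Sum.inr 0 => Sum.inr 1
  | Sum.inl 1 => Sum.inr 1
  | Sum.inr 1 => Sum.inr 0

theorem p11 : pr1 (Sum.inl 0) = Sum.inl 0 := rfl
theorem p12 : pr1 (Sum.inr 0) = Sum.inr 0 := rfl
theorem p13 : pr1 (Sum.inl 1) = Sum.inl 0 := rfl
theorem p14 : pr1 (Sum.inr 1) = Sum.inl 1 := rfl
theorem p21 : pr2 (Sum.inl 0) = Sum.inl 1 := rfl
theorem p22 : pr2 (Sum.inr 0) = Sum.inr 1 := rfl
theorem p23 : pr2 (Sum.inl 1) = Sum.inr 1 := rfl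
theorem p24 : pr2 (Sum.inr 1) = Sum.inr 0 := rfl

/-- The matrix of two by two minors. -/
def minors (g : Matrix (I 2) (I 2) F) : Matrix (I 2) (I 2) F := Matrix.of fun a c =>
  g (pr1 a) (pr1 c) * g (pr2 a) (pr2 c) - g (pr1 a) (pr2 c) * g (pr2 a) (pr1 c)

theorem minors_one : minors (1 : Matrix (I 2) (I 2) F) = 1 := by
  ext a c
  rcases a with a | a <;> rcases c with c | c <;> fin_cases a <;> fin_cases c <;>
    simp [minors, pr1, pr2, Matrix.one_apply]

theorem minors_mul (h20 : (2 : F) = 0) (g h : S 2 F) :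
    minors ((g : Matrix (I 2) (I 2) F) * (h : Matrix (I 2) (I 2) F)) =
      minors (g : Matrix (I 2) (I 2) F) * minors (h : Matrix (I 2) (I 2) F) := by
  set A := (g : Matrix (I 2) (I 2) F) with hA
  set C := (h : Matrix (I 2) (I 2) F) with hC
  have hrow : ∀ r r', A r (Sum.inl 0) * A r' (Sum.inr 0) - A r (Sum.inr 0) * A r' (Sum.inl 0) +
      (A r (Sum.inl 1) * A r' (Sum.inr 1) - A r (Sum.inr 1) * A r' (Sum.inl 1)) =
      -(Matrix.J (Fin 2) F r r') := fun r r' => by
    have := congrFun (congrFun (SymplecticGroup.mem_iff.1 g.2) r) r'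
    rw [← this]
    simp [Matrix.mul_apply, Matrix.J, Fin.sum_univ_two, Matrix.one_apply, ← hA]
    ring
  have hcol : ∀ c c', C (Sum.inl 0) c * C (Sum.inr 0) c' - C (Sum.inl 0) c' * C (Sum.inr 0) c +
      (C (Sum.inl 1) c * C (Sum.inr 1) c' - C (Sum.inl 1) c' * C (Sum.inr 1) c) =
      -(Matrix.J (Fin 2) F c c') := fun c c' => by
    have := congrFun (congrFun (SymplecticGroup.mem_iff'.1 h.2) c) c'
    rw [← this]
    simp [Matrix.mul_apply, Matrix.J, Fin.sum_univ_two, Matrix.one_apply, ← hC]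
    ring
  have hJ : ∀ a : I 2, Matrix.J (Fin 2) F (pr1 a) (pr2 a) = 0 := by
    intro a
    rcases a with a | a <;> fin_cases a <;> simp [pr1, pr2, Matrix.J, Matrix.one_apply]
  ext a c
  have h1 := hrow (pr1 a) (pr2 a)
  have h2 := hcol (pr1 c) (pr2 c)
  rw [hJ, neg_zero] at h1 h2
  simp only [minors, Matrix.of_apply, Matrix.mul_apply, Fintype.sum_sum_type, Fin.sum_univ_two, p11, p12, p13, p14, p21, p22, p23, p24]
  linear_combination
    (C (Sum.inl 0) (pr1 c) * C (Sum.inr 0) (pr2 c) - C (Sum.inl 0) (pr2 c) * C (Sum.inr 0) (pr1 c)) * h1 +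
    (A (pr1 a) (Sum.inl 1) * A (pr2 a) (Sum.inr 1) - A (pr1 a) (Sum.inr 1) * A (pr2 a) (Sum.inl 1)) * h2 -
    ((A (pr1 a) (Sum.inl 1) * A (pr2 a) (Sum.inr 1) - A (pr1 a) (Sum.inr 1) * A (pr2 a) (Sum.inl 1)) *
      (C (Sum.inl 0) (pr1 c) * C (Sum.inr 0) (pr2 c) - C (Sum.inl 0) (pr2 c) * C (Sum.inr 0) (pr1 c))) * h20

theorem char2_neg (h20 : (2 : F) = 0) (x : F) : -x = x := by linear_combination (-x) * h20

theorem minors_e0 (h20 : (2 : F) = 0) (c : F) :
    minors ((spT 2 (e 0) c : S 2 F) : Matrix (I 2) (I 2) F) = ((ab 0 1 0 0 c : S 2 F) : Matrix (I 2) (I 2) F) := by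
  ext a b
  have hl : ∀ x y, ((spT 2 (e 0) c : S 2 F) : Matrix (I 2) (I 2) F) x y =
      (Pi.single y (1 : F) : I 2 → F) x + (c * B 2 F (Pi.single y 1) (e 0)) * (e 0 : I 2 → F) x := fun x y => by
    simpa using congrFun (spT_mulVec 2 (e 0) c (Pi.single y 1)) x
  have hr := congrFun (ab_mulVec (i := (0 : Fin 2)) (j := 1) 0 0 c (Pi.single b (1 : F))) a
  simp only [Matrix.mulVec_single_one, Matrix.col_apply] at hr
  simp only [minors, Matrix.of_apply, hl, hr, B_e]
  rcases a with a | a <;> rcases b with b | b <;> fin_cases a <;> fin_cases b <;>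
    simp [pr1, pr2, e, char2_neg h20]

theorem minors_e1 (h20 : (2 : F) = 0) (c : F) :
    minors ((spT 2 (e 1) c : S 2 F) : Matrix (I 2) (I 2) F) =
      ((spS 2 (e 0) (f 1) c : S 2 F) : Matrix (I 2) (I 2) F) := by
  ext a b
  have hl : ∀ x y, ((spT 2 (e 1) c : S 2 F) : Matrix (I 2) (I 2) F) x y =
      (Pi.single y (1 : F) : I 2 → F) x + (c * B 2 F (Pi.single y 1) (e 1)) * (e 1 : I 2 → F) x := fun x y => by
    simpa using congrFun (spT_mulVec 2 (e 1) c (Pi.single y 1)) x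
  have hr := congrFun (spS_mulVec 2 (a := (e 0 : I 2 → F)) (b := f 1) (by simp [B_ef]) c
    (Pi.single b (1 : F))) a
  simp only [Matrix.mulVec_single_one, Matrix.col_apply, Pi.add_apply, Pi.smul_apply, smul_eq_mul] at hr
  simp only [minors, Matrix.of_apply, hl, hr, B_e, B_f]
  rcases a with a | a <;> rcases b with b | b <;> fin_cases a <;> fin_cases b <;>
    simp [pr1, pr2, e, f, char2_neg h20]

theorem minors_f0 (h20 : (2 : F) = 0) (c : F) :
    minors ((spT 2 (f 0) c : S 2 F) : Matrix (I 2) (I 2) F) =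
      ((spS 2 (f 0) (f 1) c : S 2 F) : Matrix (I 2) (I 2) F) := by
  ext a b
  have hl : ∀ x y, ((spT 2 (f 0) c : S 2 F) : Matrix (I 2) (I 2) F) x y =
      (Pi.single y (1 : F) : I 2 → F) x + (c * B 2 F (Pi.single y 1) (f 0)) * (f 0 : I 2 → F) x := fun x y => by
    simpa using congrFun (spT_mulVec 2 (f 0) c (Pi.single y 1)) x
  have hr := congrFun (spS_mulVec 2 (a := (f 0 : I 2 → F)) (b := f 1) (by simp [B_ff]) c
    (Pi.single b (1 : F))) a
  simp only [Matrix.mulVec_single_one, Matrix.col_apply, Pi.add_apply, Pi.smul_apply, smul_eq_mul] at hr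
  simp only [minors, Matrix.of_apply, hl, hr, B_f]
  rcases a with a | a <;> rcases b with b | b <;> fin_cases a <;> fin_cases b <;>
    simp [pr1, pr2, f, char2_neg h20]

theorem minors_f1 (h20 : (2 : F) = 0) (c : F) :
    minors ((spT 2 (f 1) c : S 2 F) : Matrix (I 2) (I 2) F) =
      ((spS 2 (f 0) (e 1) c : S 2 F) : Matrix (I 2) (I 2) F) := by
  ext a b
  have hl : ∀ x y, ((spT 2 (f 1) c : S 2 F) : Matrix (I 2) (I 2) F) x y =
      (Pi.single y (1 : F) : I 2 → F) x + (c * B 2 F (Pi.single y 1) (f 1)) * (f 1 : I 2 → F) x := fun x y => by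
    simpa using congrFun (spT_mulVec 2 (f 1) c (Pi.single y 1)) x
  have hr := congrFun (spS_mulVec 2 (a := (f 0 : I 2 → F)) (b := e 1) (by simp [B_fe]) c
    (Pi.single b (1 : F))) a
  simp only [Matrix.mulVec_single_one, Matrix.col_apply, Pi.add_apply, Pi.smul_apply, smul_eq_mul] at hr
  simp only [minors, Matrix.of_apply, hl, hr, B_e, B_f]
  rcases a with a | a <;> rcases b with b | b <;> fin_cases a <;> fin_cases b <;>
    simp [pr1, pr2, e, f, char2_neg h20]

theorem minors_short (h20 : (2 : F) = 0) (k : F) :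
    minors ((ab 0 1 0 0 k : S 2 F) : Matrix (I 2) (I 2) F) =
      ((spT 2 (e 0) (k * k) : S 2 F) : Matrix (I 2) (I 2) F) := by
  ext a b
  have hl : ∀ x y, ((ab 0 1 0 0 k : S 2 F) : Matrix (I 2) (I 2) F) x y =
      (Pi.single y (1 : F) : I 2 → F) x + (k * (Pi.single y (1 : F) : I 2 → F) (Sum.inr 1)) * (e 0 : I 2 → F) x
        + (k * (Pi.single y (1 : F) : I 2 → F) (Sum.inr 0)) * (e 1 : I 2 → F) x := fun x y => by
    simpa using congrFun (ab_mulVec (i := (0 : Fin 2)) (j := 1) 0 0 k (Pi.single y 1)) x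
  have hr := congrFun (spT_mulVec 2 (e 0) (k * k) (Pi.single b (1 : F))) a
  simp only [Matrix.mulVec_single_one, Matrix.col_apply, Pi.add_apply, Pi.smul_apply, smul_eq_mul] at hr
  simp only [minors, Matrix.of_apply, hl, hr, B_e]
  rcases a with a | a <;> rcases b with b | b <;> fin_cases a <;> fin_cases b <;>
    simp [pr1, pr2, e, char2_neg h20]

variable [Fintype F]

theorem minors_mem (h20 : (2 : F) = 0) (g : S 2 F) :
    minors (g : Matrix (I 2) (I 2) F) ∈ Matrix.symplecticGroup (Fin 2) F := by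
  haveI : Finite (S 2 F) := Subtype.finite
  let M : Submonoid (S 2 F) :=
    { carrier := {g | minors (g : Matrix (I 2) (I 2) F) ∈ Matrix.symplecticGroup (Fin 2) F}
      one_mem' := by
        show minors ((1 : S 2 F) : Matrix (I 2) (I 2) F) ∈ Matrix.symplecticGroup (Fin 2) F
        rw [OneMemClass.coe_one, minors_one]; exact one_mem _
      mul_mem' := fun {a b} ha hb => by
        show minors ((a * b : S 2 F) : Matrix (I 2) (I 2) F) ∈ Matrix.symplecticGroup (Fin 2) F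
        rw [Submonoid.coe_mul, minors_mul h20]; exact mul_mem ha hb }
  let H : Subgroup (S 2 F) :=
    { M with
      inv_mem' := fun {a} ha => by
        have h : a⁻¹ = a ^ (orderOf a - 1) := by
          rw [inv_eq_iff_mul_eq_one, ← pow_succ', Nat.sub_add_cancel (orderOf_pos a), pow_orderOf_eq_one]
        rw [h]; exact M.pow_mem ha _ }
  have hH : H = ⊤ := eq_top_of_gens 0 H
    (fun i c => by
      show minors _ ∈ Matrix.symplecticGroup (Fin 2) F
      fin_cases i
      · exact (minors_e0 h20 c).symm ▸ (ab 0 1 0 0 c : S 2 F).2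
      · exact (minors_e1 h20 c).symm ▸ (spS 2 (e 0) (f 1) c : S 2 F).2)
    (fun i c => by
      show minors _ ∈ Matrix.symplecticGroup (Fin 2) F
      fin_cases i
      · exact (minors_f0 h20 c).symm ▸ (spS 2 (f 0) (f 1) c : S 2 F).2
      · exact (minors_f1 h20 c).symm ▸ (spS 2 (f 0) (e 1) c : S 2 F).2)
    (fun j hj k => by
      show minors _ ∈ Matrix.symplecticGroup (Fin 2) F
      fin_cases j
      · exact absurd rfl hj
      · exact (minors_short h20 k).symm ▸ (spT 2 (e 0) (k * k) : S 2 F).2)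
  exact (hH ▸ Subgroup.mem_top g : g ∈ H)

/-- The exceptional endomorphism. -/
noncomputable def exo (h20 : (2 : F) = 0) : S 2 F →* S 2 F where
  toFun g := ⟨minors (g : Matrix (I 2) (I 2) F), minors_mem h20 g⟩
  map_one' := Subtype.ext (by simp [minors_one])
  map_mul' g h := Subtype.ext (by simp [minors_mul h20])

theorem exo_e0 (h20 : (2 : F) = 0) (c : F) : exo h20 (spT 2 (e 0) c) = ab 0 1 0 0 c :=
  Subtype.ext (minors_e0 h20 c)

theorem exo_short (h20 : (2 : F) = 0) (k : F) : exo h20 (ab 0 1 0 0 k) = spT 2 (e 0) (k * k) :=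
  Subtype.ext (minors_short h20 k)

omit [Fintype F] in
theorem center_eq_bot (h20 : (2 : F) = 0) : Subgroup.center (S 2 F) = ⊥ := by
  refine eq_bot_iff.2 fun z hz => Subgroup.mem_bot.2 ?_
  refine pr_injective (by norm_num) h20 ?_
  rw [map_one]
  exact (QuotientGroup.eq_one_iff z).2 hz

/-- The exceptional automorphism of `PSp_4`. -/
theorem exists_exo (h20 : (2 : F) = 0) (hq : 3 ≤ Fintype.card F) :
    ∃ γ : MulAut (P 2 F), (∀ c, γ (tr (e 0) c) = pr (ab 0 1 0 0 c)) ∧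
      ∀ k, γ (pr (ab 0 1 0 0 k)) = tr (e 0) (k * k) := by
  classical
  haveI : IsSimpleGroup (P 2 F) := isSimpleGroup_PSp 2 le_rfl fun _ => hq
  let equ : S 2 F ≃* P 2 F :=
    MulEquiv.ofBijective (pr (m := 2) (F := F)) ⟨pr_injective (by norm_num) h20, pr_surjective⟩
  let φ : P 2 F →* P 2 F := (equ.toMonoidHom.comp (exo h20)).comp equ.symm.toMonoidHom
  have hφ : ∀ s, φ (pr s) = pr (exo h20 s) := fun s => by
    show equ (exo h20 (equ.symm (equ s))) = _
    rw [MulEquiv.symm_apply_apply]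
    rfl
  have hinj : Function.Injective φ := by
    rw [← MonoidHom.ker_eq_bot_iff]
    rcases (inferInstance : φ.ker.Normal).eq_bot_or_eq_top with h | h
    · exact h
    · exfalso
      have h1 : φ (tr (e 0) 1) = 1 := MonoidHom.mem_ker.1 (h ▸ Subgroup.mem_top _)
      rw [tr, hφ, exo_e0] at h1
      have h2 : (ab 0 1 0 0 (1 : F) : S 2 F) = 1 :=
        pr_injective (by norm_num) h20 (h1.trans (map_one _).symm)
      have h3 := congrArg (fun t : S 2 F => ((t : Matrix (I 2) (I 2) F) *ᵥ f 1) (Sum.inl 0)) h2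
      simp only [ab_mulVec, OneMemClass.coe_one, one_mulVec] at h3
      simp [e, f] at h3
  refine ⟨MulEquiv.ofBijective φ (Finite.injective_iff_bijective.1 hinj), fun c => ?_, fun k => ?_⟩
  · show φ _ = _
    rw [tr, hφ, exo_e0]
  · show φ _ = _
    rw [hφ, exo_short]; rfl

omit [Fintype F] in
theorem not_small_mixed (h20 : (2 : F) = 0) {x k : F} (hx : x ≠ 0) (hk : k ≠ 0) :
    ¬ Small (pr (spT 2 (e 0) x * spS 2 (e 0) (e 1) k)) := by
  have hneg := char2_neg h20
  obtain ⟨W, hW⟩ := exists_matrix_of_frame (F := F) (u := ![e 0, f 1]) (v := ![f 0, e 1])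
    (fun a b => by fin_cases a <;> fin_cases b <;> simp [B_ee, B_ef, B_fe, B_ff])
    (fun a b => by fin_cases a <;> fin_cases b <;> simp [B_ee, B_ef, B_fe, B_ff])
    (fun a b => by fin_cases a <;> fin_cases b <;> simp [B_ee, B_ef, B_fe, B_ff, hneg])
  obtain ⟨G, hG⟩ := exists_matrix_of_frame (F := F) (u := ![e 1, f 0]) (v := ![f 1, e 0])
    (fun a b => by fin_cases a <;> fin_cases b <;> simp [B_ee, B_ef, B_fe, B_ff])
    (fun a b => by fin_cases a <;> fin_cases b <;> simp [B_ee, B_ef, B_fe, B_ff])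
    (fun a b => by fin_cases a <;> fin_cases b <;> simp [B_ee, B_ef, B_fe, B_ff, hneg])
  have hW0 : (W : Matrix (I 2) (I 2) F) *ᵥ e 0 = e 0 := by simpa using (hW 0).1
  have hW1 : (W : Matrix (I 2) (I 2) F) *ᵥ e 1 = f 1 := by simpa using (hW 1).1
  have hG0 : (G : Matrix (I 2) (I 2) F) *ᵥ e 0 = e 1 := by simpa using (hG 0).1
  have hG1 : (G : Matrix (I 2) (I 2) F) *ᵥ f 1 = e 0 := by simpa using (hG 1).2
  have hS : ∀ (g : S 2 F) (a b : I 2 → F) (c : F), g * spS 2 a b c * g⁻¹ =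
      spS 2 ((g : Matrix (I 2) (I 2) F) *ᵥ a) ((g : Matrix (I 2) (I 2) F) *ᵥ b) c := fun g a b c => by
    simp only [spS, ← mulVec_add, ← spT_conj]; group
  set z1 := spT 2 (e 0) x * spS 2 (e 0) (f 1) k with hz1
  set z2 := spT 2 (e 1) x * spS 2 (e 1) (e 0) k with hz2
  have hc1 : W * (spT 2 (e 0) x * spS 2 (e 0) (e 1) k) * W⁻¹ = z1 := by
    rw [show W * (spT 2 (e 0) x * spS 2 (e 0) (e 1) k) * W⁻¹ =
      (W * spT 2 (e 0) x * W⁻¹) * (W * spS 2 (e 0) (e 1) k * W⁻¹) by group, hS, spT_conj, hW0, hW1]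
  have hc2 : G * z1 * G⁻¹ = z2 := by
    rw [hz1, show G * (spT 2 (e 0) x * spS 2 (e 0) (f 1) k) * G⁻¹ =
      (G * spT 2 (e 0) x * G⁻¹) * (G * spS 2 (e 0) (f 1) k * G⁻¹) by group, hS, spT_conj, hG0, hG1]
  intro hsmall
  have h1 : Small (pr z1) := by
    have := hsmall.map (MulAut.conj (pr W))
    simpa only [MulAut.conj_apply, ← map_inv, ← map_mul, hc1] using this
  have hef : B 2 F (e 0) (f 1) = 0 := by simp [B_ef]
  have hee : B 2 F (e 1) (e 0) = 0 := B_ee 1 0
  have h40 : (4 : F) = 0 := by linear_combination 2 * h20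
  have h30 : (3 : F) = 1 := by linear_combination h20
  have hy : (z1 * z2) ^ 2 = spT 2 (e 0) (k * k * x) * spS 2 (e 1) (e 0) (k * x) := by
    apply sp_ext
    intro w
    rw [pow_two]
    simp only [hz1, hz2, Submonoid.coe_mul, ← mulVec_mulVec, spS_mulVec 2 hef, spS_mulVec 2 hee,
      spT_mulVec, B_e, B_f, hneg, Pi.add_apply, Pi.smul_apply, smul_eq_mul]
    funext a
    rcases a with a | a <;> fin_cases a <;> simp [e, f, hneg] <;> ring_nf <;>
      simp [h20, h40, h30]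
  have hy2 : (z1 * z2) ^ 4 = 1 := by
    rw [show (4 : ℕ) = 2 * 2 from rfl, pow_mul, hy]
    apply sp_ext
    intro w
    rw [pow_two]
    simp only [Submonoid.coe_mul, OneMemClass.coe_one, one_mulVec, ← mulVec_mulVec, spS_mulVec 2 hee,
      spT_mulVec, B_e, Pi.add_apply, Pi.smul_apply, smul_eq_mul]
    funext a
    rcases a with a | a <;> fin_cases a <;> simp [e, f] <;> ring_nf <;> simp [h20]
  have h2 := h1 (pr G) (by
    rw [← map_inv, ← map_mul, ← map_mul, hc2, ← map_mul, ← map_pow, hy2, map_one])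
  rw [← map_inv, ← map_mul, ← map_mul, hc2, ← map_mul, ← map_pow, hy] at h2
  have h3 := congrArg (fun t : S 2 F => ((t : Matrix (I 2) (I 2) F) *ᵥ f 0) (Sum.inl 1))
    (pr_injective (by norm_num) h20 (h2.trans (map_one _).symm))
  simp only [Submonoid.coe_mul, ← mulVec_mulVec, spS_mulVec 2 hee, spT_mulVec, B_e, OneMemClass.coe_one,
    one_mulVec] at h3
  simp [e, f, hk, hx] at h3

/-- In `PSp_4`, `q` even, transvections go to transvections or to short root elements. -/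
theorem tr_or_short (h20 : (2 : F) = 0) (β : MulAut (P 2 F)) :
    ∃ (s : S 2 F) (d : F), d ≠ 0 ∧
      (β (tr (e 0) 1) = pr s * tr (e 0) d * (pr s)⁻¹ ∨
        β (tr (e 0) 1) = pr s * pr (ab 0 1 0 0 d) * (pr s)⁻¹) := by
  obtain ⟨p, hp⟩ := CharP.exists F
  obtain ⟨n, hpp, -⟩ := FiniteField.card F p
  haveI : Fact p.Prime := ⟨hpp⟩
  obtain ⟨Q, hX, hZ⟩ := exists_sylow_centre (m := 2) (F := F) (p := p) (by norm_num)
  obtain ⟨a, ha⟩ := MulAction.exists_smul_eq (P 2 F) Q (Q.mapSurjective (f := β.toMonoidHom) β.surjective)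
  have hQ' : (Q : Subgroup (P 2 F)).map (MulAut.conj a).toMonoidHom =
      (Q : Subgroup (P 2 F)).map β.toMonoidHom := by
    have := congrArg (fun R : Sylow p (P 2 F) => (R : Subgroup (P 2 F))) ha
    exact this
  have h0 : β (tr (e 0) 1) ∈ ((Q : Subgroup (P 2 F)) ⊓
      Subgroup.centralizer ((Q : Subgroup (P 2 F)) : Set (P 2 F))).map (MulAut.conj a).toMonoidHom := by
    rw [map_inf_centralizer, hQ', ← map_inf_centralizer]
    exact ⟨_, hX 1, rfl⟩
  obtain ⟨z, hz, hza⟩ := h0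
  obtain ⟨a, rfl⟩ := pr_surjective a
  rcases hZ z hz with ⟨d, rfl⟩ | ⟨-, j, x, k, hj, hk, rfl⟩
  · refine ⟨a, d, ?_, Or.inl hza.symm⟩
    rintro rfl
    refine tr_ne_one (by norm_num) (e_ne_zero (0 : Fin 2)) (one_ne_zero (α := F)) (β.injective ?_)
    rw [← hza]
    simp [tr_zero]
  · obtain rfl : j = 1 := Fin.ext hj
    rcases eq_or_ne x 0 with rfl | hx
    · refine ⟨a, k, hk, Or.inr (hza.symm.trans ?_)⟩
      show _ = pr a * pr (ab 0 1 0 0 k) * (pr a)⁻¹
      have : spT 2 (e (0 : Fin 2)) (0 : F) * spS 2 (e 0) (e 1) k = ab 0 1 0 0 k := by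
        simp [ab, spT_zero_right]
      simp only [MulEquiv.coe_toMonoidHom, MulAut.conj_apply]
      rw [← this]
      rfl
    · exfalso
      refine not_small_mixed h20 hx hk ?_
      have h1 := (small_tr (v := (e (0 : Fin 2) : I 2 → F)) (c := (1 : F)) (by norm_num) h20).map β
      rw [← hza] at h1
      have h2 := h1.map (MulAut.conj (pr a)).symm
      simp only [MulAut.conj_symm_apply, MulEquiv.coe_toMonoidHom, MulAut.conj_apply] at h2
      convert h2 using 1
      group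
      rfl

/-- Transvection preservation from one transvection. -/
theorem tp_of_one (h20 : (2 : F) = 0) {β : MulAut (P 2 F)}
    (h : ∃ (s : S 2 F) (d : F), d ≠ 0 ∧ β (tr (e 0) 1) = pr s * tr (e 0) d * (pr s)⁻¹) : TP β := by
  intro v c hv hc
  haveI : Fact (Nat.Prime 2) := ⟨Nat.prime_two⟩
  obtain ⟨r, hr⟩ := FiniteField.isSquare_of_char_two
    (CharP.ringChar_of_prime_eq_zero Nat.prime_two (by exact_mod_cast h20)) c
  have hr0 : r ≠ 0 := fun h0 => hc (by rw [hr, h0, mul_zero])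
  have hvc : tr v c = tr (r • v) 1 := by rw [tr_smul, one_mul, ← hr]
  obtain ⟨g, hg⟩ := sp_transitive 2 (e_ne_zero (F := F) (0 : Fin 2)) (smul_ne_zero hr0 hv)
  obtain ⟨s, d, hd, hs⟩ := h
  obtain ⟨b, hb⟩ := pr_surjective (β (pr g))
  refine ⟨((b * s : S 2 F) : Matrix (I 2) (I 2) F) *ᵥ e 0, d, fun h0 => ?_, hd, ?_⟩
  · have h' := congrArg (fun z => (((b * s)⁻¹ : S 2 F) : Matrix (I 2) (I 2) F) *ᵥ z) h0
    simp only [mulVec_mulVec, ← Submonoid.coe_mul, inv_mul_cancel, mulVec_zero] at h'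
    exact e_ne_zero _ (by simpa using h')
  · rw [hvc, ← hg, ← tr_conj, map_mul, map_mul, map_inv, ← hb, hs, ← tr_conj, map_mul]
    group

/-- Every automorphism of `PSp_4(2^a)` is standard or the exceptional one times a standard one. -/
theorem std_or_exo (h20 : (2 : F) = 0) {γ : MulAut (P 2 F)}
    (hγ : ∀ k, γ (pr (ab 0 1 0 0 k)) = tr (e 0) (k * k)) (β : MulAut (P 2 F)) :
    ∃ (g : ↥(Cfsg.GSp 2 F)) (σ : F ≃+* F),
      β = conjHom 2 F g * D (fieldSp σ) ∨ β = γ⁻¹ * (conjHom 2 F g * D (fieldSp σ)) := by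
  obtain ⟨s, d, hd, h | h⟩ := tr_or_short h20 β
  · obtain ⟨g, σ, hg⟩ := std_all_tp (by norm_num) (tp_of_one h20 ⟨s, d, hd, h⟩)
    exact ⟨g, σ, Or.inl hg⟩
  · obtain ⟨b, hb⟩ := pr_surjective (γ (pr s))
    obtain ⟨g, σ, hg⟩ := std_all_tp (by norm_num) (tp_of_one h20 (β := γ * β)
      ⟨b, d * d, mul_ne_zero hd hd, by
        rw [MulAut.mul_apply, h, map_mul, map_mul, map_inv, hγ, hb]⟩)
    exact ⟨g, σ, Or.inr (by rw [← hg, inv_mul_cancel_left])⟩

end Cfsg.Agent.Lib.AutPSp
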