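import Cfsg.Agent.Lib.AutPSp.Sylow

/-!
In odd characteristic every automorphism of `PSp_{2m}(F)` is a similarity followed by a field
automorphism.
-/

set_option autoImplicit false

namespace Cfsg.Agent.Lib.AutPSp

open Matrix Cfsg.Agent.Lib.Forms Cfsg.Agent.Lib.Classical

universe u

variable {m : ℕ} {F : Type u} [Field F]

@[simp] theorem e_inr (i j : Fin m) : (e i : I m → F) (Sum.inr j) = 0 := by simp [e]

@[simp] theorem f_inl (i j : Fin m) : (f i : I m → F) (Sum.inl j) = 0 := by simp [f]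

@[simp] theorem e_inl_self (i : Fin m) : (e i : I m → F) (Sum.inl i) = 1 := by simp [e]

@[simp] theorem f_inr_self (i : Fin m) : (f i : I m → F) (Sum.inr i) = 1 := by simp [f]

/-- Hua's lemma for a pair of additive maps. -/
theorem hua [Finite F] {A C : F → F} (hA : ∀ x y, A (x + y) = A x + A y)
    (hC : ∀ x y, C (x + y) = C x + C y)
    (h : ∀ t, t ≠ 0 → A t ≠ 0 ∧ C t⁻¹ = (A t)⁻¹) :
    ∃ σ : F ≃+* F, ∀ t, A t = A 1 * σ t ∧ C t = (A 1)⁻¹ * σ t := by
  classical
  set a := A 1 with ha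
  have ha0 : a ≠ 0 := (h 1 one_ne_zero).1
  let φ : F → F := fun t => a⁻¹ * A t
  let ψ : F → F := fun t => a * C t
  have φadd : ∀ x y, φ (x + y) = φ x + φ y := fun x y => by simp only [φ]; rw [hA]; ring
  have ψadd : ∀ x y, ψ (x + y) = ψ x + ψ y := fun x y => by simp only [ψ]; rw [hC]; ring
  have φ0 : φ 0 = 0 := by have := φadd 0 0; rw [add_zero] at this; exact left_eq_add.1 this
  have ψ0 : ψ 0 = 0 := by have := ψadd 0 0; rw [add_zero] at this; exact left_eq_add.1 this
  have φneg : ∀ x, φ (-x) = -φ x := fun x => by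
    have := φadd x (-x); rw [add_neg_cancel, φ0] at this; exact eq_neg_of_add_eq_zero_right this.symm
  have φ1 : φ 1 = 1 := by simp only [φ]; rw [← ha, inv_mul_cancel₀ ha0]
  have φne : ∀ t, t ≠ 0 → φ t ≠ 0 := fun t ht => mul_ne_zero (inv_ne_zero ha0) (h t ht).1
  have hψ : ∀ t, ψ t = (φ t⁻¹)⁻¹ := by
    intro t
    rcases eq_or_ne t 0 with rfl | ht
    · rw [_root_.inv_zero, φ0, _root_.inv_zero, ψ0]
    · have := (h t⁻¹ (inv_ne_zero ht)).2
      rw [inv_inv] at this
      simp only [ψ, φ, this, _root_.mul_inv_rev, inv_inv]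
      ring
  -- the key identity
  have key : ∀ t s, t ≠ 0 → s ≠ 0 → φ (t * t / s) = φ t * φ t / φ s := by
    intro t s ht hs
    by_cases hts : t + s = 0
    · have hst : s = -t := by linear_combination hts
      subst hst
      rw [show t * t / -t = -t by field_simp, φneg]
      have := φne t ht
      field_simp
    have h1 : φ t ≠ 0 := φne t ht
    have h2 : φ s ≠ 0 := φne s hs
    have h3 : φ t + φ s ≠ 0 := by rw [← φadd]; exact φne _ hts
    have h4 : ψ t⁻¹ = ψ (s / (t * (t + s))) + ψ (t + s)⁻¹ := by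
      rw [← ψadd]; congr 1; field_simp; ring
    rw [hψ, hψ, hψ, inv_inv, inv_inv, inv_div, φadd] at h4
    have h5 : φ (t * (t + s) / s) ≠ 0 := φne _ (div_ne_zero (mul_ne_zero ht hts) hs)
    have h6 : φ (t * (t + s) / s) = φ (t * t / s) + φ t := by
      rw [← φadd]; congr 1; field_simp
    rw [h6] at h4 h5
    clear h6
    generalize φ (t * t / s) = P at h4 h5 ⊢
    generalize φ t = T at h1 h3 h4 h5 ⊢
    generalize φ s = R at h2 h3 h4 ⊢
    field_simp at h4 ⊢
    linear_combination h4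
  have hinv : ∀ s, s ≠ 0 → φ s⁻¹ = (φ s)⁻¹ := fun s hs => by
    have := key 1 s one_ne_zero hs
    rw [φ1, one_mul, one_div, one_div] at this
    exact this
  have hsq : ∀ t u, φ (t * t * u) = φ t * φ t * φ u := by
    intro t u
    rcases eq_or_ne t 0 with rfl | ht
    · simp [φ0]
    rcases eq_or_ne u 0 with rfl | hu
    · simp [φ0]
    have := key t u⁻¹ ht (inv_ne_zero hu)
    rw [hinv u hu, div_inv_eq_mul, div_inv_eq_mul] at this
    exact this
  have hmul : ∀ x y, φ (x * y) = φ x * φ y := by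
    intro x y
    by_cases h2 : (2 : F) = 0
    · haveI : Fintype F := Fintype.ofFinite F
      have hr : ringChar F = 2 := by
        haveI : Fact (Nat.Prime 2) := ⟨Nat.prime_two⟩
        exact (CharP.ringChar_of_prime_eq_zero Nat.prime_two (by exact_mod_cast h2))
      obtain ⟨r, rfl⟩ := FiniteField.isSquare_of_char_two hr x
      rw [hsq]
      congr 1
      have := hsq r 1
      rw [mul_one, φ1, mul_one] at this
      exact this.symm
    · have h' := hsq (x + 1) y
      rw [φadd, φ1, show (x + 1) * (x + 1) * y = x * x * y + (x * y + x * y) + y by ring, φadd, φadd,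
        φadd, hsq] at h'
      have : 2 * (φ (x * y) - φ x * φ y) = 0 := by linear_combination h'
      exact sub_eq_zero.1 ((mul_eq_zero.1 this).resolve_left h2)
  let σ₀ : F →+* F := { toFun := φ, map_one' := φ1, map_mul' := hmul, map_zero' := φ0, map_add' := φadd }
  let σ : F ≃+* F := RingEquiv.ofBijective σ₀ (Finite.injective_iff_bijective.1 σ₀.injective)
  have hψφ : ∀ t, ψ t = φ t := fun t => by
    rw [hψ]
    rcases eq_or_ne t 0 with rfl | ht
    · rw [_root_.inv_zero, φ0, _root_.inv_zero]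
    · rw [hinv t ht, inv_inv]
  refine ⟨σ, fun t => ⟨?_, ?_⟩⟩
  · show A t = a * (a⁻¹ * A t)
    rw [mul_inv_cancel_left₀ ha0]
  · show C t = a⁻¹ * φ t
    rw [← hψφ]
    show C t = a⁻¹ * (a * C t)
    rw [inv_mul_cancel_left₀ ha0]

/-! ### The three-parameter group of a pair `e i, e j` -/

/-- `T_{e i}(x) T_{e j}(y) S(z)`. -/
noncomputable def ab (i j : Fin m) (x y z : F) : S m F :=
  spT m (e i) x * spT m (e j) y * spS m (e i) (e j) z

theorem ab_mulVec {i j : Fin m} (x y z : F) (w : I m → F) :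
    (ab i j x y z : Matrix (I m) (I m) F) *ᵥ w =
      w + (x * w (Sum.inr i) + z * w (Sum.inr j)) • e i + (y * w (Sum.inr j) + z * w (Sum.inr i)) • e j := by
  have h : B m F (e i) (e j) = 0 := B_ee i j
  simp only [ab, Submonoid.coe_mul, ← mulVec_mulVec]
  rw [spS_mulVec m h, spT_mulVec, spT_mulVec]
  simp only [map_add, map_smul, LinearMap.add_apply, LinearMap.smul_apply, B_ee, smul_zero,
    add_zero, B_e, e_inr, mul_zero, zero_smul]
  module

theorem ab_nilpotent {i j : Fin m} (x y z : F) :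
    IsNilpotent ((ab i j x y z : Matrix (I m) (I m) F) - 1) := by
  refine ⟨2, Matrix.ext_of_mulVec_single fun a => ?_⟩
  have h : ∀ w, ((ab i j x y z : Matrix (I m) (I m) F) - 1) *ᵥ w =
      (x * w (Sum.inr i) + z * w (Sum.inr j)) • e i + (y * w (Sum.inr j) + z * w (Sum.inr i)) • e j :=
    fun w => by rw [sub_mulVec, ab_mulVec, one_mulVec, add_assoc, add_sub_cancel_left]
  rw [pow_two, ← mulVec_mulVec, h, h, zero_mulVec]
  simp

theorem ab_mul {i j : Fin m} (x y z x' y' z' : F) :
    ab i j x y z * ab i j x' y' z' = ab i j (x + x') (y + y') (z + z') := by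
  apply sp_ext
  intro w
  rw [Submonoid.coe_mul, ← mulVec_mulVec, ab_mulVec, ab_mulVec, ab_mulVec]
  simp [e]
  module

theorem ab_inj (hm : 1 ≤ m) {i j : Fin m} (hij : i ≠ j) {x y z x' y' z' : F}
    (h : pr (ab i j x y z) = pr (ab i j x' y' z')) : x = x' ∧ y = y' ∧ z = z' := by
  have h' := eq_of_pr_eq hm (ab_nilpotent x y z) (ab_nilpotent x' y' z') h
  have hi := congrArg (fun t : S m F => (t : Matrix (I m) (I m) F) *ᵥ f i) h'
  have hj := congrArg (fun t : S m F => (t : Matrix (I m) (I m) F) *ᵥ f j) h'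
  simp only [ab_mulVec] at hi hj
  have h1 := congrFun hi (Sum.inl i)
  have h2 := congrFun hj (Sum.inl j)
  have h3 := congrFun hi (Sum.inl j)
  simp [e, f, hij, hij.symm] at h1 h2 h3
  exact ⟨h1, h2, h3⟩

theorem spT_combine {i j : Fin m} (s c : F) :
    spT m (e i + s • e j) c = ab i j c (c * s * s) (c * s) := by
  apply sp_ext
  intro w
  rw [spT_mulVec, ab_mulVec, map_add, map_smul, smul_eq_mul, B_e, B_e]
  module

theorem tr_e (i j : Fin m) (c : F) : tr (e i) c = pr (ab i j c 0 0) := by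
  rw [tr]; congr 1; apply sp_ext; intro w
  rw [spT_mulVec, ab_mulVec, B_e]; simp

theorem tr_e' (i j : Fin m) (c : F) : tr (e j) c = pr (ab i j 0 c 0) := by
  rw [tr]; congr 1; apply sp_ext; intro w
  rw [spT_mulVec, ab_mulVec, B_e]; simp

/-! ### The torus elements of the root pairs -/

/-- `w(t) = x(t) y(1/t) x(t)`. -/
noncomputable def wel (i : Fin m) (t : F) : S m F := spT m (e i) t * spT m (f i) t⁻¹ * spT m (e i) t

/-- The torus element of a pair. -/
noncomputable def htor (i : Fin m) (t : F) : S m F := wel i t * wel i (-1 : F)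

theorem wel_mulVec (i : Fin m) {t : F} (ht : t ≠ 0) (w : I m → F) :
    (wel i t : Matrix (I m) (I m) F) *ᵥ w = w + (t * w (Sum.inr i) - w (Sum.inl i)) • e i +
      (-(t⁻¹ * w (Sum.inl i)) - w (Sum.inr i)) • f i := by
  simp only [wel, Submonoid.coe_mul, ← mulVec_mulVec, spT_mulVec, map_add, map_smul,
    LinearMap.add_apply, LinearMap.smul_apply, B_ee, B_ff, B_ef, B_fe, if_pos rfl, smul_zero,
    add_zero, B_e, B_f, smul_eq_mul, mul_zero]
  funext a
  simp only [Pi.add_apply, Pi.smul_apply, smul_eq_mul, e_inr, f_inl, e_inl_self, f_inr_self]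
  field_simp
  ring

theorem htor_mulVec (i : Fin m) {t : F} (ht : t ≠ 0) (w : I m → F) :
    ((htor i t : S m F) : Matrix (I m) (I m) F) *ᵥ w =
      w + ((t - 1) * w (Sum.inl i)) • e i + ((t⁻¹ - 1) * w (Sum.inr i)) • f i := by
  rw [htor, Submonoid.coe_mul, ← mulVec_mulVec, wel_mulVec i ht,
    wel_mulVec i (neg_ne_zero.2 one_ne_zero)]
  funext a
  simp [inv_neg]
  field_simp
  ring

theorem htor_conj {i j : Fin m} (hij : i ≠ j) {t : F} (ht : t ≠ 0) (x y z : F) :
    htor i t * ab i j x y z = ab i j (t * t * x) y (t * z) * htor i t := by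
  apply sp_ext
  intro w
  rw [Submonoid.coe_mul, Submonoid.coe_mul, ← mulVec_mulVec, ← mulVec_mulVec, htor_mulVec i ht,
    htor_mulVec i ht, ab_mulVec, ab_mulVec]
  funext a
  rcases a with l | l <;> by_cases hl : l = i <;> by_cases hl' : l = j <;>
    simp [e, f, hij, hij.symm, hl, hl'] <;> field_simp <;> ring

theorem htor_conj' {i j : Fin m} (hij : i ≠ j) {t : F} (ht : t ≠ 0) (x y z : F) :
    htor j t * ab i j x y z = ab i j x (t * t * y) (t * z) * htor j t := by
  apply sp_ext
  intro w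
  rw [Submonoid.coe_mul, Submonoid.coe_mul, ← mulVec_mulVec, ← mulVec_mulVec, htor_mulVec j ht,
    htor_mulVec j ht, ab_mulVec, ab_mulVec]
  funext a
  rcases a with l | l <;> by_cases hl : l = i <;> by_cases hl' : l = j <;>
    simp [e, f, hij, hij.symm, hl, hl'] <;> field_simp <;> ring

/-! ### Generation -/

/-- Two blocks moves. -/
theorem eq_top_of_gens (i₀ : Fin m) (H : Subgroup (S m F))
    (he : ∀ i c, spT m (e i) c ∈ H) (hf : ∀ i c, spT m (f i) c ∈ H)
    (hs : ∀ j, j ≠ i₀ → ∀ k, ab i₀ j 0 0 k ∈ H) : H = ⊤ := by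
  classical
  let R : (I m → F) → (I m → F) → Prop := fun v w => ∃ h ∈ H, (h : Matrix (I m) (I m) F) *ᵥ v = w
  have Rtrans : ∀ u v w, R u v → R v w → R u w := by
    rintro u v w ⟨h, hh, rfl⟩ ⟨h', hh', rfl⟩
    exact ⟨h' * h, mul_mem hh' hh, by rw [Submonoid.coe_mul, ← mulVec_mulVec]⟩
  let upd : (I m → F) → Fin m → F → F → (I m → F) := fun v j a b =>
    Function.update (Function.update v (Sum.inl j) a) (Sum.inr j) b
  have stepE : ∀ v j c, R v (upd v j (v (Sum.inl j) + c * v (Sum.inr j)) (v (Sum.inr j))) := by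
    intro v j c
    refine ⟨_, he j c, ?_⟩
    rw [spT_mulVec, B_e]
    funext a
    rcases a with i | i <;> by_cases hi : i = j <;> simp [upd, e, hi]
  have stepF : ∀ v j c, R v (upd v j (v (Sum.inl j)) (v (Sum.inr j) - c * v (Sum.inl j))) := by
    intro v j c
    refine ⟨_, hf j c, ?_⟩
    rw [spT_mulVec, B_f]
    funext a
    rcases a with i | i <;> by_cases hi : i = j <;> simp [upd, f, hi] <;> ring
  have upd_upd : ∀ v j a b a' b', upd (upd v j a b) j a' b' = upd v j a' b' := by
    intro v j a b a' b'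
    funext x
    rcases x with i | i <;> by_cases hi : i = j <;> simp [upd, hi]
  have updl : ∀ v j a b, upd v j a b (Sum.inl j) = a := fun v j a b => by simp [upd]
  have updr : ∀ v j a b, upd v j a b (Sum.inr j) = b := fun v j a b => by simp [upd]
  -- a non-zero block can be set to `(0, 1)`, and to `(1, 0)`
  have to01 : ∀ v j, (v (Sum.inl j) ≠ 0 ∨ v (Sum.inr j) ≠ 0) → R v (upd v j 0 1) := by
    intro v j hv
    have main : ∀ u, u (Sum.inl j) ≠ 0 → R u (upd u j 0 1) := by
      intro u hu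
      refine Rtrans _ _ _ (stepF u j ((u (Sum.inr j) - 1) / u (Sum.inl j))) ?_
      have := stepE (upd u j (u (Sum.inl j)) 1) j (-(u (Sum.inl j)))
      rw [updl, updr, upd_upd, mul_one, add_neg_cancel] at this
      rwa [div_mul_cancel₀ _ hu, sub_sub_cancel]
    by_cases hl : v (Sum.inl j) = 0
    · have hr := hv.resolve_left (not_not.2 hl)
      have := main (upd v j (v (Sum.inl j) + (v (Sum.inr j))⁻¹ * v (Sum.inr j)) (v (Sum.inr j)))
        (by rw [updl, hl, zero_add, inv_mul_cancel₀ hr]; exact one_ne_zero)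
      rw [upd_upd] at this
      exact Rtrans _ _ _ (stepE v j _) this
    · exact main v hl
  have to10 : ∀ v j, (v (Sum.inl j) ≠ 0 ∨ v (Sum.inr j) ≠ 0) → R v (upd v j 1 0) := by
    intro v j hv
    refine Rtrans _ _ _ (to01 v j hv) ?_
    have h1 := stepE (upd v j 0 1) j 1
    rw [updl, updr, upd_upd, zero_add, one_mul] at h1
    have h2 := stepF (upd v j 1 1) j 1
    rw [updl, updr, upd_upd, one_mul, sub_self] at h2
    exact Rtrans _ _ _ h1 h2
  have stepS : ∀ v j, j ≠ i₀ → ∀ k, R v (v + (k * v (Sum.inr j)) • e i₀ + (k * v (Sum.inr i₀)) • e j) := by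
    intro v j hj k
    refine ⟨_, hs j hj k, ?_⟩
    rw [ab_mulVec]
    simp
  have key : ∀ (s : Finset (Fin m)) (v : I m → F), (v (Sum.inl i₀) ≠ 0 ∨ v (Sum.inr i₀) ≠ 0) →
      (∀ j, j ∉ s → j ≠ i₀ → v (Sum.inl j) = 0 ∧ v (Sum.inr j) = 0) → R v (f i₀) := by
    intro s
    induction s using Finset.induction_on with
    | empty =>
      intro v hv h0
      have := to01 v i₀ hv
      convert this using 1
      funext a
      rcases a with i | i <;> by_cases hi : i = i₀ <;>
        simp [upd, f, hi, h0 i (Finset.notMem_empty i)]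
    | insert j s hjs ih =>
      intro v hv h0
      by_cases hj : j = i₀
      · refine ih v hv fun i hi hi' => h0 i ?_ hi'
        simp [hi, show i ≠ j from hj ▸ hi']
      by_cases hjz : v (Sum.inl j) = 0 ∧ v (Sum.inr j) = 0
      · refine ih v hv fun i hi hi' => ?_
        by_cases hij : i = j
        · exact hij ▸ hjz
        · exact h0 i (by simp [hi, hij]) hi'
      set v1 := upd v i₀ 0 1 with hv1
      set v2 := upd v1 j 1 0 with hv2
      have hj1 : v1 (Sum.inl j) = v (Sum.inl j) ∧ v1 (Sum.inr j) = v (Sum.inr j) := by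
        constructor <;> simp [hv1, upd, hj]
      have r1 : R v v1 := to01 v i₀ hv
      have r2 : R v1 v2 := to10 v1 j (by rw [hj1.1, hj1.2]; exact not_and_or.1 hjz)
      refine Rtrans _ _ _ r1 (Rtrans _ _ _ r2 (Rtrans _ _ _ (stepS v2 j hj (-1)) (ih _ ?_ ?_)))
      · right
        simp [hv2, hv1, upd, e, Ne.symm hj]
      · intro i hi hi'
        by_cases hij : i = j
        · subst hij
          simp [hv2, hv1, upd, e, hj, Ne.symm hj]
        · have := h0 i (by simp [hi, hij]) hi'
          simp [hv2, hv1, upd, e, hi', hij, this]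
  have all : ∀ v : I m → F, v ≠ 0 → R v (f i₀) := by
    intro v hv
    by_cases h0 : v (Sum.inl i₀) ≠ 0 ∨ v (Sum.inr i₀) ≠ 0
    · exact key Finset.univ v h0 fun j hj => absurd (Finset.mem_univ j) hj
    · push Not at h0
      obtain ⟨j, hj⟩ : ∃ j, v (Sum.inl j) ≠ 0 ∨ v (Sum.inr j) ≠ 0 := by
        by_contra hc
        push Not at hc
        apply hv
        funext a
        rcases a with i | i
        · exact (hc i).1
        · exact (hc i).2
      have hji : j ≠ i₀ := by rintro rfl; rcases hj with h | h <;> simp [h0] at h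
      refine Rtrans _ _ _ (to01 v j hj) (Rtrans _ _ _ (stepS (upd v j 0 1) j hji 1) (key Finset.univ _ ?_
        fun i hi => absurd (Finset.mem_univ i) hi))
      left
      simp [upd, e, Ne.symm hji, h0.1]
  refine sp_eq_top_of_spT m H fun v c => ?_
  rcases eq_or_ne v 0 with rfl | hv
  · rw [spT_zero]; exact one_mem H
  obtain ⟨h, hh, hvh⟩ := all v hv
  have := spT_conj m h v c
  rw [hvh] at this
  rw [show spT m v c = h⁻¹ * spT m (f i₀) c * h by rw [← this]; group]
  exact mul_mem (mul_mem (inv_mem hh) (hf i₀ c)) hh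

theorem hom_ext {β γ : MulAut (P m F)} (i₀ : Fin m) (he : ∀ i c, β (tr (e i) c) = γ (tr (e i) c))
    (hf : ∀ i c, β (tr (f i) c) = γ (tr (f i) c))
    (hs : ∀ j, j ≠ i₀ → ∀ k, β (pr (ab i₀ j 0 0 k)) = γ (pr (ab i₀ j 0 0 k))) : β = γ := by
  have h := eq_top_of_gens i₀
    ((MonoidHom.eqLocus β.toMonoidHom γ.toMonoidHom).comap (pr (m := m) (F := F))) he hf hs
  exact D_ext fun s => (h ▸ Subgroup.mem_top s :
    s ∈ (MonoidHom.eqLocus β.toMonoidHom γ.toMonoidHom).comap (pr (m := m) (F := F)))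

/-! ### Normalisation -/

variable [Fintype F]

/-- Fixing the standard frame. -/
theorem exists_frame (hm : 1 ≤ m) {β : MulAut (P m F)} (hβ : TP β) :
    ∃ G : S m F, ∀ i, (X (e i)).map ((MulAut.conj (pr G))⁻¹ * β).toMonoidHom = X (e i) ∧
      (X (f i)).map ((MulAut.conj (pr G))⁻¹ * β).toMonoidHom = X (f i) := by
  choose u hu hu' using fun i => map_X hm hβ (e_ne_zero (F := F) i)
  choose v hv hv' using fun i => map_X hm hβ (f_ne_zero (F := F) i)
  have hiff : ∀ {a b a' b' : I m → F}, a ≠ 0 → b ≠ 0 → a' ≠ 0 → b' ≠ 0 →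
      (X a).map β.toMonoidHom = X a' → (X b).map β.toMonoidHom = X b' →
      (B m F a b = 0 ↔ B m F a' b' = 0) := by
    intro a b a' b' ha hb ha' hb' h1 h2
    rw [← comm_iff hm ha hb, ← comm_iff hm ha' hb', ← h1, ← h2]
    refine ⟨fun h => h.map β, fun h => ?_⟩
    intro x hx y hy
    have := h _ ⟨x, hx, rfl⟩ _ ⟨y, hy, rfl⟩
    exact Commute.of_map (f := β.toMonoidHom) β.injective this
  have hne : ∀ i, B m F (v i) (u i) ≠ 0 := fun i h => by
    have := (hiff (f_ne_zero i) (e_ne_zero i) (hv i) (hu i) (hv' i) (hu' i)).2 h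
    rw [B_fe, if_pos rfl] at this
    exact one_ne_zero this
  obtain ⟨G, hG⟩ := exists_matrix_of_frame (u := u) (v := fun i => (B m F (v i) (u i))⁻¹ • v i)
    (fun i j => (hiff (e_ne_zero i) (e_ne_zero j) (hu i) (hu j) (hu' i) (hu' j)).1 (B_ee i j))
    (fun i j => by
      simp only [map_smul, LinearMap.smul_apply,
        (hiff (f_ne_zero i) (f_ne_zero j) (hv i) (hv j) (hv' i) (hv' j)).1 (B_ff i j), smul_zero])
    (fun i j => by
      rw [map_smul, LinearMap.smul_apply, smul_eq_mul]
      by_cases h : i = j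
      · subst h; rw [inv_mul_cancel₀ (hne i), if_pos rfl]
      · rw [(hiff (f_ne_zero i) (e_ne_zero j) (hv i) (hu j) (hv' i) (hu' j)).1
          (by rw [B_fe, if_neg h]), mul_zero, if_neg h])
  refine ⟨G, fun i => ?_⟩
  have key : ∀ a b : I m → F, (X a).map β.toMonoidHom = X ((G : Matrix (I m) (I m) F) *ᵥ b) →
      (X a).map ((MulAut.conj (pr G))⁻¹ * β).toMonoidHom = X b := by
    intro a b h
    have h' : X b = (X ((G : Matrix (I m) (I m) F) *ᵥ b)).map (MulAut.conj (pr (G⁻¹))).toMonoidHom := by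
      rw [map_conj_X, mulVec_mulVec, ← Submonoid.coe_mul, inv_mul_cancel]
      simp
    rw [h', ← h, Subgroup.map_map]
    congr 1
    ext z
    simp
  refine ⟨key _ _ ((hu' i).trans (by rw [(hG i).1])), key _ _ ((hv' i).trans ?_)⟩
  rw [(hG i).2, X_smul (inv_ne_zero (hne i))]

/-- On the root groups of a fixed frame an automorphism acts by field automorphisms. -/
theorem exists_sigma (hm : 1 ≤ m) (β : MulAut (P m F))
    (hX : ∀ i, (X (e i)).map β.toMonoidHom = X (e i) ∧ (X (f i)).map β.toMonoidHom = X (f i))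
    (i : Fin m) : ∃ (c : F) (σ : F ≃+* F), c ≠ 0 ∧ ∀ t, β (tr (e i) t) = tr (e i) (c * σ t) ∧
      β (tr (f i) t) = tr (f i) (c⁻¹ * σ t) := by
  have hA : ∀ t, ∃ t', β (tr (e i) t) = tr (e i) t' := fun t =>
    mem_X.1 ((hX i).1 ▸ ⟨_, tr_mem_X _ t, rfl⟩)
  have hC : ∀ t, ∃ t', β (tr (f i) t) = tr (f i) t' := fun t =>
    mem_X.1 ((hX i).2 ▸ ⟨_, tr_mem_X _ t, rfl⟩)
  choose A hA using hA
  choose C hC using hC
  have add : ∀ {w : I m → F} (hw : w ≠ 0) {T : F → F} (hT : ∀ t, β (tr w t) = tr w (T t)) (x y : F),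
      T (x + y) = T x + T y := fun {w} hw {T} hT x y => tr_left_inj hm hw (by
    rw [← hT, ← tr_add, map_mul, hT, hT, tr_add])
  have hA0 : ∀ t, t ≠ 0 → A t ≠ 0 := fun t ht h0 => tr_ne_one hm (e_ne_zero i) ht
    (β.injective (by rw [map_one, hA, h0, tr_zero]))
  have hC0 : ∀ t, t ≠ 0 → C t ≠ 0 := fun t ht h0 => tr_ne_one hm (f_ne_zero i) ht
    (β.injective (by rw [map_one, hC, h0, tr_zero]))
  -- conjugates of the two root groups
  have hconj : ∀ t s : F, (X (e i)).map (MulAut.conj (tr (f i) s)).toMonoidHom =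
      X (e i - s • f i) ∧ (X (f i)).map (MulAut.conj (tr (e i) t)).toMonoidHom = X (f i + t • e i) := by
    intro t s
    constructor
    · rw [tr, map_conj_X, spT_mulVec, B_ef, if_pos rfl, mul_neg_one, neg_smul, sub_eq_add_neg]
    · rw [tr, map_conj_X, spT_mulVec, B_fe, if_pos rfl, mul_one]
  have hiff : ∀ t s : F, ((X (e i)).map (MulAut.conj (tr (f i) s)).toMonoidHom =
      (X (f i)).map (MulAut.conj (tr (e i) t)).toMonoidHom) ↔ t * s = -1 := by
    intro t s
    rw [(hconj t s).1, (hconj t s).2]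
    constructor
    · intro h
      have hne : (e i - s • f i : I m → F) ≠ 0 := fun h0 => by
        have := congrFun h0 (Sum.inl i); simp [e, f] at this
      obtain ⟨k, hk, -⟩ := (X_eq_iff hm hne).1 h
      have h1 := congrFun hk (Sum.inl i)
      have h2 := congrFun hk (Sum.inr i)
      simp [e, f] at h1 h2
      linear_combination (-t) * h2 + h1
    · intro h
      have ht : t ≠ 0 := by rintro rfl; simp at h
      rw [show (f i + t • e i : I m → F) = t • (e i - s • f i) by
        rw [smul_sub, smul_smul, h, neg_one_smul, sub_neg_eq_add, add_comm], X_smul ht]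
  have hpres : ∀ t s, t * s = -1 → A t * C s = -1 := by
    intro t s h
    rw [← hiff]
    have e1 : ∀ (U : Subgroup (P m F)) (z : P m F),
        (U.map (MulAut.conj z).toMonoidHom).map β.toMonoidHom =
          (U.map β.toMonoidHom).map (MulAut.conj (β z)).toMonoidHom := by
      intro U z
      rw [Subgroup.map_map, Subgroup.map_map]
      congr 1
      ext x
      simp
    have := congrArg (fun U : Subgroup (P m F) => U.map β.toMonoidHom) ((hiff t s).2 h)
    simp only [e1, hA, hC, (hX i).1, (hX i).2] at this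
    exact this
  obtain ⟨σ, hσ⟩ := hua (A := A) (C := C) (add (e_ne_zero i) hA) (add (f_ne_zero i) hC) (fun t ht => by
    refine ⟨hA0 t ht, ?_⟩
    have h := hpres t (-t⁻¹) (by rw [mul_neg, mul_inv_cancel₀ ht])
    have hneg : C (-t⁻¹) = -C t⁻¹ := by
      have hadd := add (f_ne_zero i) hC
      have h0 : C 0 = 0 := by have := hadd 0 0; rw [add_zero] at this; exact left_eq_add.1 this
      have := hadd t⁻¹ (-t⁻¹); rw [add_neg_cancel, h0] at this
      exact eq_neg_of_add_eq_zero_right this.symm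
    rw [hneg, mul_neg, neg_inj] at h
    exact eq_inv_of_mul_eq_one_right h)
  exact ⟨A 1, σ, hA0 1 one_ne_zero, fun t => ⟨by rw [hA, (hσ t).1], by rw [hC, (hσ t).2]⟩⟩

omit [Fintype F] in
/-- A torus element of the similarity group. -/
theorem exists_torus (μ : Fˣ) (l : Fin m → Fˣ) :
    ∃ g : ↥(Cfsg.GSp m F), (∀ u v, B m F (((g : GL (I m) F) : Matrix (I m) (I m) F) *ᵥ u)
      (((g : GL (I m) F) : Matrix (I m) (I m) F) *ᵥ v) = (μ : F) * B m F u v) ∧
      ∀ i, ((g : GL (I m) F) : Matrix (I m) (I m) F) *ᵥ e i = (l i : F) • e i ∧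
        ((g : GL (I m) F) : Matrix (I m) (I m) F) *ᵥ f i = ((μ : F) * ((l i)⁻¹ : Fˣ)) • f i := by
  let d : I m → Fˣ := Sum.elim l fun i => μ * (l i)⁻¹
  let g : GL (I m) F := ⟨Matrix.diagonal fun a => (d a : F), Matrix.diagonal fun a => ((d a)⁻¹ : Fˣ),
    by simp, by simp⟩
  have hg : ∀ u v : I m → F, B m F ((g : Matrix (I m) (I m) F) *ᵥ u) ((g : Matrix (I m) (I m) F) *ᵥ v) =
      (μ : F) * B m F u v := by
    intro u v
    simp only [B, stdB_apply, Cfsg.sympForm, dotProduct, Fintype.sum_sum_type, Finset.mul_sum, mul_add]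
    simp [Matrix.J, Matrix.mulVec, dotProduct, Matrix.one_apply, g, d, Matrix.diagonal_apply]
    refine congrArg₂ (· + ·) (congrArg Neg.neg ?_) ?_ <;>
      refine Finset.sum_congr rfl fun i _ => ?_ <;>
      (have := (l i).ne_zero; field_simp)
  refine ⟨⟨g, mem_GSp.2 ⟨μ, hg⟩⟩, hg, fun i => ⟨?_, ?_⟩⟩
  · funext a
    rcases a with j | j <;> by_cases h : j = i <;>
      simp [g, d, e, Matrix.mulVec_diagonal, h]
  · funext a
    rcases a with j | j <;> by_cases h : j = i <;>
      simp [g, d, f, Matrix.mulVec_diagonal, h]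

/-- Every automorphism is a similarity followed by a field automorphism. -/
theorem std_all_tp (hm : 1 ≤ m) {β : MulAut (P m F)} (hβ : TP β) :
    ∃ (g : ↥(Cfsg.GSp m F)) (σ : F ≃+* F), β = conjHom m F g * D (fieldSp σ) := by
  classical
  obtain ⟨G, hG⟩ := exists_frame hm hβ
  set β' := (MulAut.conj (pr G))⁻¹ * β with hβ'
  choose c σ hc hσ using exists_sigma hm β' hG
  have hβT : TP β' := (tp_conj G).inv.mul hβ
  set i₀ : Fin m := ⟨0, hm⟩ with hi₀
  have e1 : ∀ z : P m F, β' (z) = β' z := fun _ => rfl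
  -- the short root elements
  have hS : ∀ j, j ≠ i₀ → ∃ l : F, l ≠ 0 ∧ c i₀ * c j = l * l ∧ σ j = σ i₀ ∧
      ∀ k, β' (pr (ab i₀ j 0 0 k)) = pr (ab i₀ j 0 0 (l * σ i₀ k)) := by
    intro j hj
    -- images of the vectors on the line
    have himg : ∀ s : F, ∃ s' : F, ∀ t : F, ∃ t', β' (tr (e i₀ + s • e j) t) = tr (e i₀ + s' • e j) t' := by
      intro s
      set v : I m → F := e i₀ + s • e j with hv
      have hv0 : v ≠ 0 := fun h => by
        have := congrFun h (Sum.inl i₀); simp [hv, e, Ne.symm hj] at this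
      obtain ⟨w, hw, hXw⟩ := map_X hm hβT hv0
      have hrel : ∀ a : I m → F, a ≠ 0 → (X a).map β'.toMonoidHom = X a →
          (B m F v a = 0 ↔ B m F w a = 0) := by
        intro a ha haX
        rw [← comm_iff hm hv0 ha, ← comm_iff hm hw ha]
        refine ⟨fun h => ?_, fun h x hx y hy => ?_⟩
        · have := h.map β'; rwa [hXw, haX] at this
        · exact Commute.of_map (f := β'.toMonoidHom) β'.injective
            (h _ (hXw ▸ ⟨x, hx, rfl⟩) _ (haX ▸ ⟨y, hy, rfl⟩))
      have hwr : ∀ l, w (Sum.inr l) = 0 := fun l => by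
        rw [← B_e w l]
        refine (hrel _ (e_ne_zero l) (hG l).1).1 ?_
        rw [hv, map_add, LinearMap.add_apply, map_smul, LinearMap.smul_apply, B_ee, B_ee, smul_zero,
          add_zero]
      have hwl : ∀ l, l ≠ i₀ → l ≠ j → w (Sum.inl l) = 0 := fun l h1 h2 => by
        have := (hrel _ (f_ne_zero l) (hG l).2).1 (by
          rw [hv, map_add, LinearMap.add_apply, map_smul, LinearMap.smul_apply, B_ef, B_ef,
            if_neg (Ne.symm h1), if_neg (Ne.symm h2), smul_zero, add_zero])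
        rwa [B_f, neg_eq_zero] at this
      have hw0 : w (Sum.inl i₀) ≠ 0 := fun h => by
        have := (hrel _ (f_ne_zero i₀) (hG i₀).2).2 (by rw [B_f, h, neg_zero])
        simp [hv, B_ef, Ne.symm hj, hj] at this
      refine ⟨w (Sum.inl j) / w (Sum.inl i₀), fun t => ?_⟩
      have hwe : w = w (Sum.inl i₀) • (e i₀ + (w (Sum.inl j) / w (Sum.inl i₀)) • e j) := by
        funext a
        rcases a with l | l
        · by_cases h1 : l = i₀
          · subst h1; simp [e, Ne.symm hj]
          by_cases h3 : l = j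
          · subst h3; simp [e, h1]; field_simp
          simp [e, h1, h3, hwl l h1 h3]
        · simp [e, hwr]
      have hmem : β' (tr v t) ∈ X w := hXw ▸ ⟨_, tr_mem_X v t, rfl⟩
      rw [hwe, X_smul hw0] at hmem
      exact mem_X.1 hmem
    choose sv hsv using himg
    choose tv htv using hsv
    -- the image of a short root element
    have hk : ∀ s t, β' (pr (ab i₀ j 0 0 (t * s))) =
        pr (ab i₀ j (tv s t - c i₀ * σ i₀ t)
          (tv s t * sv s * sv s - c j * σ j (t * s * s)) (tv s t * sv s)) := by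
      intro s t
      have h1 : pr (ab i₀ j 0 0 (t * s)) =
          tr (e i₀ + s • e j) t * tr (e i₀) (-t) * tr (e j) (-(t * s * s)) := by
        rw [tr_e i₀ j, tr_e' i₀ j, tr, spT_combine, ← map_mul, ← map_mul, ab_mul, ab_mul]
        congr 2 <;> ring
      rw [h1, map_mul, map_mul, htv, (hσ i₀ _).1, (hσ j _).1, tr_e i₀ j, tr_e' i₀ j, tr, spT_combine,
        ← map_mul, ← map_mul, ab_mul, ab_mul, map_neg, map_neg]
      congr 2 <;> ring
    have hpar : ∀ k, ∃ x y z, β' (pr (ab i₀ j 0 0 k)) = pr (ab i₀ j x y z) := fun k =>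
      ⟨_, _, _, by rw [← hk 1 k, mul_one]⟩
    choose Xk Yk Zk hXYZ using hpar
    -- the torus elements
    have hh : ∀ i (t : F), t ≠ 0 → β' (pr (htor i t)) = pr (htor i (σ i t) : S m F) := by
      intro i t ht
      have hw : ∀ s : F, β' (pr (wel i s)) = pr (wel i (c i * σ i s)) := fun s => by
        simp only [wel, map_mul]
        rw [show (pr (spT m (e i) s)) = tr (e i) s from rfl,
          show (pr (spT m (f i) s⁻¹)) = tr (f i) s⁻¹ from rfl,
          (hσ i _).1, (hσ i _).2]
        simp only [tr, map_inv₀, _root_.mul_inv_rev, mul_comm]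
      have hσt : σ i t ≠ 0 := fun h0 => ht (σ i |>.injective (by rw [h0, map_zero]))
      have hm1 : c i * σ i t ≠ 0 := mul_ne_zero (hc i) hσt
      have hm2 : c i * σ i (-1) ≠ 0 := by
        rw [map_neg, map_one, mul_neg_one]; exact neg_ne_zero.2 (hc i)
      rw [htor, map_mul, map_mul, hw, hw, ← map_mul]
      congr 1
      apply sp_ext
      intro w
      rw [htor_mulVec i hσt, Submonoid.coe_mul, ← mulVec_mulVec, wel_mulVec i hm1,
        wel_mulVec i hm2]
      funext a
      have := hc i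
      simp [inv_neg]
      field_simp
      ring
    have hXY0 : Xk 0 = 0 ∧ Yk 0 = 0 ∧ Zk 0 = 0 := by
      have h0 : (ab i₀ j 0 0 (0 : F) : S m F) = 1 := by
        apply sp_ext; intro w; rw [ab_mulVec]; simp
      obtain ⟨h1, h3, h4⟩ := ab_inj hm (Ne.symm hj) ((hXYZ 0).symm.trans
        (show β' (pr (ab i₀ j 0 0 0)) = pr (ab i₀ j 0 0 0) by rw [h0, map_one, map_one]))
      exact ⟨h1, h3, h4⟩
    have hadd : ∀ k k', Xk (k + k') = Xk k + Xk k' ∧ Yk (k + k') = Yk k + Yk k' := by
      intro k k'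
      have h1 : pr (ab i₀ j (Xk (k + k')) (Yk (k + k')) (Zk (k + k'))) =
          pr (ab i₀ j (Xk k + Xk k') (Yk k + Yk k') (Zk k + Zk k')) := by
        rw [← hXYZ, ← ab_mul, map_mul, ← hXYZ, ← hXYZ, ← map_mul, ← map_mul, ab_mul, add_zero]
      obtain ⟨h1, h3, -⟩ := ab_inj hm (Ne.symm hj) h1
      exact ⟨h1, h3⟩
    have hzero : ∀ k, Xk k = 0 ∧ Yk k = 0 := by
      intro k
      by_cases h3 : ∃ t : F, t ≠ 0 ∧ t ≠ 1
      · obtain ⟨t, ht, ht1⟩ := h3
        have hY : ∀ k, Yk (t * k) = Yk k := fun k => by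
          have h' := congrArg (fun z => β' (pr z)) (htor_conj (i := i₀) (j := j) (Ne.symm hj) ht 0 0 k)
          simp only [map_mul, mul_zero, hh _ _ ht, hXYZ] at h'
          have hσt : σ i₀ t ≠ 0 := fun h0 => ht ((σ i₀).injective (by rw [h0, map_zero]))
          have h4 := congrArg pr (htor_conj (i := i₀) (j := j) (Ne.symm hj) hσt (Xk k) (Yk k) (Zk k))
          rw [map_mul, map_mul] at h4
          rw [h4] at h'
          obtain ⟨-, h5, -⟩ := ab_inj hm (Ne.symm hj) (mul_right_cancel h')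
          exact h5.symm
        have hX : ∀ k, Xk (t * k) = Xk k := fun k => by
          have h' := congrArg (fun z => β' (pr z)) (htor_conj' (i := i₀) (j := j) (Ne.symm hj) ht 0 0 k)
          simp only [map_mul, mul_zero, hh _ _ ht, hXYZ] at h'
          have hσt : σ j t ≠ 0 := fun h0 => ht ((σ j).injective (by rw [h0, map_zero]))
          have h4 := congrArg pr (htor_conj' (i := i₀) (j := j) (Ne.symm hj) hσt (Xk k) (Yk k) (Zk k))
          rw [map_mul, map_mul] at h4
          rw [h4] at h'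
          obtain ⟨h5, -, -⟩ := ab_inj hm (Ne.symm hj) (mul_right_cancel h')
          exact h5.symm
        set u := k / (t - 1) with hu
        have hk' : t * u = k + u := by
          rw [hu]
          field_simp [sub_ne_zero.2 ht1]
          ring
        have e1 := hX u
        have e2 := hY u
        rw [hk', (hadd k u).1] at e1
        rw [hk', (hadd k u).2] at e2
        exact ⟨add_eq_right.1 e1, add_eq_right.1 e2⟩
      · push Not at h3
        rcases eq_or_ne k 0 with rfl | hk0
        · exact ⟨hXY0.1, hXY0.2.1⟩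
        have h01 : ∀ x : F, x ≠ 0 → x = 1 := fun x hx => h3 x hx
        have hv : ∀ s : F, (e i₀ + s • e j : I m → F) ≠ 0 := fun s h => by
          have := congrFun h (Sum.inl i₀); simp [e, Ne.symm hj] at this
        have ht1 : tv 1 1 = 1 := h01 _ fun h0 => by
          have := htv 1 1
          rw [h0, tr_zero] at this
          exact tr_ne_one hm (hv 1) one_ne_zero (β'.injective (by rw [this, map_one]))
        have hs1 : sv 1 = 1 := h01 _ fun h0 => by
          have h1 := htv 1 1
          rw [h0, ht1, zero_smul, add_zero] at h1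
          have h4 : β' (tr (e i₀) 1) = tr (e i₀) 1 := by
            rw [(hσ i₀ 1).1, map_one, mul_one, h01 _ (hc i₀)]
          obtain ⟨s', hs', -⟩ := par_of_spT_eq (hv 1) one_ne_zero (tr_inj hm (β'.injective (h1.trans h4.symm)))
          have := congrFun hs' (Sum.inl j)
          simp [e, hj] at this
        have := hk 1 1
        rw [mul_one, hXYZ, show (1 : F) = k from (h01 k hk0).symm] at this
        obtain ⟨h5, h6, -⟩ := ab_inj hm (Ne.symm hj) this
        rw [h01 k hk0] at h5 h6 ⊢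
        rw [ht1, hs1, h01 _ (hc i₀), h01 _ (hc j)] at *
        simp only [map_one, mul_one, sub_self] at h5 h6
        exact ⟨h5, h6⟩
    have hfacts : ∀ s t, tv s t = c i₀ * σ i₀ t ∧ tv s t * sv s * sv s = c j * σ j (t * s * s) ∧
        Zk (t * s) = tv s t * sv s := by
      intro s t
      have h := hk s t
      rw [hXYZ] at h
      obtain ⟨h1, h3, h4⟩ := ab_inj hm (Ne.symm hj) h
      rw [(hzero _).1] at h1
      rw [(hzero _).2] at h3
      exact ⟨sub_eq_zero.1 h1.symm, sub_eq_zero.1 h3.symm, h4⟩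
    set l := c i₀ * sv 1 with hl
    have hsv2 : ∀ s, c i₀ * sv s * sv s = c j * σ j (s * s) := fun s => by
      have := (hfacts s 1).2.1
      rw [(hfacts s 1).1, map_one, mul_one, one_mul] at this
      exact this
    have hZ : ∀ k, Zk k = l * σ i₀ k := fun k => by
      have := (hfacts 1 k).2.2
      rw [(hfacts 1 k).1, mul_one] at this
      rw [this, hl]; ring
    have hll : c i₀ * c j = l * l := by
      have := hsv2 1
      rw [mul_one, map_one, mul_one] at this
      rw [hl, ← this]; ring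
    have hl0 : l ≠ 0 := fun h => by
      rw [h, mul_zero] at hll; exact mul_ne_zero (hc _) (hc _) hll
    refine ⟨l, hl0, hll, ?_, fun k => by rw [hXYZ, (hzero k).1, (hzero k).2, hZ]⟩
    have hsq : ∀ s, σ j (s * s) = σ i₀ (s * s) := fun s => by
      have h1 := (hfacts s 1).2.2
      rw [(hfacts s 1).1, map_one, mul_one, one_mul, hZ] at h1
      have h3 := hsv2 s
      have h4 : c i₀ * (c j * σ j (s * s)) = c i₀ * c j * (σ i₀ (s * s)) := by
        rw [hll, map_mul (σ i₀), ← h3]
        linear_combination (-(c i₀ * sv s) - l * σ i₀ s) * h1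
      exact mul_left_cancel₀ (hc j) (mul_left_cancel₀ (hc i₀) (h4.trans (mul_assoc _ _ _)))
    refine RingEquiv.ext fun s => ?_
    by_cases h2 : (2 : F) = 0
    · haveI : Fact (Nat.Prime 2) := ⟨Nat.prime_two⟩
      obtain ⟨r, rfl⟩ := FiniteField.isSquare_of_char_two
        (CharP.ringChar_of_prime_eq_zero Nat.prime_two (by exact_mod_cast h2)) s
      exact hsq r
    have h := hsq (s + 1)
    rw [show (s + 1) * (s + 1) = s * s + (s + s) + 1 by ring] at h
    simp only [map_add, map_one, hsq] at h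
    have : (2 : F) * (σ j s - σ i₀ s) = 0 := by linear_combination h
    exact sub_eq_zero.1 ((mul_eq_zero.1 this).resolve_left h2)
  -- the torus
  have hl : ∀ j, ∃ l : Fˣ, (c i₀ * c j = (l : F) * l) ∧ σ j = σ i₀ ∧ (j ≠ i₀ →
      ∀ k, β' (pr (ab i₀ j 0 0 k)) = pr (ab i₀ j 0 0 ((l : F) * σ i₀ k))) ∧
      (j = i₀ → (l : F) = c i₀) := by
    intro j
    by_cases hj : j = i₀
    · subst hj
      exact ⟨Units.mk0 _ (hc _), rfl, rfl, fun h => absurd rfl h, fun _ => rfl⟩
    · obtain ⟨l, hl0, h1, h3, h4⟩ := hS j hj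
      exact ⟨Units.mk0 l hl0, h1, h3, fun _ => h4, fun h => absurd h hj⟩
  choose L hL1 hL2 hL3 hL4 using hl
  obtain ⟨T, hTμ, hT⟩ := exists_torus (Units.mk0 _ (hc i₀)) L
  refine ⟨spIn G * T, σ i₀, ?_⟩
  have hmain : β' = conjHom m F T * D (fieldSp (σ i₀)) := by
    have hμ : (((Units.mk0 _ (hc i₀))⁻¹ : Fˣ) : F) = (c i₀)⁻¹ := by
      rw [Units.val_inv_eq_inv_val, Units.val_mk0]
    have hfe : ∀ i, (fun a => σ i₀ ((e i : I m → F) a)) = e i := fun i => by
      funext a; by_cases h : a = Sum.inl i <;> simp [e, h]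
    have hff : ∀ i, (fun a => σ i₀ ((f i : I m → F) a)) = f i := fun i => by
      funext a; by_cases h : a = Sum.inr i <;> simp [f, h]
    refine hom_ext i₀ (fun i t => ?_) (fun i t => ?_) (fun j hj k => ?_)
    · rw [(hσ i t).1, MulAut.mul_apply, field_tr, hfe, conjHom_tr T hTμ, (hT i).1, tr_smul, hμ, hL2]
      congr 1
      have hci : c i = (L i : F) * L i / c i₀ := by
        rw [eq_div_iff (hc i₀)]; linear_combination hL1 i
      rw [hci]
      ring
    · rw [(hσ i t).2, MulAut.mul_apply, field_tr, hff, conjHom_tr T hTμ, (hT i).2, tr_smul, hμ, hL2,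
        Units.val_inv_eq_inv_val, Units.val_mk0]
      congr 1
      have hci : c i = (L i : F) * L i / c i₀ := by
        rw [eq_div_iff (hc i₀)]; linear_combination hL1 i
      have := hc i₀
      have := (L i).ne_zero
      rw [hci]
      field_simp
    · have h1 : pr (ab i₀ j 0 0 k) = tr (e i₀ + (1 : F) • e j) k * tr (e i₀) (-k) * tr (e j) (-k) := by
        rw [tr_e i₀ j, tr_e' i₀ j, tr, spT_combine, ← map_mul, ← map_mul, ab_mul, ab_mul]
        congr 2 <;> ring
      rw [hL3 j hj, h1, MulAut.mul_apply, map_mul, map_mul, map_mul, map_mul, field_tr, field_tr,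
        field_tr, conjHom_tr T hTμ, conjHom_tr T hTμ, conjHom_tr T hTμ, hfe, hfe, (hT i₀).1, (hT j).1]
      have hsum : (fun a => σ i₀ ((e i₀ + (1 : F) • e j : I m → F) a)) = e i₀ + (1 : F) • e j := by
        funext a
        have h5 := congrFun (hfe i₀) a
        have h6 := congrFun (hfe j) a
        simp only [one_smul, Pi.add_apply, map_add] at *
        rw [h5, h6]
      rw [hsum, mulVec_add, mulVec_smul, (hT i₀).1, (hT j).1, one_smul,
        show (L i₀ : F) • (e i₀ : I m → F) + (L j : F) • e j =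
          (L i₀ : F) • (e i₀ + ((L j : F) / L i₀) • e j) by
          rw [smul_add, smul_smul, mul_div_cancel₀ _ (L i₀).ne_zero],
        tr_smul, tr_smul, tr_smul, tr_e i₀ j, tr_e' i₀ j, tr, spT_combine, ← map_mul, ← map_mul,
        ab_mul, ab_mul, hμ, map_neg]
      have := hc i₀
      congr 2 <;> (rw [hL4 i₀ rfl]; field_simp; ring)
  rw [map_mul, ← inn_eq, mul_assoc, ← hmain, hβ', mul_inv_cancel_left]

/-- Every automorphism has the standard shape, away from `PSp_4(2^a)`. -/
theorem std_all (hm : 1 ≤ m) (h : (2 : F) ≠ 0 ∨ 3 ≤ m) (β : MulAut (P m F)) :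
    ∃ (g : ↥(Cfsg.GSp m F)) (σ : F ≃+* F), β = conjHom m F g * D (fieldSp σ) :=
  std_all_tp hm fun _ _ hv hc => map_tr hm h β hv hc

omit [Fintype F] in
/-- Uniqueness of the standard shape. -/
theorem std_unique (hm : 1 ≤ m) {g : ↥(Cfsg.GSp m F)} {σ : F ≃+* F}
    (h : conjHom m F g * D (fieldSp σ) = 1) :
    σ = 1 ∧ ∃ a : F, ∀ v, ((g : GL (I m) F) : Matrix (I m) (I m) F) *ᵥ v = a • v := by
  obtain ⟨μ, hμ⟩ := mem_GSp.1 g.2
  set M := ((g : GL (I m) F) : Matrix (I m) (I m) F) with hM
  have hpar : ∀ v : I m → F, v ≠ 0 → ∃ s : F, s ≠ 0 ∧ M *ᵥ (fun a => σ (v a)) = s • v := by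
    intro v hv
    have h1 := DFunLike.congr_fun h (tr v 1)
    rw [MulAut.mul_apply, field_tr, conjHom_tr g hμ, MulAut.one_apply, map_one, one_mul] at h1
    obtain ⟨s, hs, hs0⟩ := par_of_spT_eq hv one_ne_zero (tr_inj hm h1.symm)
    exact ⟨s⁻¹, inv_ne_zero hs0, by conv_rhs => rw [hs, smul_smul, inv_mul_cancel₀ hs0, one_smul]⟩
  set i₀ : I m := Sum.inl ⟨0, hm⟩
  have hfix : ∀ a : I m, (fun b => σ ((Pi.single a (1 : F) : I m → F) b)) = Pi.single a 1 := fun a => by
    funext b; by_cases h : b = a <;> simp [h]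
  have hdiag : ∀ a, ∃ s : F, M *ᵥ Pi.single a 1 = s • Pi.single a 1 := fun a => by
    obtain ⟨s, -, hs⟩ := hpar (Pi.single a 1) (Pi.single_ne_zero_iff.2 one_ne_zero)
    rw [hfix] at hs; exact ⟨s, hs⟩
  choose d hd using hdiag
  have hpair : ∀ a b, a ≠ b → ∀ t : F, d a = d b * σ t / t ∨ t = 0 := by
    intro a b hab t
    rcases eq_or_ne t 0 with rfl | ht
    · exact Or.inr rfl
    obtain ⟨s, -, hs⟩ := hpar (Pi.single a 1 + t • Pi.single b 1) (fun h0 => by
      have := congrFun h0 a; simp [hab] at this)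
    rw [show (fun c => σ ((Pi.single a (1 : F) + t • Pi.single b 1 : I m → F) c)) =
      Pi.single a 1 + σ t • Pi.single b 1 by
        funext c
        have h1 := congrFun (hfix a) c
        have h2 := congrFun (hfix b) c
        simp only [Pi.add_apply, Pi.smul_apply, smul_eq_mul, map_add, map_mul] at *
        rw [h1, h2], mulVec_add, mulVec_smul, hd, hd] at hs
    have ha := congrFun hs a
    have hb := congrFun hs b
    simp [hab, hab.symm] at ha hb
    left
    field_simp
    linear_combination t * ha - hb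
  haveI : Nontrivial (I m) := ⟨⟨Sum.inl ⟨0, hm⟩, Sum.inr ⟨0, hm⟩, by simp⟩⟩
  have hσ : σ = 1 := by
    refine RingEquiv.ext fun t => ?_
    rcases eq_or_ne t 0 with rfl | ht
    · simp
    have hne : (i₀ : I m) ≠ Sum.inr ⟨0, hm⟩ := by simp [i₀]
    have h1 := (hpair _ _ hne 1).resolve_right one_ne_zero
    rw [map_one, mul_one, div_one] at h1
    have h3 := (hpair _ _ hne t).resolve_right ht
    obtain ⟨s, hs0, hs⟩ := hpar (Pi.single i₀ 1) (Pi.single_ne_zero_iff.2 one_ne_zero)
    rw [hfix, hd] at hs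
    have hd0 : d i₀ ≠ 0 := fun h0 => hs0 (by simpa [h0] using (congrFun hs i₀).symm)
    rw [← h1] at h3
    field_simp at h3
    exact h3.symm
  refine ⟨hσ, d i₀, fun v => ?_⟩
  have hall : ∀ a, d a = d i₀ := fun a => by
    rcases eq_or_ne a i₀ with rfl | ha
    · rfl
    · have := (hpair a i₀ ha 1).resolve_right one_ne_zero
      rwa [map_one, mul_one, div_one] at this
  have : M = d i₀ • 1 := Matrix.ext_of_mulVec_single fun a => by rw [hd, hall, smul_mulVec, one_mulVec]
  rw [this, smul_mulVec, one_mulVec]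

end Cfsg.Agent.Lib.AutPSp
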