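import Cfsg.Agent.Lib.AutPSp.Count

/-!
The outer automorphism group of `PSp_4(2^k)` is cyclic, generated by the exceptional automorphism.
-/

set_option autoImplicit false

namespace Cfsg.Agent.Lib.AutPSp
open Matrix Cfsg.Agent.Lib.Forms Cfsg.Agent.Lib.Classical
universe u
variable {F : Type u} [Field F]

theorem entries_spT (v : I 2 → F) (c : F) (x y : I 2) : ((spT 2 v c : S 2 F) : Matrix (I 2) (I 2) F) x y =
      (Pi.single y (1 : F) : I 2 → F) x + (c * B 2 F (Pi.single y 1) v) * v x := by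
    simpa using congrFun (spT_mulVec 2 v c (Pi.single y 1)) x

theorem entries_ab (k : F) (x y : I 2) : ((ab 0 1 0 0 k : S 2 F) : Matrix (I 2) (I 2) F) x y =
      (Pi.single y (1 : F) : I 2 → F) x + (k * (Pi.single y (1 : F) : I 2 → F) (Sum.inr 1)) * (e 0 : I 2 → F) x
        + (k * (Pi.single y (1 : F) : I 2 → F) (Sum.inr 0)) * (e 1 : I 2 → F) x := by
    simpa using congrFun (ab_mulVec (i := (0 : Fin 2)) (j := 1) 0 0 k (Pi.single y 1)) x

theorem minors2_e (h20 : (2 : F) = 0) (i : Fin 2) (c : F) :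
    minors (minors ((spT 2 (e i) c : S 2 F) : Matrix (I 2) (I 2) F)) =
      ((spT 2 (e i) (c * c) : S 2 F) : Matrix (I 2) (I 2) F) := by
  ext a b
  simp only [minors, Matrix.of_apply, entries_spT, B_e]
  fin_cases i <;> rcases a with a | a <;> rcases b with b | b <;> fin_cases a <;> fin_cases b <;>
    simp [pr1, pr2, e, char2_neg h20] <;> (try ring_nf) <;> (try simp [h20, char2_neg h20])

theorem minors2_f (h20 : (2 : F) = 0) (i : Fin 2) (c : F) :
    minors (minors ((spT 2 (f i) c : S 2 F) : Matrix (I 2) (I 2) F)) =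
      ((spT 2 (f i) (c * c) : S 2 F) : Matrix (I 2) (I 2) F) := by
  ext a b
  simp only [minors, Matrix.of_apply, entries_spT, B_f]
  fin_cases i <;> rcases a with a | a <;> rcases b with b | b <;> fin_cases a <;> fin_cases b <;>
    simp [pr1, pr2, f, char2_neg h20] <;> (try ring_nf) <;> (try simp [h20, char2_neg h20])

theorem minors2_s (h20 : (2 : F) = 0) (k : F) :
    minors (minors ((ab 0 1 0 0 k : S 2 F) : Matrix (I 2) (I 2) F)) =
      ((ab 0 1 0 0 (k * k) : S 2 F) : Matrix (I 2) (I 2) F) := by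
  ext a b
  simp only [minors, Matrix.of_apply, entries_ab]
  rcases a with a | a <;> rcases b with b | b <;> fin_cases a <;> fin_cases b <;>
    simp [pr1, pr2, e, char2_neg h20] <;> (try ring_nf) <;> (try simp [h20, char2_neg h20])

variable [Fintype F]

theorem exo_exo (h20 : (2 : F) = 0) (σ : F ≃+* F) (hσ : ∀ x, σ x = x * x) (g : S 2 F) :
    exo h20 (exo h20 g) = fieldSp σ g := by
  have h := eq_top_of_gens (m := 2) (0 : Fin 2)
    (MonoidHom.eqLocus ((exo h20).comp (exo h20)) (fieldSp (m := 2) σ).toMonoidHom)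
    (fun i c => Subtype.ext ?_) (fun i c => Subtype.ext ?_) (fun j hj k => Subtype.ext ?_)
  · exact (h ▸ Subgroup.mem_top g :
      g ∈ MonoidHom.eqLocus ((exo h20).comp (exo h20)) (fieldSp (m := 2) σ).toMonoidHom)
  all_goals
    show minors (minors _) = ((fieldSp σ _ : S 2 F) : Matrix (I 2) (I 2) F)
    rw [fieldSp_coe]
  · rw [minors2_e h20]
    ext a b
    rw [Matrix.map_apply, entries_spT, entries_spT, B_e, map_add, map_mul, map_mul, hσ c]
    fin_cases i <;> rcases a with a | a <;> rcases b with b | b <;> fin_cases a <;> fin_cases b <;>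
      simp [e, hσ]
  · rw [minors2_f h20]
    ext a b
    rw [Matrix.map_apply, entries_spT, entries_spT, B_f, map_add, map_mul, map_mul, hσ c]
    fin_cases i <;> rcases a with a | a <;> rcases b with b | b <;> fin_cases a <;> fin_cases b <;>
      simp [f, hσ, char2_neg h20]
  · fin_cases j
    · exact absurd rfl hj
    · show minors (minors ((ab 0 1 0 0 k : S 2 F) : Matrix (I 2) (I 2) F)) =
        ((ab 0 1 0 0 k : S 2 F) : Matrix (I 2) (I 2) F).map σ
      rw [minors2_s h20]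
      ext a b
      rw [Matrix.map_apply, entries_ab, entries_ab]
      rcases a with a | a <;> rcases b with b | b <;> fin_cases a <;> fin_cases b <;>
        simp [e, hσ]

/-- The exceptional automorphism, for every even `q`, with its square. -/
theorem exists_exo_sq (h20 : (2 : F) = 0) (σ : F ≃+* F) (hσ : ∀ x, σ x = x * x) :
    ∃ γ : MulAut (P 2 F), γ * γ = D (fieldSp σ) ∧
      (∀ c, γ (tr (e 0) c) = pr (ab 0 1 0 0 c)) ∧
      ∀ k, γ (pr (ab 0 1 0 0 k)) = tr (e 0) (k * k) := by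
  classical
  haveI : Finite (S 2 F) := Subtype.finite
  have hinj : Function.Injective (exo (F := F) h20) := fun a b h =>
    (fieldSp (m := 2) σ).injective (by rw [← exo_exo h20 σ hσ, ← exo_exo h20 σ hσ, h])
  let γ : MulAut (P 2 F) := D (MulEquiv.ofBijective (exo h20) (Finite.injective_iff_bijective.1 hinj))
  have hγ : ∀ s, γ (pr s) = pr (exo h20 s) := fun s => rfl
  refine ⟨γ, D_ext fun s => ?_, fun c => ?_, fun k => ?_⟩
  · rw [MulAut.mul_apply, hγ, hγ, exo_exo h20 σ hσ, D_pr]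
  · rw [tr, hγ, exo_e0]
  · rw [hγ, exo_short]; rfl

/-- The exceptional automorphism is not semilinear. -/
theorem exo_ne_std (h20 : (2 : F) = 0) {γ : MulAut (P 2 F)}
    (hγe : ∀ c, γ (tr (e 0) c) = pr (ab 0 1 0 0 c)) (g : ↥(Cfsg.GSp 2 F)) (σ : F ≃+* F) :
    γ ≠ conjHom 2 F g * D (fieldSp σ) := by
  intro he
  obtain ⟨μ, hμ⟩ := mem_GSp.1 g.2
  have h := hγe 1
  rw [he, MulAut.mul_apply, field_tr, conjHom_tr g hμ, tr] at h
  have h' := pr_injective (by norm_num) h20 h
  set w := ((g : GL (I 2) F) : Matrix (I 2) (I 2) F) *ᵥ fun i => σ ((e (0 : Fin 2) : I 2 → F) i)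
  have h0 := congrArg (fun t : S 2 F => ((t : Matrix (I 2) (I 2) F) *ᵥ f 0)) h'.symm
  have h1 := congrArg (fun t : S 2 F => ((t : Matrix (I 2) (I 2) F) *ᵥ f 1)) h'.symm
  simp only [ab_mulVec, spT_mulVec, B_swap w (f _)] at h0 h1
  have h2 := congrFun h0 (Sum.inl 0)
  have h3 := congrFun h0 (Sum.inl 1)
  have h4 := congrFun h1 (Sum.inl 0)
  simp [B_f, e, f] at h2 h3 h4
  rcases h2 with h2 | h2 <;> simp [h2] at h3 h4

theorem conjHom_mem_inn (h20 : (2 : F) = 0) {m : ℕ} (hm : 1 ≤ m) (g : ↥(Cfsg.GSp m F)) :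
    conjHom m F g ∈ Cfsg.Inn (P m F) := by
  rw [mem_inn_iff hm]
  haveI : Fact (Nat.Prime 2) := ⟨Nat.prime_two⟩
  have hr : ringChar F = 2 :=
    CharP.ringChar_of_prime_eq_zero Nat.prime_two (by exact_mod_cast h20)
  obtain ⟨r, hr⟩ := FiniteField.isSquare_of_char_two hr (mult hm g : F)
  have hr0 : r ≠ 0 := fun h => by rw [h, mul_zero] at hr; exact (mult hm g).ne_zero hr
  exact ⟨Units.mk0 r hr0, Units.ext (by simp [hr, sq])⟩

omit [Fintype F] in
theorem frob_generates [Finite F] (σ : F ≃+* F) (hσ : ∀ x, σ x = x * x) {k : ℕ} (hk : 1 ≤ k)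
    (hF : Nat.card F = 2 ^ k) : orderOf σ = k ∧ ∀ τ : F ≃+* F, τ ∈ Subgroup.zpowers σ := by
  haveI := Fintype.ofFinite F
  have hF' : Fintype.card F = 2 ^ k := by rw [← Nat.card_eq_fintype_card, hF]
  haveI : Fact (Nat.Prime 2) := ⟨Nat.prime_two⟩
  have hpow : ∀ i x, (σ ^ i : F ≃+* F) x = x ^ 2 ^ i := by
    intro i x
    induction i with
    | zero => simp
    | succ i ih =>
      rw [pow_succ', RingAut.mul_apply, ih, hσ, ← sq, ← pow_mul, pow_succ]
  have hord : orderOf σ = k := by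
    rw [orderOf_eq_iff (by omega)]
    refine ⟨RingEquiv.ext fun x => by rw [hpow, ← hF', FiniteField.pow_card]; rfl, fun i hi hi0 h => ?_⟩
    obtain ⟨g, hg⟩ := IsCyclic.exists_generator (α := Fˣ)
    have h1 := hpow i (g : F)
    rw [h, RingAut.one_apply] at h1
    have h2 : g ^ (2 ^ i - 1) = 1 := by
      have h3 : g ^ 2 ^ i = g := Units.ext (by rw [Units.val_pow_eq_pow_val]; exact h1.symm)
      have h4 : g ^ (2 ^ i - 1) * g = 1 * g := by
        rw [one_mul, ← pow_succ, Nat.sub_add_cancel Nat.one_le_two_pow, h3]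
      exact mul_right_cancel h4
    have h5 := orderOf_dvd_of_pow_eq_one h2
    rw [orderOf_eq_card_of_forall_mem_zpowers hg, Nat.card_units, hF] at h5
    have h6 : 1 < 2 ^ i := Nat.one_lt_two_pow (by omega)
    have h7 := Nat.le_of_dvd (by omega) h5
    have h8 : 2 ^ i < 2 ^ k := Nat.pow_lt_pow_right (by norm_num) hi
    omega
  refine ⟨hord, ?_⟩
  obtain ⟨e⟩ := AutPSL.ringAut_equiv (F := F) (p := 2) hk hF'
  haveI : Finite (F ≃+* F) := Finite.of_injective _ DFunLike.coe_injective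
  have hcard : Nat.card (F ≃+* F) = k := by
    rw [Nat.card_congr e.toEquiv, Nat.card_congr Multiplicative.toAdd, Nat.card_zmod]
  have htop : Subgroup.zpowers σ = ⊤ := Subgroup.eq_top_of_card_eq _ (by rw [Nat.card_zpowers, hord, hcard])
  exact fun τ => htop ▸ Subgroup.mem_top τ

/-- The outer automorphism group. -/
theorem out_four (h20 : (2 : F) = 0) {k : ℕ} (hk : 1 ≤ k) (hF : Fintype.card F = 2 ^ k) :
    IsCyclic (Cfsg.Out (P 2 F)) ∧ Nat.card (Cfsg.Out (P 2 F)) = 2 * k := by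
  classical
  haveI : Fact (Nat.Prime 2) := ⟨Nat.prime_two⟩
  haveI : CharP F 2 := charP_of_card_eq_prime_pow (R := F) (f := k) hF
  let σ : F ≃+* F := frobeniusEquiv F 2
  have hσ : ∀ x, σ x = x * x := fun x => by
    show frobenius F 2 x = _
    rw [frobenius_def, sq]
  obtain ⟨hord, hgen⟩ := frob_generates σ hσ hk (by rw [Nat.card_eq_fintype_card, hF])
  obtain ⟨γ, hsq, hγe, hγs⟩ := exists_exo_sq h20 σ hσ
  haveI : (Cfsg.Inn (P 2 F)).Normal := normal_inn
  set z : Cfsg.Out (P 2 F) := QuotientGroup.mk γ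
  have hconj : ∀ g, (QuotientGroup.mk (conjHom 2 F g) : Cfsg.Out (P 2 F)) = 1 := fun g =>
    (QuotientGroup.eq_one_iff _).2 (conjHom_mem_inn h20 (by norm_num) g)
  have hfield : (QuotientGroup.mk (D (fieldSp σ)) : Cfsg.Out (P 2 F)) = z ^ 2 := by
    rw [← hsq, sq]; rfl
  have hstd : ∀ g τ, (QuotientGroup.mk (conjHom 2 F g * D (fieldSp τ)) : Cfsg.Out (P 2 F)) ∈
      Subgroup.zpowers z := by
    intro g τ
    rw [QuotientGroup.mk_mul, hconj, one_mul]
    obtain ⟨i, hi⟩ := Subgroup.mem_zpowers_iff.1 (hgen τ)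
    refine Subgroup.mem_zpowers_iff.2 ⟨2 * i, ?_⟩
    rw [← hi, map_zpow, map_zpow, QuotientGroup.mk_zpow, hfield, ← zpow_natCast, ← _root_.zpow_mul]
    norm_num
  have htop : ∀ y : Cfsg.Out (P 2 F), y ∈ Subgroup.zpowers z := by
    intro y
    obtain ⟨β, rfl⟩ := QuotientGroup.mk_surjective y
    obtain ⟨g, τ, rfl | rfl⟩ := std_or_exo h20 hγs β
    · exact hstd g τ
    · rw [QuotientGroup.mk_mul, QuotientGroup.mk_inv]
      exact mul_mem (inv_mem (Subgroup.mem_zpowers z)) (hstd g τ)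
  have heven : ∀ j, z ^ (2 * j) = 1 ↔ k ∣ j := by
    intro j
    rw [pow_mul, ← hfield, ← QuotientGroup.mk_pow, ← map_pow, ← map_pow, QuotientGroup.eq_one_iff,
      ← hord, orderOf_dvd_iff_pow_eq_one]
    refine ⟨fun h => ?_, fun h => by rw [h, map_one, map_one]; exact one_mem _⟩
    obtain ⟨g, hg⟩ := inn_le h
    exact (std_unique (by norm_num : 1 ≤ 2) (g := g⁻¹) (σ := σ ^ j)
      (by rw [map_inv, hg, inv_mul_cancel])).1
  have hodd : ∀ j, z ^ (2 * j + 1) ≠ 1 := by
    intro j h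
    rw [← QuotientGroup.mk_pow, QuotientGroup.eq_one_iff] at h
    obtain ⟨g, hg⟩ := inn_le h
    rw [pow_succ, pow_mul, sq, hsq, ← map_pow, ← map_pow] at hg
    refine exo_ne_std h20 hγe (mapGSp ((σ ^ j)⁻¹) g) ((σ ^ j)⁻¹) ?_
    rw [← twist_field, hg, map_inv, map_inv, inv_mul_cancel_left]
  have hordz : orderOf z = 2 * k := by
    rw [orderOf_eq_iff (by omega)]
    refine ⟨(heven k).2 dvd_rfl, fun i hi hi0 h => ?_⟩
    rcases Nat.even_or_odd' i with ⟨j, rfl | rfl⟩
    · have := Nat.le_of_dvd (by omega) ((heven j).1 h); omega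
    · exact hodd j h
  refine ⟨isCyclic_iff_exists_zpowers_eq_top.2 ⟨z, (Subgroup.eq_top_iff' _).2 htop⟩, ?_⟩
  rw [← hordz, ← Nat.card_zpowers, (Subgroup.eq_top_iff' _).2 htop, Subgroup.card_top]

end Cfsg.Agent.Lib.AutPSp
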