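import Cfsg.Agent.Lib.AutPSp.Basic

/-!
Odd characteristic: the transvection groups of `PSp_{2m}(F)` are the centres of the Sylow
subgroups, so automorphisms permute them.
-/

set_option autoImplicit false

namespace Cfsg.Agent.Lib.AutPSp

open Matrix Cfsg.Agent.Lib.Forms Cfsg.Agent.Lib.Classical

universe u

variable {m : ℕ} {F : Type u} [Field F]

/-- The first half of the standard basis. -/
def e (i : Fin m) : I m → F := Pi.single (Sum.inl i) 1

/-- The second half of the standard basis. -/
def f (i : Fin m) : I m → F := Pi.single (Sum.inr i) 1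

theorem e_ne_zero (i : Fin m) : (e i : I m → F) ≠ 0 := Pi.single_ne_zero_iff.2 one_ne_zero

theorem f_ne_zero (i : Fin m) : (f i : I m → F) ≠ 0 := Pi.single_ne_zero_iff.2 one_ne_zero

theorem B_e (x : I m → F) (i : Fin m) : B m F x (e i) = x (Sum.inr i) := by
  simp only [B, stdB_apply, Cfsg.sympForm, e, Matrix.mulVec_single_one, dotProduct,
    Fintype.sum_sum_type, Matrix.col_apply]
  simp [Matrix.J, Matrix.one_apply]

theorem B_f (x : I m → F) (i : Fin m) : B m F x (f i) = -x (Sum.inl i) := by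
  simp only [B, stdB_apply, Cfsg.sympForm, f, Matrix.mulVec_single_one, dotProduct,
    Fintype.sum_sum_type, Matrix.col_apply]
  simp [Matrix.J, Matrix.one_apply]

theorem B_ee (i j : Fin m) : B m F (e i) (e j) = 0 := by
  rw [B_e]; simp [e]

theorem B_ff (i j : Fin m) : B m F (f i) (f j) = 0 := by
  rw [B_f]; simp [f]

theorem B_ef (i j : Fin m) : B m F (e i) (f j) = if i = j then -1 else 0 := by
  rw [B_f]
  by_cases h : i = j <;> simp [e, h, Pi.single_apply, Ne.symm]

theorem B_fe (i j : Fin m) : B m F (f i) (e j) = if i = j then 1 else 0 := by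
  rw [B_e]
  by_cases h : i = j <;> simp [f, h, Pi.single_apply, Ne.symm]

/-- Position in the order `e_0, …, e_{m-1}, f_{m-1}, …, f_0`. -/
def pos : I m → ℕ
  | Sum.inl i => i
  | Sum.inr i => 2 * m - 1 - i

theorem pos_lt (a : I m) : pos a < 2 * m := by
  rcases a with i | i <;> simp only [pos] <;> omega

theorem pos_inj : Function.Injective (pos (m := m)) := by
  rintro (i | i) (j | j) h <;> simp only [pos] at h
  · exact congrArg Sum.inl (Fin.ext h)
  · omega
  · omega
  · exact congrArg Sum.inr (Fin.ext (by omega))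

/-- Unitriangular in that order. -/
def IsUni (g : Matrix (I m) (I m) F) : Prop :=
  ∀ a b, pos b ≤ pos a → g a b = (1 : Matrix (I m) (I m) F) a b

theorem IsUni.one : IsUni (1 : Matrix (I m) (I m) F) := fun _ _ _ => rfl

theorem IsUni.mul {g h : Matrix (I m) (I m) F} (hg : IsUni g) (hh : IsUni h) : IsUni (g * h) := by
  intro a b hab
  rw [Matrix.mul_apply, Finset.sum_eq_single a]
  · rw [hg a a le_rfl, Matrix.one_apply_eq, one_mul, hh a b hab]
  · intro c _ hca
    by_cases h1 : pos c ≤ pos a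
    · rw [hg a c h1, Matrix.one_apply_ne (Ne.symm hca), zero_mul]
    · rw [hh c b (by omega), Matrix.one_apply_ne ?_, mul_zero]
      rintro rfl
      omega
  · intro h; exact absurd (Finset.mem_univ a) h

theorem IsUni.nilpotent {g : Matrix (I m) (I m) F} (hg : IsUni g) : (g - 1) ^ (2 * m) = 0 := by
  have hk : ∀ k a b, pos b < pos a + k → ((g - 1) ^ k) a b = 0 := by
    intro k
    induction k with
    | zero =>
      intro a b h
      rw [pow_zero, Matrix.one_apply_ne]
      rintro rfl
      omega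
    | succ k ih =>
      intro a b h
      rw [pow_succ, Matrix.mul_apply]
      refine Finset.sum_eq_zero fun c _ => ?_
      by_cases h1 : pos c < pos a + k
      · rw [ih a c h1, zero_mul]
      · rw [Matrix.sub_apply, hg c b (by omega), sub_self, mul_zero]
  ext a b
  exact hk _ a b (by have := pos_lt b; omega)

theorem isUni_pow {g : Matrix (I m) (I m) F} (hg : IsUni g) : ∀ k, IsUni (g ^ k)
  | 0 => by rw [pow_zero]; exact IsUni.one
  | k + 1 => by rw [pow_succ]; exact (isUni_pow hg k).mul hg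

variable [Fintype F]

/-- The unitriangular symplectic matrices. -/
def U (m : ℕ) (F : Type u) [Field F] [Fintype F] : Subgroup (S m F) where
  carrier := {g | IsUni (g : Matrix (I m) (I m) F)}
  one_mem' := IsUni.one
  mul_mem' {_ _} hg hh := IsUni.mul hg hh
  inv_mem' {g} hg := by
    have h : g⁻¹ = g ^ (orderOf g - 1) := by
      rw [inv_eq_iff_mul_eq_one, ← pow_succ', Nat.sub_add_cancel (orderOf_pos g), pow_orderOf_eq_one]
    show IsUni ((g⁻¹ : S m F) : Matrix (I m) (I m) F)
    rw [h, SubmonoidClass.coe_pow]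
    exact isUni_pow hg _

theorem mem_U {g : S m F} : g ∈ U m F ↔ IsUni (g : Matrix (I m) (I m) F) := Iff.rfl

variable {p : ℕ} [Fact p.Prime] [CharP F p]

theorem pow_eq_one_of_nilpotent (hm : 1 ≤ m) {g : S m F}
    (hg : IsNilpotent ((g : Matrix (I m) (I m) F) - 1)) : ∃ k, g ^ p ^ k = 1 := by
  haveI : Nonempty (I m) := ⟨Sum.inl ⟨0, hm⟩⟩
  obtain ⟨N, hN⟩ := hg
  refine ⟨N, Subtype.ext ?_⟩
  show ((g ^ p ^ N : S m F) : Matrix (I m) (I m) F) = 1
  rw [SubmonoidClass.coe_pow, ← sub_eq_zero]
  have h := sub_pow_char_pow_of_commute p N (Commute.one_right (g : Matrix (I m) (I m) F))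
  rw [one_pow] at h
  rw [← h]
  exact pow_eq_zero_of_le (Nat.lt_pow_self (Fact.out : p.Prime).one_lt).le hN

theorem nilpotent_of_pow_eq_one (hm : 1 ≤ m) {g : S m F} {k : ℕ} (hg : g ^ p ^ k = 1) :
    IsNilpotent ((g : Matrix (I m) (I m) F) - 1) := by
  haveI : Nonempty (I m) := ⟨Sum.inl ⟨0, hm⟩⟩
  refine ⟨p ^ k, ?_⟩
  rw [sub_pow_char_pow_of_commute p k (Commute.one_right _), one_pow, ← SubmonoidClass.coe_pow, hg,
    sub_eq_zero]
  rfl

theorem nilpotent_of_mem_pGroup (hm : 1 ≤ m) {Q : Subgroup (S m F)} (hQ : IsPGroup p Q)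
    {g : S m F} (hg : g ∈ Q) : IsNilpotent ((g : Matrix (I m) (I m) F) - 1) := by
  obtain ⟨k, hk⟩ := hQ ⟨g, hg⟩
  refine nilpotent_of_pow_eq_one (p := p) hm (k := k) ?_
  exact congrArg Subtype.val hk

theorem isPGroup_U (hm : 1 ≤ m) : IsPGroup p (U m F) := fun g => by
  obtain ⟨k, hk⟩ := pow_eq_one_of_nilpotent (p := p) hm ⟨_, (mem_U.1 g.2).nilpotent⟩
  exact ⟨k, Subtype.ext hk⟩

/-- Transvections along the first half lie in `U`. -/
theorem spT_mem_U {v : I m → F} (hv : ∀ i, v (Sum.inr i) = 0) (c : F) : spT m v c ∈ U m F := by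
  refine mem_U.2 fun a b hab => ?_
  have h := congrFun (spT_mulVec m v c (Pi.single b 1)) a
  simp only [Matrix.mulVec_single_one, Matrix.col_apply, Pi.add_apply, Pi.smul_apply, smul_eq_mul] at h
  rw [h, Pi.single_apply, Matrix.one_apply]
  have hz : c * B m F (Pi.single b 1) v * v a = 0 := by
    rcases a with i | i
    · rcases b with j | j
      · have : B m F (Pi.single (Sum.inl j) 1) v = 0 := by
          rw [B_swap, show (Pi.single (Sum.inl j) 1 : I m → F) = e j from rfl, B_e, hv, neg_zero]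
        rw [this, mul_zero, zero_mul]
      · simp only [pos] at hab
        omega
    · rw [hv, mul_zero]
  rw [hz, add_zero]

/-- The other root elements used. -/
theorem spS_ef_mem_U {i j : Fin m} (hij : i < j) (k : F) : spS m (e i) (f j) k ∈ U m F := by
  refine mem_U.2 fun a b hab => ?_
  have hef : B m F (e i) (f j) = 0 := by rw [B_ef, if_neg (ne_of_lt hij)]
  have h := congrFun (spS_mulVec m hef k (Pi.single b 1)) a
  simp only [Matrix.mulVec_single_one, Matrix.col_apply, Pi.add_apply, Pi.smul_apply, smul_eq_mul] at h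
  rw [h, B_e, B_f, Pi.single_apply, Matrix.one_apply]
  have h1 : k * (Pi.single b (1 : F) : I m → F) (Sum.inr i) * (f j : I m → F) a = 0 := by
    by_cases hb : b = Sum.inr i
    · by_cases ha : a = Sum.inr j
      · subst ha hb; simp only [pos] at hab; omega
      · simp [f, ha]
    · simp [Ne.symm hb]
  have h2 : k * -(Pi.single b (1 : F) : I m → F) (Sum.inl j) * (e i : I m → F) a = 0 := by
    by_cases hb : b = Sum.inl j
    · by_cases ha : a = Sum.inl i
      · subst ha hb; simp only [pos] at hab; omega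
      · simp [e, ha]
    · simp [Ne.symm hb]
  rw [h1, h2, add_zero, add_zero]

theorem exists_sylow_centre (hm : 1 ≤ m) :
    ∃ Q : Sylow p (P m F),
      (∀ c, tr (e (⟨0, hm⟩ : Fin m)) c ∈
        (Q : Subgroup (P m F)) ⊓ Subgroup.centralizer ((Q : Subgroup (P m F)) : Set (P m F))) ∧
      ∀ z ∈ (Q : Subgroup (P m F)) ⊓ Subgroup.centralizer ((Q : Subgroup (P m F)) : Set (P m F)),
        (∃ c, z = tr (e (⟨0, hm⟩ : Fin m)) c) ∨ ((2 : F) = 0 ∧ ∃ (j : Fin m) (x k : F),
          (j : ℕ) = 1 ∧ k ≠ 0 ∧ z = pr (spT m (e (⟨0, hm⟩ : Fin m)) x * spS m (e ⟨0, hm⟩) (e j) k)) := by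
  classical
  set i0 : Fin m := ⟨0, hm⟩ with hi0
  obtain ⟨Q, hQ⟩ := (isPGroup_U (F := F) (p := p) hm).exists_le_sylow
  have hu : ∀ g ∈ (Q : Subgroup (S m F)), IsNilpotent ((g : Matrix (I m) (I m) F) - 1) := fun g hg =>
    nilpotent_of_mem_pGroup (p := p) hm Q.2 hg
  -- the fixed vector
  letI := spAction m F
  have hdvd : p ∣ Nat.card (I m → F) := by
    obtain ⟨n, -, hn⟩ := FiniteField.card F p
    haveI : Nonempty (I m) := ⟨Sum.inl i0⟩
    rw [Nat.card_fun, Nat.card_eq_fintype_card, hn]
    exact dvd_pow (dvd_pow_self p n.ne_zero) (Nat.card_pos.ne')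
  have h0 : (0 : I m → F) ∈ MulAction.fixedPoints (Q : Subgroup (S m F)) (I m → F) :=
    fun g => mulVec_zero _
  obtain ⟨v, hv, hne⟩ := Q.2.exists_fixed_point_of_prime_dvd_card_of_fixed_point (I m → F) hdvd h0
  have hfix : ∀ g ∈ (Q : Subgroup (S m F)), (g : Matrix (I m) (I m) F) *ᵥ v = v := fun g hg => hv ⟨g, hg⟩
  have hvr : ∀ i, v (Sum.inr i) = 0 := fun i => by
    have := hfix _ (hQ (spT_mem_U (v := e i) (fun j => by simp [e]) 1))
    rw [spT_mulVec, add_eq_left, one_mul, smul_eq_zero] at this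
    rw [← B_e v i]
    exact this.resolve_right (e_ne_zero i)
  have hvl : ∀ j, j ≠ i0 → v (Sum.inl j) = 0 := fun j hj => by
    have hlt : i0 < j := lt_of_le_of_ne (Nat.zero_le _) hj.symm
    have := hfix _ (hQ (spS_ef_mem_U hlt 1))
    rw [spS_mulVec m (by rw [B_ef, if_neg (ne_of_lt hlt)]), B_e, hvr, B_f] at this
    simpa [e] using congrFun this (Sum.inl i0)
  have hve : v = v (Sum.inl i0) • e i0 := by
    funext a
    rcases a with j | j
    · by_cases hj : j = i0
      · subst hj; simp [e]
      · simp [e, hvl j hj, hj]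
    · simp [e, hvr]
  have hc0 : v (Sum.inl i0) ≠ 0 := fun h => hne (by rw [hve, h, zero_smul])
  have hfix0 : ∀ g ∈ (Q : Subgroup (S m F)), (g : Matrix (I m) (I m) F) *ᵥ e i0 = e i0 := fun g hg => by
    have := hfix g hg
    rw [hve, mulVec_smul] at this
    exact smul_right_injective _ hc0 this
  refine ⟨Q.mapSurjective pr_surjective, ?_⟩
  rw [Sylow.coe_mapSurjective]
  constructor
  rotate_left
  · intro z hz
    obtain ⟨hz1, hz2⟩ := Subgroup.mem_inf.1 hz
    obtain ⟨z, hzQ, rfl⟩ := hz1
    -- `z` is central in `Q`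
    have hc : ∀ u ∈ (Q : Subgroup (S m F)), z * u * z⁻¹ = u := fun u huQ => by
      refine eq_of_pr_eq hm (hu _ (mul_mem (mul_mem hzQ huQ) (inv_mem hzQ))) (hu _ huQ) ?_
      rw [map_mul, map_mul, map_inv, mul_inv_eq_iff_eq_mul]
      exact (Subgroup.mem_centralizer_iff.1 hz2 _ ⟨u, huQ, rfl⟩).symm
    have hL : ∀ i, (z : Matrix (I m) (I m) F) *ᵥ e i = e i := fun i => by
      have h := hc _ (hQ (spT_mem_U (v := e i) (fun j => by simp [e]) 1))
      rw [spT_conj] at h
      have hne : (z : Matrix (I m) (I m) F) *ᵥ e i ≠ 0 := fun h0 => e_ne_zero (F := F) i (by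
        have := congrArg (fun x => ((z⁻¹ : S m F) : Matrix (I m) (I m) F) *ᵥ x) h0
        simpa [mulVec_mulVec, ← Submonoid.coe_mul] using this)
      obtain ⟨s, hs, -⟩ := par_of_spT_eq hne one_ne_zero h
      obtain ⟨N, hN⟩ := hu z hzQ
      have hk : ∀ k, (((z : Matrix (I m) (I m) F) - 1) ^ k) *ᵥ e i = (s - 1) ^ k • e i := by
        intro k
        induction k with
        | zero => simp
        | succ k ih =>
          rw [pow_succ', ← mulVec_mulVec, ih, mulVec_smul, sub_mulVec, hs, one_mulVec]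
          module
      have := hk N
      rw [hN, zero_mulVec] at this
      have hs1 : s = 1 := sub_eq_zero.1 (pow_eq_zero_iff'.1
        ((smul_eq_zero.1 this.symm).resolve_right (e_ne_zero i))).1
      rw [hs, hs1, one_smul]
    set d : Fin m → I m → F := fun j => (z : Matrix (I m) (I m) F) *ᵥ f j - f j with hd
    have hzf : ∀ j, (z : Matrix (I m) (I m) F) *ᵥ f j = f j + d j := fun j => by simp [hd]
    have hdr : ∀ j i, d j (Sum.inr i) = 0 := fun j i => by
      rw [← B_e (d j) i, hd]
      show B m F (_ - _) _ = 0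
      rw [map_sub, LinearMap.sub_apply]
      conv_lhs => arg 1; rw [← hL i, sp_iso]
      rw [sub_self]
    have hsym : ∀ i j, d j (Sum.inl i) = d i (Sum.inl j) := fun i j => by
      have h := sp_iso m z (f i) (f j)
      rw [hzf, hzf] at h
      have hdd : B m F (d i) (d j) = 0 := by
        simp only [B, stdB_apply, Cfsg.sympForm, dotProduct, mulVec, Fintype.sum_sum_type, hdr]
        simp [Matrix.J, Matrix.one_apply]
      simp only [map_add, LinearMap.add_apply, B_ff, hdd, add_zero, zero_add] at h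
      rw [B_swap (d j) (f i), B_f, B_f] at h
      linear_combination h
    have hcomm : ∀ i j, i < j → d j = -(d i (Sum.inl j)) • e i := fun i j hij => by
      have h := hc _ (hQ (spS_ef_mem_U hij 1))
      rw [mul_inv_eq_iff_eq_mul] at h
      have h' := congrArg (fun t : S m F => (t : Matrix (I m) (I m) F) *ᵥ f i) h
      have hef : B m F (e i) (f j) = 0 := by rw [B_ef, if_neg (ne_of_lt hij)]
      simp only [Submonoid.coe_mul, ← mulVec_mulVec] at h'
      rw [spS_mulVec m hef, B_fe, if_pos rfl, B_ff, hzf, spS_mulVec m hef] at h'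
      simp only [mul_zero, zero_smul, add_zero, mul_one, one_smul, mulVec_add] at h'
      rw [hzf, hzf] at h'
      simp only [map_add, LinearMap.add_apply, B_fe, B_ff, if_pos rfl, B_e, B_f, hdr, add_zero,
        one_mul, one_smul] at h'
      have hfr : (f i : I m → F) (Sum.inr i) = 1 := by simp [f]
      have hfl : (f i : I m → F) (Sum.inl j) = 0 := by simp [f]
      rw [hfr, hfl] at h'
      funext a
      have := congrFun h' a
      simp only [Pi.add_apply, Pi.smul_apply, smul_eq_mul] at this ⊢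
      linear_combination this
    have hd1 : ∀ j : Fin m, 2 ≤ (j : ℕ) → d j = 0 := fun j hj => by
      set i1 : Fin m := ⟨1, lt_trans (by omega) j.2⟩ with hi1
      have h10 : (i1 : Fin m) ≠ i0 := by simp [hi1, hi0]
      have h1 := congrFun (hcomm i0 j (by simp only [hi0, Fin.lt_def]; omega)) (Sum.inl i0)
      have h' := hcomm i1 j (by simp only [hi1, Fin.lt_def]; omega)
      have h3 := congrFun h' (Sum.inl i0)
      simp only [Pi.smul_apply, smul_eq_mul] at h1 h3
      rw [show (e i1 : I m → F) (Sum.inl i0) = 0 by simp [e, h10.symm], mul_zero] at h3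
      rw [h3, show (e i0 : I m → F) (Sum.inl i0) = 1 by simp [e], mul_one, eq_comm, neg_eq_zero] at h1
      rw [hcomm i0 j (by simp only [hi0, Fin.lt_def]; omega), h1, neg_zero, zero_smul]
    have hfin : ∀ k : Fin m, (k : ℕ) = 1 ∨ k = i0 ∨ 2 ≤ (k : ℕ) := fun k => by
      rcases Nat.lt_or_ge 1 (k : ℕ) with h | h
      · exact Or.inr (Or.inr h)
      · rcases Nat.eq_zero_or_pos (k : ℕ) with h' | h'
        · exact Or.inr (Or.inl (Fin.ext h'))
        · exact Or.inl (by omega)
    have hdiag : ∀ i j, i < j → d j (Sum.inl j) = 0 := fun i j hij => by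
      rw [hcomm i j hij]; simp [e, (ne_of_lt hij).symm]
    -- the element is determined by `d i0`
    by_cases hz0 : ∀ j, j ≠ i0 → d j = 0
    · left
      refine ⟨d i0 (Sum.inl i0), ?_⟩
      rw [tr]
      congr 1
      apply sp_ext
      intro x
      have hxr : x = (∑ i, x (Sum.inl i) • e i) + ∑ i, x (Sum.inr i) • f i := by
        funext a
        rcases a with i | i <;> simp [e, f, Finset.sum_apply, Pi.single_apply]
      rw [spT_mulVec, B_e]
      conv_lhs => rw [hxr]
      rw [mulVec_add]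
      simp only [mulVec_sum, mulVec_smul, hL, hzf, smul_add, Finset.sum_add_distrib]
      rw [← add_assoc, ← hxr, Finset.sum_eq_single i0 (fun j _ hj => by rw [hz0 j hj, smul_zero])
        (by simp)]
      congr 1
      funext a
      rcases a with i | i
      · by_cases hi : i = i0
        · subst hi; simp [e]; ring
        · rw [Pi.smul_apply, Pi.smul_apply, hsym, hz0 i hi]; simp [e, hi]
      · simp [e, hdr]
    · right
      push Not at hz0
      obtain ⟨j, hj, hdj⟩ := hz0
      have hj1 : (j : ℕ) = 1 := by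
        rcases hfin j with h | h | h
        · exact h
        · exact absurd h hj
        · exact absurd (hd1 j h) hdj
      have hlt : i0 < j := by simp only [hi0, Fin.lt_def]; omega
      set k := d j (Sum.inl i0) with hk
      have hdjk : d j = k • e i0 := by
        have h := hcomm i0 j hlt
        have h1 : k = -(d i0 (Sum.inl j)) := by
          rw [hk, h]; simp [e]
        rw [h, h1]
      have hk0 : k ≠ 0 := fun h => hdj (by rw [hdjk, h, zero_smul])
      have h20 : (2 : F) = 0 := by
        have h1 := congrFun (hcomm i0 j hlt) (Sum.inl i0)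
        simp only [Pi.smul_apply, smul_eq_mul, show (e i0 : I m → F) (Sum.inl i0) = 1 by simp [e],
          mul_one] at h1
        rw [hsym i0 j] at h1
        have : (2 : F) * k = 0 := by
          have h4 : d i0 (Sum.inl j) = k := by rw [hk, hsym]
          rw [h4] at h1
          linear_combination h1
        exact (mul_eq_zero.1 this).resolve_right hk0
      refine ⟨h20, j, d i0 (Sum.inl i0), k, hj1, hk0, ?_⟩
      congr 1
      apply sp_ext
      intro x
      have hxr : x = (∑ i, x (Sum.inl i) • e i) + ∑ i, x (Sum.inr i) • f i := by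
        funext a
        rcases a with i | i <;> simp [e, f, Finset.sum_apply, Pi.single_apply]
      rw [Submonoid.coe_mul, ← mulVec_mulVec, spS_mulVec m (B_ee _ _), spT_mulVec]
      simp only [map_add, map_smul, LinearMap.add_apply, LinearMap.smul_apply, B_ee, smul_zero,
        add_zero, B_e]
      conv_lhs => rw [hxr]
      rw [mulVec_add]
      simp only [mulVec_sum, mulVec_smul, hL, hzf, smul_add, Finset.sum_add_distrib]
      rw [← add_assoc, ← hxr, Finset.sum_eq_add i0 j hj.symm (fun l _ hl => by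
          rcases hfin l with h | h | h
          · exact absurd (Fin.ext (h.trans hj1.symm)) hl.2
          · exact absurd h hl.1
          · rw [hd1 l h, smul_zero]) (by simp) (by simp), hdjk]
      have hd0 : d i0 = d i0 (Sum.inl i0) • e i0 + k • e j := by
        funext a
        rcases a with i | i
        · rcases hfin i with h | h | h
          · rw [Fin.ext (h.trans hj1.symm)]
            simp only [Pi.add_apply, Pi.smul_apply, smul_eq_mul]
            rw [hk, hsym]; simp [e, hj]
          · subst h; simp [e, hj.symm]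
          · have h1 : i ≠ i0 := fun hh => by rw [hh] at h; simp [hi0] at h
            have h3 : i ≠ j := fun hh => by rw [hh] at h; omega
            rw [hsym, hd1 i h]; simp [e, h1, h3]
        · simp [e, hdr]
      conv_lhs => rw [hd0]
      funext a
      simp only [Pi.add_apply, Pi.smul_apply, smul_eq_mul,
        show ∀ a b : Fin m, (e a : I m → F) (Sum.inr b) = 0 from fun a b => by simp [e]]
      ring
  · intro c
    refine Subgroup.mem_inf.2 ⟨⟨_, hQ (spT_mem_U (v := e i0) (fun j => by simp [e]) c), rfl⟩, ?_⟩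
    refine Subgroup.mem_centralizer_iff.2 ?_
    rintro _ ⟨u, huQ, rfl⟩
    have := tr_conj u (e i0) c
    rw [hfix0 u huQ] at this
    exact mul_inv_eq_iff_eq_mul.1 this

theorem map_inf_centralizer {H : Type*} [Group H] (β : MulAut H) (K : Subgroup H) :
    (K ⊓ Subgroup.centralizer (K : Set H)).map β.toMonoidHom =
      K.map β.toMonoidHom ⊓ Subgroup.centralizer (K.map β.toMonoidHom : Set H) := by
  ext x
  simp only [Subgroup.mem_map, Subgroup.mem_inf, Subgroup.mem_centralizer_iff, SetLike.mem_coe,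
    MulEquiv.coe_toMonoidHom]
  constructor
  · rintro ⟨y, ⟨hy, hyc⟩, rfl⟩
    exact ⟨⟨y, hy, rfl⟩, by rintro _ ⟨w, hw, rfl⟩; rw [← map_mul, ← map_mul, hyc w hw]⟩
  · rintro ⟨⟨y, hy, rfl⟩, hc⟩
    exact ⟨y, ⟨hy, fun w hw => β.injective (by rw [map_mul, map_mul]; exact hc _ ⟨w, hw, rfl⟩)⟩, rfl⟩

omit [Fintype F] in
theorem map_conj_X (g : S m F) (v : I m → F) :
    (X v).map (MulAut.conj (pr g)).toMonoidHom = X ((g : Matrix (I m) (I m) F) *ᵥ v) := by
  ext z
  simp only [Subgroup.mem_map, MulEquiv.coe_toMonoidHom, MulAut.conj_apply, mem_X]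
  constructor
  · rintro ⟨_, ⟨c, rfl⟩, rfl⟩; exact ⟨c, tr_conj g v c⟩
  · rintro ⟨c, rfl⟩; exact ⟨_, ⟨c, rfl⟩, tr_conj g v c⟩

/-! ### The squaring property separating transvections in characteristic two -/

/-- Products with conjugates never have order four. -/
def Small {G : Type*} [Group G] (z : G) : Prop :=
  ∀ g : G, (z * (g * z * g⁻¹)) ^ 4 = 1 → (z * (g * z * g⁻¹)) ^ 2 = 1

omit [Fintype F] [Fact p.Prime] [CharP F p] in
theorem Small.map {G H : Type*} [Group G] [Group H] (β : G ≃* H) {z : G} (h : Small z) :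
    Small (β z) := fun g hg => by
  obtain ⟨g, rfl⟩ := β.surjective g
  rw [← map_inv, ← map_mul, ← map_mul, ← map_mul, ← map_pow] at hg ⊢
  rw [h g (β.injective (by rw [hg, map_one])), map_one]

omit [Fintype F] [Fact p.Prime] [CharP F p] in
theorem pr_injective (hm : 1 ≤ m) (h20 : (2 : F) = 0) :
    Function.Injective (pr (m := m) (F := F)) := by
  intro s t h
  obtain ⟨a, ha, hx⟩ := exists_scalar_of_mem_center m hm (QuotientGroup.eq.1 h)
  have : a = 1 := by
    have h1 : (a - 1) * (a - 1) = 0 := by linear_combination ha + (1 - a) * h20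
    exact sub_eq_zero.1 (mul_self_eq_zero.1 h1)
  have h1 : s⁻¹ * t = 1 := sp_ext fun x => by rw [hx, this, one_smul]; simp
  rwa [inv_mul_eq_one] at h1

omit [Fintype F] [Fact p.Prime] [CharP F p] in
theorem small_tr (hm : 1 ≤ m) (h20 : (2 : F) = 0) {v : I m → F} {c : F} :
    Small (tr v c) := by
  intro g hg
  obtain ⟨g, rfl⟩ := pr_surjective g
  rw [tr_conj] at hg ⊢
  set w := (g : Matrix (I m) (I m) F) *ᵥ v
  have hneg : ∀ x : F, -x = x := fun x => by linear_combination (-x) * h20
  rw [tr, tr, ← map_mul, ← map_pow] at hg ⊢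
  have hg' : (spT m v c * spT m w c) ^ 4 = 1 := pr_injective hm h20 (hg.trans (map_one _).symm)
  suffices h : (spT m v c * spT m w c) ^ 2 = 1 by rw [h, map_one]
  have hswap : B m F w v = B m F v w := by rw [B_swap, hneg]
  by_cases hω : c * B m F v w = 0
  · apply sp_ext
    intro x
    rw [pow_two, Submonoid.coe_mul, Submonoid.coe_mul, OneMemClass.coe_one]
    simp only [← mulVec_mulVec, spT_mulVec, one_mulVec, map_add, map_smul, LinearMap.add_apply,
      LinearMap.smul_apply, B_self, smul_eq_mul, mul_zero, add_zero, hswap]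
    funext a
    simp only [Pi.add_apply, Pi.smul_apply, smul_eq_mul]
    linear_combination
      (c * B m F x w * w a + c * B m F x v * v a) * h20 +
      ((2 * c * B m F x w) * v a + c * B m F x v * w a + c ^ 2 * B m F v w * B m F x w * w a +
        (c * B m F x w * v a + c ^ 2 * B m F x v * B m F v w * v a + c ^ 3 * B m F x w * B m F v w ^ 2 * v a)) * hω
  · exfalso
    set M := ((spT m v c * spT m w c : S m F) : Matrix (I m) (I m) F)
    have hN : ∀ p q : F, (M - 1) *ᵥ (p • v + q • w) =
        (c * B m F v w * (c * B m F v w * p + q)) • v + (c * B m F v w * p) • w := by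
      intro p q
      simp only [M, sub_mulVec, Submonoid.coe_mul, ← mulVec_mulVec, spT_mulVec, one_mulVec, map_add,
        map_smul, LinearMap.add_apply, LinearMap.smul_apply, B_self, smul_eq_mul, mul_zero, add_zero,
        zero_add, hswap]
      module
    have hω' : B m F v w ≠ 0 := fun h => hω (by rw [h, mul_zero])
    have hk : ∀ k, ∃ p q : F, ((M - 1) ^ k) *ᵥ v = p • v + q • w ∧ (p ≠ 0 ∨ q ≠ 0) := by
      intro k
      induction k with
      | zero => exact ⟨1, 0, by simp, Or.inl one_ne_zero⟩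
      | succ k ih =>
        obtain ⟨p, q, h, hne⟩ := ih
        refine ⟨_, _, by rw [pow_succ', ← mulVec_mulVec, h, hN], ?_⟩
        by_cases hp : p = 0
        · left
          rw [hp, mul_zero, zero_add]
          exact mul_ne_zero hω (hne.resolve_left (not_not.2 hp))
        · exact Or.inr (mul_ne_zero hω hp)
    obtain ⟨p, q, h, hne⟩ := hk 4
    have h4 : (M - 1) ^ 4 = 0 := by
      have hM4 : M ^ 4 = 1 := by
        have := congrArg Subtype.val hg'
        rw [SubmonoidClass.coe_pow] at this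
        exact this
      haveI : Nonempty (I m) := ⟨Sum.inl ⟨0, hm⟩⟩
      haveI : CharP F 2 := by
        haveI : Fact (Nat.Prime 2) := ⟨Nat.prime_two⟩
        exact ringChar.of_eq (CharP.ringChar_of_prime_eq_zero Nat.prime_two (by exact_mod_cast h20))
      haveI : Fact (Nat.Prime 2) := ⟨Nat.prime_two⟩
      have := sub_pow_char_pow_of_commute 2 2 (Commute.one_right M)
      norm_num at this
      rw [this, hM4, sub_self]
    rw [h4, zero_mulVec] at h
    have h1 := congrArg (fun z => B m F z w) h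
    have h2 := congrArg (fun z => B m F z v) h
    simp only [map_add, map_smul, LinearMap.add_apply, LinearMap.smul_apply, B_self, smul_eq_mul,
      mul_zero, add_zero, zero_add, map_zero, LinearMap.zero_apply, hswap] at h1 h2
    rcases hne with hp | hq
    · exact hp ((mul_eq_zero.1 h1.symm).resolve_right hω')
    · exact hq ((mul_eq_zero.1 h2.symm).resolve_right hω')

omit [Fact p.Prime] [CharP F p] [Fintype F] in
theorem exists_matrix_of_frame {u v : Fin m → (I m → F)}
    (huu : ∀ i j, B m F (u i) (u j) = 0) (hvv : ∀ i j, B m F (v i) (v j) = 0)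
    (huv : ∀ i j, B m F (v i) (u j) = if i = j then 1 else 0) :
    ∃ G : S m F, ∀ i, (G : Matrix (I m) (I m) F) *ᵥ e i = u i ∧ (G : Matrix (I m) (I m) F) *ᵥ f i = v i := by
  let M : Matrix (I m) (I m) F := Matrix.of fun a b => Sum.elim u v b a
  have hM : ∀ b, M *ᵥ Pi.single b 1 = Sum.elim u v b := fun b => by
    funext a; simp [M, Matrix.mulVec_single_one]
  have hB : (B m F).compl₁₂ M.mulVecLin M.mulVecLin = B m F := by
    refine LinearMap.ext_basis (Pi.basisFun F (I m)) (Pi.basisFun F (I m)) fun a b => ?_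
    simp only [Pi.basisFun_apply, LinearMap.compl₁₂_apply, Matrix.mulVecLin_apply, hM]
    rcases a with a | a <;> rcases b with b | b <;>
      simp only [Sum.elim_inl, Sum.elim_inr] <;>
      simp only [show (Pi.single (Sum.inl a) 1 : I m → F) = e a from rfl,
        show (Pi.single (Sum.inr a) 1 : I m → F) = f a from rfl,
        show (Pi.single (Sum.inl b) 1 : I m → F) = e b from rfl,
        show (Pi.single (Sum.inr b) 1 : I m → F) = f b from rfl, B_ee, B_ff, B_ef, B_fe, huu, hvv, huv]
    rw [B_swap, huv]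
    by_cases h : a = b <;> simp [h, Ne.symm]
  refine ⟨⟨M, (stdB_iff_matrix m M).1 fun x y => ?_⟩, fun i => ⟨hM _, hM _⟩⟩
  exact LinearMap.congr_fun (LinearMap.congr_fun hB x) y

omit [Fintype F] [Fact p.Prime] [CharP F p] in
theorem not_small_short (hm : 3 ≤ m) (h20 : (2 : F) = 0) {j : Fin m} (hj : (j : ℕ) = 1) {x k : F}
    (hk : k ≠ 0) :
    ¬ Small (pr (spT m (e (⟨0, by omega⟩ : Fin m)) x * spS m (e ⟨0, by omega⟩) (e j) k)) := by
  have hneg : ∀ x : F, -x = x := fun x => by linear_combination (-x) * h20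
  set i0 : Fin m := ⟨0, by omega⟩ with hi0
  set i2 : Fin m := ⟨2, by omega⟩ with hi2
  have h01 : i0 ≠ j := fun h => by rw [← h] at hj; simp [hi0] at hj
  have h02 : i0 ≠ i2 := by simp [hi0, hi2]
  have h12 : j ≠ i2 := fun h => by rw [h] at hj; simp [hi2] at hj
  let u : Fin m → I m → F := fun i => if i = j then f j else e (Equiv.swap i0 i2 i)
  let v : Fin m → I m → F := fun i => if i = j then e j else f (Equiv.swap i0 i2 i)
  have hsw : ∀ i, i ≠ j → Equiv.swap i0 i2 i ≠ j := fun i hi h => by
    have : Equiv.swap i0 i2 j = j := Equiv.swap_apply_of_ne_of_ne h01.symm h12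
    exact hi ((Equiv.swap i0 i2).injective (h.trans this.symm))
  have hsw' : ∀ i, i ≠ j → ¬ (j = Equiv.swap i0 i2 i) := fun i hi h => hsw i hi h.symm
  obtain ⟨G, hG⟩ := exists_matrix_of_frame (u := u) (v := v)
    (fun a b => by
      by_cases ha : a = j <;> by_cases hb : b = j <;>
        simp [u, ha, hb, B_ee, B_ff, B_ef, B_fe, hsw, hsw'])
    (fun a b => by
      by_cases ha : a = j <;> by_cases hb : b = j <;>
        simp [v, ha, hb, B_ee, B_ff, B_ef, B_fe, hsw, hsw'])
    (fun a b => by
      by_cases ha : a = j <;> by_cases hb : b = j <;>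
        simp [u, v, ha, hb, B_ee, B_ff, B_ef, B_fe, hneg, Ne.symm, hsw, hsw'])
  intro h
  have hz0 : (G : Matrix (I m) (I m) F) *ᵥ e i0 = e i2 := by
    rw [(hG i0).1]; simp [u, h01, Equiv.swap_apply_left]
  have hz1 : (G : Matrix (I m) (I m) F) *ᵥ e j = f j := by
    rw [(hG j).1]; simp [u]
  have hef : B m F (e i2) (f j) = 0 := by rw [B_ef, if_neg h12.symm]
  set z := spT m (e i0) x * spS m (e i0) (e j) k with hz
  set z' := spT m (e i2) x * spS m (e i2) (f j) k with hz'
  have hconj : G * z * G⁻¹ = z' := by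
    have hS : ∀ a b c, G * spS m a b c * G⁻¹ =
        spS m ((G : Matrix (I m) (I m) F) *ᵥ a) ((G : Matrix (I m) (I m) F) *ᵥ b) c := fun a b c => by
      simp only [spS, ← mulVec_add, ← spT_conj]; group
    rw [hz, hz', ← hz0, ← hz1, ← hS, ← spT_conj]; group
  have hy : (z * z') ^ 2 = spS m (e i0) (e i2) (k * k) := by
    apply sp_ext
    intro w
    rw [pow_two]
    simp only [hz, hz', Submonoid.coe_mul, ← mulVec_mulVec, spS_mulVec m (B_ee i0 j),
      spS_mulVec m hef, spS_mulVec m (B_ee i0 i2), spT_mulVec, map_add, map_smul, LinearMap.add_apply,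
      LinearMap.smul_apply, B_ee, B_ff, B_ef, B_fe, if_neg h01, if_neg h01.symm, if_neg h02,
      if_neg h02.symm, if_neg h12, if_neg h12.symm, if_true, hneg, smul_eq_mul, mul_zero, add_zero]
    funext a
    simp only [Pi.add_apply, Pi.smul_apply, smul_eq_mul]
    linear_combination
      ((x * B m F w (e i0) + k * B m F w (e j)) * e i0 a + k * B m F w (e i0) * e j a +
        (x * B m F w (e i2) + k * B m F w (f j)) * e i2 a +
        k * B m F w (e i2) * f j a + k * k * B m F w (e i2) * e i0 a) * h20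
  have hg : (pr z * (pr G * pr z * (pr G)⁻¹)) ^ 4 = 1 := by
    rw [← map_inv, ← map_mul, ← map_mul, hconj, ← map_mul, ← map_pow, show (4 : ℕ) = 2 * 2 from rfl,
      pow_mul, hy, pow_two, ← map_one (pr (m := m) (F := F))]
    congr 1
    apply sp_ext
    intro w
    rw [Submonoid.coe_mul, ← mulVec_mulVec, spS_mulVec m (B_ee i0 i2), spS_mulVec m (B_ee i0 i2),
      OneMemClass.coe_one, one_mulVec]
    simp only [map_add, map_smul, LinearMap.add_apply, LinearMap.smul_apply, B_ee, smul_zero, add_zero]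
    funext a
    simp only [Pi.add_apply, Pi.smul_apply, smul_eq_mul]
    linear_combination (k * k * B m F w (e i0) * e i2 a + k * k * B m F w (e i2) * e i0 a) * h20
  have h2 := h (pr G) hg
  rw [← map_inv, ← map_mul, ← map_mul, hconj, ← map_mul, ← map_pow, hy] at h2
  have h3 := congrArg (fun t : S m F => (t : Matrix (I m) (I m) F) *ᵥ f i2)
    (pr_injective (by omega) h20 (h2.trans (map_one _).symm))
  simp only [spS_mulVec m (B_ee i0 i2), OneMemClass.coe_one, one_mulVec, B_fe] at h3
  have h4 := congrFun h3 (Sum.inl i0)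
  simp [e, f, h02, h02.symm, hk] at h4

omit [Fact p.Prime] [CharP F p] in
/-- Automorphisms map transvections to transvections. -/
theorem map_tr (hm : 1 ≤ m) (h : (2 : F) ≠ 0 ∨ 3 ≤ m) (β : MulAut (P m F)) {v : I m → F}
    (hv : v ≠ 0) {c : F} (hc : c ≠ 0) :
    ∃ (w : I m → F) (d : F), w ≠ 0 ∧ d ≠ 0 ∧ β (tr v c) = tr w d := by
  obtain ⟨p, hp⟩ := CharP.exists F
  obtain ⟨n, hpp, -⟩ := FiniteField.card F p
  haveI : Fact p.Prime := ⟨hpp⟩
  obtain ⟨Q, hX, hZ⟩ := exists_sylow_centre (m := m) (F := F) (p := p) hm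
  obtain ⟨a, ha⟩ := MulAction.exists_smul_eq (P m F) Q (Q.mapSurjective (f := β.toMonoidHom) β.surjective)
  have hQ' : (Q : Subgroup (P m F)).map (MulAut.conj a).toMonoidHom =
      (Q : Subgroup (P m F)).map β.toMonoidHom := by
    have := congrArg (fun R : Sylow p (P m F) => (R : Subgroup (P m F))) ha
    exact this
  obtain ⟨g, hg⟩ := sp_transitive m (e_ne_zero (F := F) ⟨0, hm⟩) hv
  have h0 : β (tr (e (⟨0, hm⟩ : Fin m)) c) ∈ ((Q : Subgroup (P m F)) ⊓
      Subgroup.centralizer ((Q : Subgroup (P m F)) : Set (P m F))).map (MulAut.conj a).toMonoidHom := by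
    rw [map_inf_centralizer, hQ', ← map_inf_centralizer]
    exact ⟨_, hX c, rfl⟩
  obtain ⟨z, hz, hza⟩ := h0
  obtain ⟨a, rfl⟩ := pr_surjective a
  obtain ⟨b, hb⟩ := pr_surjective (β (pr g))
  have hv' : β (tr v c) = pr (b * a) * z * (pr (b * a))⁻¹ := by
    rw [← hg, ← tr_conj, map_mul, map_mul, map_inv, ← hb, ← hza, map_mul]
    simp only [MulEquiv.coe_toMonoidHom, MulAut.conj_apply]
    group
  rcases hZ z hz with ⟨d, rfl⟩ | ⟨h20, j, x, k, hj, hk, rfl⟩
  · rw [tr_conj] at hv'
    refine ⟨_, d, ?_, ?_, hv'⟩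
    · intro h0
      have h' := congrArg (fun x => (((b * a)⁻¹ : S m F) : Matrix (I m) (I m) F) *ᵥ x) h0
      simp only [mulVec_mulVec, ← Submonoid.coe_mul, inv_mul_cancel, mulVec_zero] at h'
      exact e_ne_zero _ (by simpa using h')
    · rintro rfl
      rw [tr_zero] at hv'
      exact tr_ne_one hm hv hc (β.injective (by rw [hv', map_one]))
  · exfalso
    have hm3 := h.resolve_left (not_not.2 h20)
    refine not_small_short hm3 h20 hj hk (x := x) ?_
    have h1 := (small_tr (v := v) (c := c) hm h20).map β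
    rw [hv'] at h1
    have h2 := h1.map (MulAut.conj (pr (b * a))⁻¹)
    simp only [MulAut.conj_apply, inv_inv] at h2
    convert h2 using 1
    group

/-- The automorphism maps transvections to transvections. -/
def TP (β : MulAut (P m F)) : Prop :=
  ∀ (v : I m → F) (c : F), v ≠ 0 → c ≠ 0 → ∃ (w : I m → F) (d : F), w ≠ 0 ∧ d ≠ 0 ∧ β (tr v c) = tr w d

omit [Fact p.Prime] [CharP F p] [Fintype F] in
theorem TP.mul {β γ : MulAut (P m F)} (hβ : TP β) (hγ : TP γ) : TP (β * γ) := fun v c hv hc => by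
  obtain ⟨w, d, hw, hd, h⟩ := hγ v c hv hc
  obtain ⟨w', d', hw', hd', h'⟩ := hβ w d hw hd
  exact ⟨w', d', hw', hd', by rw [MulAut.mul_apply, h, h']⟩

omit [Fact p.Prime] [CharP F p] [Fintype F] in
theorem TP.one : TP (1 : MulAut (P m F)) := fun v c hv hc => ⟨v, c, hv, hc, rfl⟩

omit [Fact p.Prime] [CharP F p] [Fintype F] in
theorem tp_conj (s : S m F) : TP (MulAut.conj (pr s) : MulAut (P m F)) := fun v c hv hc =>
  ⟨(s : Matrix (I m) (I m) F) *ᵥ v, c, fun h0 => hv (by
    have h' := congrArg (fun x => ((s⁻¹ : S m F) : Matrix (I m) (I m) F) *ᵥ x) h0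
    simpa [mulVec_mulVec, ← Submonoid.coe_mul] using h'), hc, tr_conj s v c⟩

omit [Fact p.Prime] [CharP F p] in
theorem TP.inv {β : MulAut (P m F)} (hβ : TP β) : TP β⁻¹ := by
  haveI : Finite (MulAut (P m F)) := Finite.of_injective _ DFunLike.coe_injective
  have hpow : ∀ n : ℕ, TP (β ^ n) := fun n => by
    induction n with
    | zero => rw [pow_zero]; exact TP.one
    | succ n ih => rw [pow_succ]; exact ih.mul hβ
  have : β⁻¹ = β ^ (orderOf β - 1) := by
    rw [inv_eq_iff_mul_eq_one, ← pow_succ', Nat.sub_add_cancel (orderOf_pos β), pow_orderOf_eq_one]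
  rw [this]; exact hpow _

omit [Fact p.Prime] [CharP F p] in
/-- Automorphisms permute the transvection groups. -/
theorem map_X (hm : 1 ≤ m) {β : MulAut (P m F)} (hβ : TP β) {v : I m → F} (hv : v ≠ 0) :
    ∃ w : I m → F, w ≠ 0 ∧ (X v).map β.toMonoidHom = X w := by
  have hle : ∀ (γ : MulAut (P m F)) (_ : TP γ) (u : I m → F), u ≠ 0 → ∃ w : I m → F, w ≠ 0 ∧
      ∀ c, γ (tr u c) ∈ X w := by
    intro γ hγ u hu
    obtain ⟨w, d, hw, hd, hwd⟩ := hγ u 1 hu one_ne_zero
    refine ⟨w, hw, fun c => ?_⟩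
    rcases eq_or_ne c 0 with rfl | hc
    · rw [tr_zero, map_one]; exact one_mem _
    obtain ⟨w', d', hw', hd', hwd'⟩ := hγ u c hu hc
    have hiff : ∀ y, y ≠ 0 → (B m F w y = 0 ↔ B m F w' y = 0) := by
      intro y hy
      obtain ⟨y', e', hy', he', hye⟩ := hγ.inv y 1 hy one_ne_zero
      have hy2 : γ (tr y' e') = tr y 1 := by rw [← hye]; simp
      rw [← commute_iff hm hw hy hd one_ne_zero, ← commute_iff hm hw' hy hd' one_ne_zero, ← hwd, ← hwd',
        ← hy2]
      have hcomm : ∀ {s : F}, s ≠ 0 → (Commute (γ (tr u s)) (γ (tr y' e')) ↔ B m F u y' = 0) := by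
        intro s hs
        rw [← commute_iff hm hu hy' hs he']
        exact ⟨fun hh => Commute.of_map (f := γ.toMonoidHom) γ.injective hh, fun hh => hh.map γ.toMonoidHom⟩
      rw [hcomm one_ne_zero, hcomm hc]
    obtain ⟨y, hy⟩ := exists_pairing_one (stdB_nondegenerate m) hw
    have hw'' : w' = (B m F w' y) • w := by
      refine sub_eq_zero.1 (eq_zero_of_B fun z => ?_)
      rw [map_sub, map_smul, smul_eq_mul, sub_eq_zero]
      have hk : B m F w (z - B m F w z • y) = 0 := by
        rw [map_sub, map_smul, smul_eq_mul, hy, mul_one, sub_self]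
      have hk' : B m F w' (z - B m F w z • y) = 0 := by
        rcases eq_or_ne (z - B m F w z • y) 0 with h0 | h0
        · rw [h0, map_zero]
        · exact (hiff _ h0).1 hk
      rw [map_sub, map_smul, smul_eq_mul, sub_eq_zero] at hk'
      rw [B_swap w' z, B_swap w z, hk']
      ring
    rw [hwd', hw'', tr_smul]
    exact tr_mem_X _ _
  obtain ⟨w, hw, hwle⟩ := hle β hβ v hv
  refine ⟨w, hw, le_antisymm ?_ ?_⟩
  · rintro _ ⟨x, hx, rfl⟩
    obtain ⟨c, rfl⟩ := mem_X.1 hx
    exact hwle c
  · obtain ⟨u, hu, hule⟩ := hle β⁻¹ hβ.inv w hw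
    obtain ⟨d, hd⟩ := mem_X.1 (hwle 1)
    have h1 := hule d
    rw [← hd] at h1
    simp only [MulAut.inv_apply_self] at h1
    obtain ⟨d', hd'⟩ := mem_X.1 h1
    obtain ⟨s, hs, hs0⟩ := par_of_spT_eq hv one_ne_zero (tr_inj hm hd')
    intro x hx
    obtain ⟨c, rfl⟩ := mem_X.1 hx
    obtain ⟨c', hc'⟩ := mem_X.1 (hule c)
    refine ⟨β⁻¹ (tr w c), ?_, by simp⟩
    rw [hs, X_smul hs0, SetLike.mem_coe, hc']
    exact tr_mem_X u c'

end Cfsg.Agent.Lib.AutPSp
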